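import Cfsg.Agent.Depth.N.Chk

/-!
# Depth (S5768): soundness of the elementary functions of the checker
-/

set_option autoImplicit false

namespace Cfsg.Agent.Depth.N

open Finset

theorem l2_cast : ((l2 : ℚ) : ℝ) = 0.6931471808 := by unfold l2; norm_num

theorem log_two_le : Real.log 2 ≤ (l2 : ℚ) := by rw [l2_cast]; exact Real.log_two_lt_d9.le

theorem l2_pos : (0 : ℝ) < (l2 : ℚ) := by rw [l2_cast]; norm_num

theorem le_clg (n : ℕ) : n ≤ 2 ^ clg n := by
  unfold clg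
  split_ifs with h h'
  · simpa using h
  · exact h'
  · exact Nat.lt_two_pow_self.le

theorem log_le_of_pow_le {x : ℝ} (hx : 0 < x) {k m : ℕ} (hk : 0 < k) (h : x ^ k ≤ 2 ^ m) :
    Real.log x ≤ m * (l2 : ℚ) / k := by
  have h1 := Real.log_le_log (pow_pos hx k) h
  rw [Real.log_pow, Real.log_pow] at h1
  have hk' : (0 : ℝ) < k := by exact_mod_cast hk
  rw [le_div_iff₀ hk']
  have := mul_le_mul_of_nonneg_left log_two_le (Nat.cast_nonneg (α := ℝ) m)
  linarith

theorem le_log_of_le_pow {x : ℝ} {k m : ℕ} (hk : 0 < k) (h : 2 ^ m ≤ x ^ k) :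
    m * 0.6931471803 / k ≤ Real.log x := by
  have h1 := Real.log_le_log (by positivity) h
  rw [Real.log_pow, Real.log_pow] at h1
  have hk' : (0 : ℝ) < k := by exact_mod_cast hk
  rw [div_le_iff₀ hk']
  have := mul_le_mul_of_nonneg_left Real.log_two_gt_d9.le (Nat.cast_nonneg (α := ℝ) m)
  linarith

theorem log_le_lgU {x : ℝ} {y : ℚ} (hx : 0 < x) (h : x ≤ y) : Real.log x ≤ lgU y := by
  have h1 : x ^ 32 ≤ 2 ^ clg ⌈y ^ 32⌉₊ := by
    have h2 : (y ^ 32 : ℚ) ≤ (⌈y ^ 32⌉₊ : ℕ) := Nat.le_ceil _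
    have h3 : ((y : ℝ)) ^ 32 ≤ (⌈y ^ 32⌉₊ : ℕ) := by exact_mod_cast h2
    have h4 : ((⌈y ^ 32⌉₊ : ℕ) : ℝ) ≤ 2 ^ clg ⌈y ^ 32⌉₊ := by exact_mod_cast le_clg _
    exact (pow_le_pow_left₀ hx.le h 32).trans (h3.trans h4)
  have := log_le_of_pow_le hx (by norm_num) h1
  unfold lgU
  push_cast at this ⊢
  exact this

theorem lgU_nonneg (y : ℚ) : (0 : ℝ) ≤ lgU y := by
  unfold lgU; push_cast; have := l2_pos; positivity

theorem log_nat_le (a b k m : ℕ) (ha : 0 < a) (hb : 0 < b) (hk : 0 < k) (h : a ^ k ≤ 2 ^ m * b ^ k) :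
    Real.log ((a : ℝ) / b) ≤ m * 0.6931471808 / k := by
  have hb' : (0 : ℝ) < b := by exact_mod_cast hb
  have ha' : (0 : ℝ) < a := by exact_mod_cast ha
  rw [← l2_cast]
  refine log_le_of_pow_le (by positivity) hk ?_
  rw [div_pow, div_le_iff₀ (by positivity)]
  exact_mod_cast h

theorem le_log_nat (a k m : ℕ) (hk : 0 < k) (h : 2 ^ m ≤ a ^ k) :
    m * 0.6931471803 / k ≤ Real.log (a : ℝ) := by
  refine le_log_of_le_pow hk ?_
  exact_mod_cast h

theorem log_B_le : Real.log 5910000000 ≤ 22.5 := by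
  have := log_nat_le 5910000000 1 10000 324606 (by norm_num) (by norm_num) (by norm_num) (by decide +kernel)
  norm_num at this ⊢; linarith

theorem le_log_B : 22.4999 ≤ Real.log 5910000000 := by
  have := le_log_nat 5910000000 10000 324605 (by norm_num) (by decide +kernel)
  norm_num at this ⊢; linarith

theorem log_192_le : Real.log 192 ≤ 5.25755 := by
  have := log_nat_le 192 1 10000 75850 (by norm_num) (by norm_num) (by norm_num) (by decide +kernel)
  norm_num at this ⊢; linarith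

theorem le_log_192 : 5.2574 ≤ Real.log 192 := by
  have := le_log_nat 192 10000 75849 (by norm_num) (by decide +kernel)
  norm_num at this ⊢; linarith

theorem log_1000_le : Real.log 1000 ≤ 6.908 := by
  have := log_nat_le 1000 1 10000 99658 (by norm_num) (by norm_num) (by norm_num) (by decide +kernel)
  norm_num at this ⊢; linarith

theorem log_F_le : Real.log 1005.6 ≤ 6.9135 := by
  have := log_nat_le 10056 10 10000 99739 (by norm_num) (by norm_num) (by norm_num) (by decide +kernel)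
  norm_num at this ⊢; linarith

theorem log_10_le : Real.log (11.08 / 0.0015) ≤ 8.9076 := by
  have := log_nat_le 110800 15 10000 128508 (by norm_num) (by norm_num) (by norm_num) (by decide +kernel)
  norm_num at this ⊢; linarith

theorem log_1_le : Real.log (2.0725 / 0.0015) ≤ 7.2312 := by
  have := log_nat_le 20725 15 10000 104322 (by norm_num) (by norm_num) (by norm_num) (by decide +kernel)
  norm_num at this ⊢; linarith

theorem log_N_le : Real.log (60 * 20.63) ≤ 7.1212 := by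
  have := log_nat_le 12378 10 10000 102736 (by norm_num) (by norm_num) (by norm_num) (by decide +kernel)
  norm_num at this ⊢; linarith

theorem log_M_le : Real.log (2 * 20.63) ≤ 3.72 := by
  have := log_nat_le 4126 100 10000 53667 (by norm_num) (by norm_num) (by norm_num) (by decide +kernel)
  norm_num at this ⊢; linarith

theorem le_log_24 : 55.26 ≤ Real.log (10 ^ 24) := by
  have := le_log_nat 10 10000 33219 (by norm_num) (by decide +kernel)
  rw [Real.log_pow]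
  norm_num at this ⊢; linarith

theorem hlo_aux (i : ℕ) : 1 ≤ hlo i ∧ hlo i ^ 4 ≤ 2 ^ i := by
  unfold hlo
  have h1 : (1 : ℚ) ≤ 2 ^ (i / 4) := one_le_pow₀ (by norm_num)
  have h2 : (2 : ℚ) ^ i = (2 ^ (i / 4)) ^ 4 * 2 ^ (i % 4) := by
    rw [← pow_mul, ← pow_add]; congr 1; omega
  have h3 : i % 4 < 4 := Nat.mod_lt _ (by norm_num)
  rw [h2, mul_pow]
  generalize i % 4 = j at *
  have h4 : (0 : ℚ) ≤ (2 ^ (i / 4)) ^ 4 := by positivity
  interval_cases j <;> simp only [List.getD_cons_zero, List.getD_cons_succ] <;>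
    exact ⟨by nlinarith, mul_le_mul_of_nonneg_left (by norm_num) h4⟩

theorem one_le_hlo (i : ℕ) : (1 : ℝ) ≤ hlo i := by exact_mod_cast (hlo_aux i).1

theorem hlo_le {h : ℝ} {i : ℕ} (h0 : 0 ≤ h) (hi : 2 ^ i ≤ h ^ 4) : (hlo i : ℝ) ≤ h := by
  have h1 : ((hlo i : ℚ) : ℝ) ^ 4 ≤ 2 ^ i := by exact_mod_cast (hlo_aux i).2
  exact (pow_le_pow_iff_left₀ (by linarith [one_le_hlo i]) h0 (by norm_num)).1 (h1.trans hi)

theorem hlo_half {h : ℝ} {i : ℕ} (h0 : 0 ≤ h) (hi : 2 ^ i ≤ h ^ 4) : (hlo (i / 2) : ℝ) ≤ √h := by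
  refine hlo_le (Real.sqrt_nonneg _) ?_
  have h1 : (√h) ^ 4 = h ^ 2 := by
    rw [show (4 : ℕ) = 2 * 2 by norm_num, pow_mul, Real.sq_sqrt h0]
  rw [h1]
  have h2 : ((2 : ℝ) ^ (i / 2)) ^ 2 ≤ (h ^ 2) ^ 2 := by
    rw [← pow_mul, ← pow_mul]
    exact (pow_le_pow_right₀ (by norm_num) (by omega)).trans hi
  exact (pow_le_pow_iff_left₀ (by positivity) (by positivity) (by norm_num)).1 h2

theorem Fm_spec (hF : BoxFF) {q i : ℕ} (hi : i ≤ 194) (h : q ^ 4 < 2 ^ i) : ff q ≤ Fm i := by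
  unfold Fm
  split
  · rename_i j hj
    have h1 := List.find?_some hj
    have h2 := List.mem_range.1 (List.mem_of_find?_eq_some hj)
    simp only [decide_eq_true_eq] at h1
    exact hF.2.1 q j h2 (lt_of_pow_lt_pow_left₀ 4 (Nat.zero_le _) (h.trans_le h1))
  · rename_i hj
    have h1 := List.find?_eq_none.1 hj 10 (by decide)
    simp only [decide_eq_true_eq] at h1
    exact absurd ((Nat.pow_le_pow_right (by norm_num) hi).trans (by decide)) h1

theorem rt2_spec {y : ℝ} {x : ℚ} (h : y ≤ x) (hx : 0 ≤ y) : √y ≤ rt2 x := by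
  unfold rt2
  split_ifs with h1
  · have h2 : (x : ℝ) ≤ (((isq ⌈x * 10 ^ 40⌉₊ : ℚ) / 10 ^ 20 : ℚ) : ℝ) ^ 2 := by exact_mod_cast h1
    refine Real.sqrt_le_iff.2 ⟨?_, h.trans h2⟩
    push_cast; positivity
  · push_cast
    refine Real.sqrt_le_iff.2 ⟨by linarith, by nlinarith⟩

theorem rt8_spec {y : ℝ} {x : ℚ} (h : y ≤ x) (hx : 0 ≤ y) : y ^ (1 / 8 : ℝ) ≤ rt2 (rt2 (rt2 x)) := by
  have h1 : y ^ (1 / 8 : ℝ) = √(√(√y)) := by
    rw [Real.sqrt_eq_rpow, Real.sqrt_eq_rpow, Real.sqrt_eq_rpow, ← Real.rpow_mul hx, ← Real.rpow_mul hx]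
    norm_num
  rw [h1]
  exact rt2_spec (rt2_spec (rt2_spec h hx) (Real.sqrt_nonneg _)) (Real.sqrt_nonneg _)

theorem le_up (x : ℚ) : x ≤ up x := by
  unfold up
  rw [le_div_iff₀ (by positivity)]
  exact Int.le_ceil _

theorem le_up' (x : ℚ) : (x : ℝ) ≤ up x := by exact_mod_cast le_up x

theorem dot_eq (a : List ℕ) : ∀ w : List ℕ, dot a w = ∑ j ∈ range a.length, w.getD j 495 * a.getD j 0 := by
  induction a with
  | nil => intro w; simp [dot]
  | cons x xs ih =>
    intro w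
    cases w with
    | nil => rw [dot, ih, List.length_cons, sum_range_succ']; simp [add_comm]
    | cons w ws => rw [dot, ih, List.length_cons, sum_range_succ']; simp [add_comm]

theorem SB_eq (f : ℕ → ℕ) (n i : ℕ) :
    ((SB ((List.range n).map f) i : ℚ) : ℝ) =
      ∑ j ∈ range (n - i), (Wt j : ℝ) / 10000 * ((f (i + j) : ℝ) / 10 ^ 9) := by
  unfold SB
  rw [dot_eq]
  push_cast
  rw [sum_div, List.length_drop, List.length_map, List.length_range]
  refine sum_congr rfl fun j hj => ?_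
  have hj' : i + j < n := by have := mem_range.1 hj; omega
  have h1 : (List.drop i (List.map f (List.range n))).getD j 0 = f (i + j) := by
    rw [List.getD_eq_getElem?_getD, List.getElem?_drop, List.getElem?_map, List.getElem?_range hj']; rfl
  rw [h1, show WL.getD j 495 = Wt j from rfl]
  ring

theorem SB_nonneg (a : List ℕ) (i : ℕ) : (0 : ℝ) ≤ SB a i := by
  unfold SB; push_cast; positivity

theorem exists_prs (x : ℝ) : ∀ (l : List ℚ) (a b : ℚ), (a : ℝ) ≤ x → x ≤ (l.getLastD b : ℚ) →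
    ∃ d ∈ prs (a :: b :: l), (d.1 : ℝ) ≤ x ∧ x ≤ d.2 := by
  intro l
  induction l with
  | nil => intro a b h1 h2; exact ⟨(a, b), by simp [prs], h1, by simpa using h2⟩
  | cons c l ih =>
    intro a b h1 h2
    by_cases h : x ≤ b
    · exact ⟨(a, b), by simp [prs], h1, h⟩
    · obtain ⟨d, hd, h3⟩ := ih b c (not_le.1 h).le (by rwa [List.getLastD_cons] at h2)
      refine ⟨d, ?_, h3⟩
      unfold prs at hd ⊢
      exact List.mem_cons_of_mem _ hd

theorem exists_DS {x : ℝ} (h0 : 0 ≤ x) (h1 : x ≤ 33) : ∃ d ∈ prs DS, 0 ≤ d.1 ∧ (d.1 : ℝ) ≤ x ∧ x ≤ d.2 := by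
  obtain ⟨d, hd, h⟩ := exists_prs x DS.tail.tail 0 0.3 (by simpa using h0) (by
    rw [show DS.tail.tail.getLastD 0.3 = 33 by decide +kernel]; simpa using h1)
  have h2 : ∀ d ∈ prs DS, 0 ≤ d.1 := by decide +kernel
  exact ⟨d, hd, h2 d hd, h⟩

theorem exists_DE {x : ℝ} (h0 : 0 ≤ x) (h1 : x ≤ 33) : ∃ d ∈ prs DE, 0 ≤ d.1 ∧ (d.1 : ℝ) ≤ x ∧ x ≤ d.2 := by
  obtain ⟨d, hd, h⟩ := exists_prs x DE.tail.tail 0 1.6 (by simpa using h0) (by
    rw [show DE.tail.tail.getLastD 1.6 = 33 by decide +kernel]; simpa using h1)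
  have h2 : ∀ d ∈ prs DE, 0 ≤ d.1 := by decide +kernel
  exact ⟨d, hd, h2 d hd, h⟩

end Cfsg.Agent.Depth.N
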