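import Cfsg.Agent.Depth.N.Defs
import Cfsg.Agent.Depth.D.Ff

/-!
# Depth (S5768): facts on `ff`, `q2`, `qc`, `ge` (helper61)
-/

set_option autoImplicit false

namespace Cfsg.Agent.Depth.N

open Finset

theorem gcd_mul_q2 (q : ℕ) : q.gcd 60 * q2 q = q := Nat.mul_div_cancel' (Nat.gcd_dvd_left _ _)

theorem q2_pos {q : ℕ} (hq : 0 < q) : 0 < q2 q := Nat.pos_of_mul_pos_left ((gcd_mul_q2 q).symm ▸ hq)

theorem gcd_two_eq (q : ℕ) : q.gcd 2 = (q.gcd 60).gcd 2 := (Nat.gcd_assoc q 60 2).symm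

theorem qc_eq' (q : ℕ) : qc q = q.gcd 60 / (q.gcd 60).gcd 2 * q2 q := by
  unfold qc
  rw [gcd_two_eq, Nat.div_mul_right_comm (Nat.gcd_dvd_left _ _), gcd_mul_q2]

theorem ge_eq {q : ℕ} (hq : 0 < q) : ge q = q.gcd 60 / (q.gcd 60).gcd 2 := by
  unfold ge
  rw [qc_eq', Nat.mul_div_cancel _ (q2_pos hq)]

/-- `q̌ = ge * q''` -/
theorem qc_eq {q : ℕ} (hq : 0 < q) : qc q = ge q * q2 q := by
  rw [ge_eq hq, qc_eq']

theorem div60 : ∀ g ∈ Nat.divisors 60, 1 ≤ g / g.gcd 2 ∧ g / g.gcd 2 ≤ 30 ∧ (g ≤ 2 → g / g.gcd 2 = 1 ∧ 30 ∣ 60 / g) ∧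
    (2 < g → 2 ≤ g / g.gcd 2 ∧ g / g.gcd 2 ∣ 30) := by decide +kernel

theorem gcd_mem (q : ℕ) : q.gcd 60 ∈ Nat.divisors 60 :=
  Nat.mem_divisors.2 ⟨Nat.gcd_dvd_right _ _, by norm_num⟩

theorem one_le_ge {q : ℕ} (hq : 0 < q) : 1 ≤ ge q := ge_eq hq ▸ (div60 _ (gcd_mem q)).1

theorem ge_le {q : ℕ} (hq : 0 < q) : ge q ≤ 30 := ge_eq hq ▸ (div60 _ (gcd_mem q)).2.1

theorem ff_q2 {q : ℕ} (hq : 0 < q) : ff (q2 q) = ff q := by
  refine D.ff_congr (fun p hp h5 => ⟨fun h => h.trans (Dvd.intro_left _ (gcd_mul_q2 q)), fun h => ?_⟩) (q2_pos hq) hq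
  rw [← gcd_mul_q2 q] at h
  refine ((Nat.Prime.dvd_mul hp).1 h).resolve_left fun e => ?_
  have h1 : p ∣ 2 ^ 2 * 3 * 5 := e.trans (Nat.gcd_dvd_right _ _)
  rcases (Nat.Prime.dvd_mul hp).1 h1 with h2 | h2
  · rcases (Nat.Prime.dvd_mul hp).1 h2 with h3 | h3
    · have := Nat.le_of_dvd (by norm_num) (hp.dvd_of_dvd_pow h3)
      omega
    · have := Nat.le_of_dvd (by norm_num) h3
      omega
  · have := Nat.le_of_dvd (by norm_num) h2
    omega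

theorem gcd_mul_eq (q : ℕ) {d : ℕ} (hd : d.Coprime 60) : (q * d).gcd 60 = q.gcd 60 :=
  Nat.Coprime.gcd_mul_right_cancel q hd

theorem q2_mul (q : ℕ) {d : ℕ} (hd : d.Coprime 60) : q2 (q * d) = q2 q * d := by
  unfold q2
  rw [gcd_mul_eq q hd, Nat.div_mul_right_comm (Nat.gcd_dvd_left _ _)]

theorem pos_of_coprime60 {d : ℕ} (hd : d.Coprime 60) : 0 < d :=
  Nat.pos_of_ne_zero fun e => by subst e; norm_num at hd

theorem ge_mul {q d : ℕ} (hq : 0 < q) (hd : d.Coprime 60) : ge (q * d) = ge q := by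
  rw [ge_eq (Nat.mul_pos hq (pos_of_coprime60 hd)), ge_eq hq, gcd_mul_eq q hd]

theorem qc_mul {q d : ℕ} (hq : 0 < q) (hd : d.Coprime 60) : qc (q * d) = ge q * q2 q * d := by
  rw [qc_eq (Nat.mul_pos hq (pos_of_coprime60 hd)), ge_mul hq hd, q2_mul q hd, mul_assoc]

theorem ff_thr (q j : ℕ) (hj : j < 11) (h : q < thr.getD j 0) : ff q ≤ (fv.getD j 0 : ℚ) := by
  interval_cases j
  · exact (D.ff_lt_7 h).le.trans (by norm_num [fv])
  · exact (D.ff_lt_77 h).trans (by norm_num [fv])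
  · exact (D.ff_lt_1001 h).trans (by norm_num [fv])
  · exact (D.ff_lt_17017 h).trans (by norm_num [fv])
  · exact (D.ff_lt_323323 h).trans (by norm_num [fv])
  · exact (D.ff_lt_7436429 h).trans (by norm_num [fv])
  · exact (D.ff_lt_215656441 h).trans (by norm_num [fv])
  · exact (D.ff_lt_6685349671 h).trans (by norm_num [fv])
  · exact (D.ff_lt_247357937827 h).trans (by norm_num [fv])
  · exact (D.ff_lt_10141675450907 h).trans (by norm_num [fv])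
  · exact (D.ff_lt_436092044389001 h).trans (by norm_num [fv])

theorem boxFF : BoxFF := by
  refine ⟨D.one_le_ff, ff_thr, fun q hq => ⟨q2_pos hq, ff_q2 hq, (gcd_mul_q2 q).symm, one_le_ge hq, ge_le hq,
    fun h => ?_, fun h => ?_⟩, fun q d hq hd => ⟨gcd_mul_eq q hd, q2_mul q hd, ge_mul hq hd⟩⟩
  · obtain ⟨h1, h2⟩ := (div60 _ (gcd_mem q)).2.2.1 h
    have h3 : ge q = 1 := (ge_eq hq).trans h1
    refine ⟨h3, by rw [qc_eq hq, h3, one_mul], Nat.Coprime.coprime_dvd_right h2 ?_⟩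
    exact Nat.coprime_div_gcd_div_gcd (Nat.gcd_pos_of_pos_left _ hq)
  · obtain ⟨h1, h2⟩ := (div60 _ (gcd_mem q)).2.2.2 h
    rw [← ge_eq hq] at h1 h2
    refine ⟨h1, fun e => ?_⟩
    have := Nat.eq_one_of_dvd_coprimes e (qc_eq hq ▸ dvd_mul_right _ _) h2
    omega

end Cfsg.Agent.Depth.N
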