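import Cfsg.Agent.Depth.N.Mult0

/-!
# Depth (S5768): multiplicative sums, `boxMult` (helper23)
-/

set_option autoImplicit false

namespace Cfsg.Agent.Depth.N.Mu

open Finset Cfsg.Agent.Depth.N
open scoped Classical

theorem good {k p : ℕ} (hk : k.Coprime 30) (h : p ∈ k.primeFactors) : p.Prime ∧ 7 ≤ p :=
  ⟨Nat.prime_of_mem_primeFactors h, seven_le hk (Nat.prime_of_mem_primeFactors h) (Nat.dvd_of_mem_primeFactors h)⟩

theorem fact_pos {k p : ℕ} (h : p ∈ k.primeFactors) : 0 < k.factorization p :=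
  Nat.pos_of_ne_zero (Finsupp.mem_support_iff.1 (by rwa [Nat.support_factorization]))

theorem fact_sqf {k p : ℕ} (hk : Squarefree k) (h : p ∈ k.primeFactors) : k.factorization p = 1 :=
  le_antisymm (hk.natFactorization_le_one p) (fact_pos h)

theorem cM_nonneg {k : ℕ} (hk : k.Coprime 30) : 0 ≤ cM k := by
  unfold cM
  split_ifs
  · exact prod_nonneg fun p hp => (cQ_bounds (good hk hp).1 (good hk hp).2).1
  · exact le_rfl

theorem xM_nonneg {ρ : ℚ} (h1 : 1 ≤ ρ) {k : ℕ} (hk : k.Coprime 30) : 0 ≤ xM (uR ρ) k :=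
  prod_nonneg fun _ hp => xl_nonneg h1 (good hk hp).1 (good hk hp).2 _

theorem cM_le_xM {ρ : ℚ} (h1 : 1 ≤ ρ) {k : ℕ} (hk : k.Coprime 30) : cM k ≤ xM (uR ρ) k := by
  unfold cM
  split_ifs with h
  · rw [xM_eq]
    refine prod_le_prod (fun p hp => (cQ_bounds (good hk hp).1 (good hk hp).2).1) fun p hp => ?_
    rw [fact_sqf h hp, xl_one ρ (good hk hp).1]
    exact cQ_le_xQ h1 (good hk hp).1 (good hk hp).2
  · exact xM_nonneg h1 hk

theorem ff_eq {k : ℕ} (hk : k.Coprime 30) : ff k = ∏ p ∈ k.primeFactors, (p : ℝ) / (p - 1) := by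
  rw [ff, filter_true_of_mem fun p hp => by have := (good hk hp).2; omega]

theorem mu2_bound {ρ : ℚ} (h1 : 1 ≤ ρ) (h2 : ρ ^ 88 ≤ 2) {k : ℕ} (h0 : 0 < k) (hk : k.Coprime 30) :
    (ff k * xM (uR ρ) k) ^ 2 * k ≤ mu2 ρ := by
  have e1 : (k : ℝ) = ∏ p ∈ k.primeFactors, (p : ℝ) ^ k.factorization p := by
    conv_lhs => rw [← Nat.factorization_prod_pow_eq_self h0.ne', Finsupp.prod, Nat.support_factorization]
    push_cast; rfl
  set L : Finset ℕ := {7, 11, 13, 17, 19, 23} with hL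
  set g : ℕ → ℝ := fun p => max 1 (((p : ℝ) / (p - 1) * xQ ρ p) ^ 2 * p) with hg
  have e2 : (mu2 ρ : ℝ) = ∏ p ∈ L, g p := by
    rw [hL, prod_insert (by decide), prod_insert (by decide), prod_insert (by decide), prod_insert (by decide),
      prod_insert (by decide), prod_singleton]
    simp only [mu2, hg, List.map_cons, List.map_nil, List.prod_cons, List.prod_nil, mul_one]
    push_cast; rfl
  have g1 : ∀ p, 1 ≤ g p := fun p => le_max_left _ _
  calc (ff k * xM (uR ρ) k) ^ 2 * k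
      = ∏ p ∈ k.primeFactors, (((p : ℝ) / (p - 1) * xl ρ p (k.factorization p)) ^ 2 * (p : ℝ) ^ k.factorization p) := by
        rw [prod_mul_distrib, prod_pow, prod_mul_distrib, ← e1, ff_eq hk, xM_eq]
    _ ≤ ∏ p ∈ k.primeFactors, if p ∈ L then g p else 1 := by
        refine prod_le_prod (fun p _ => by positivity) fun p hp => ?_
        obtain ⟨pp, p7⟩ := good hk hp
        by_cases hv : k.factorization p = 1 → 29 ≤ p
        · refine (loc_le h1 h2 pp p7 (fact_pos hp) hv).trans ?_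
          split_ifs
          · exact g1 p
          · exact le_rfl
        · obtain ⟨hv1, hv2⟩ := Classical.not_imp.1 hv
          have hpL : p ∈ L := by
            have h4 : p < 29 := not_le.1 hv2
            rw [hL]
            interval_cases p <;> first | decide | exact absurd pp (by decide)
          rw [if_pos hpL, hv1, xl_one ρ pp, pow_one]
          exact le_max_right _ _
    _ = ∏ p ∈ k.primeFactors ∩ L, g p := by rw [prod_ite_mem]
    _ ≤ ∏ p ∈ L, g p :=
        prod_le_prod_of_subset_of_one_le inter_subset_right (fun p _ => zero_le_one.trans (g1 p)) fun p _ _ => g1 p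
    _ = mu2 ρ := e2.symm

theorem PL_good : ∀ p ∈ PL, p.Prime ∧ 7 ≤ p := by decide +kernel

theorem PL_nodup : PL.Nodup := by decide +kernel

theorem PL_all : ∀ p < 300, p.Prime → 7 ≤ p → p ∈ PL := by decide +kernel

theorem pf_eq {k : ℕ} (h0 : 0 < k) (hk : k.Coprime 30) (h3 : k < 300) : k.primeFactors = (fk k).toFinset := by
  ext p
  simp only [fk, List.mem_toFinset, List.mem_filter, beq_iff_eq, ← Nat.dvd_iff_mod_eq_zero]
  constructor
  · intro hp
    have h4 := Nat.le_of_mem_primeFactors hp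
    exact ⟨PL_all p (by omega) (good hk hp).1 (good hk hp).2, Nat.dvd_of_mem_primeFactors hp⟩
  · rintro ⟨hp, hd⟩
    exact Nat.mem_primeFactors.2 ⟨(PL_good p hp).1, hd, h0.ne'⟩

theorem prod_fk {k : ℕ} (h0 : 0 < k) (hk : k.Coprime 30) (h3 : k < 300) (f : ℕ → ℚ) :
    ((((fk k).map f).prod : ℚ) : ℝ) = ∏ p ∈ k.primeFactors, (f p : ℝ) := by
  rw [pf_eq h0 hk h3, ← List.prod_toFinset f (l := fk k) (PL_nodup.filter _), Rat.cast_prod]

theorem fQ_eq (k : ℕ) : fQ k = ((fk k).map fun p : ℕ => (p : ℚ) / (p - 1)).prod := by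
  unfold fQ
  congr 1
  induction fk k with
  | nil => rfl
  | cons a l ih => exact congrArg (List.cons _) ih

theorem fact_small {k p : ℕ} (h0 : 0 < k) (hk : k.Coprime 30) (h3 : k < 300) (hp : p ∈ k.primeFactors) :
    k.factorization p = if k % (p * p) = 0 then 2 else 1 := by
  obtain ⟨pp, p7⟩ := good hk hp
  have h1 := fact_pos hp
  have h2 : k.factorization p < 3 := by
    by_contra h
    have h4 := Nat.le_of_dvd h0 ((pp.pow_dvd_iff_le_factorization h0.ne').2 (not_lt.1 h))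
    have h5 : 7 ^ 3 ≤ p ^ 3 := Nat.pow_le_pow_left p7 3
    omega
  have h4 : k % (p * p) = 0 ↔ 2 ≤ k.factorization p := by
    rw [← Nat.dvd_iff_mod_eq_zero, ← sq, pp.pow_dvd_iff_le_factorization h0.ne']
  split_ifs with h
  · have := h4.1 h; omega
  · have := mt h4.2 h; omega

theorem small {k : ℕ} (ρ : ℚ) (h0 : 0 < k) (hk : k.Coprime 30) (h3 : k < 300) :
    ff k = fQ k ∧ cM k = ckQ k ∧ xM (uR ρ) k = xkQ ρ k := by
  refine ⟨?_, ?_, ?_⟩
  · rw [ff_eq hk, fQ_eq, prod_fk h0 hk h3]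
    exact prod_congr rfl fun p _ => by push_cast; rfl
  · rw [ckQ, prod_fk h0 hk h3, cM]
    split_ifs with h
    · refine prod_congr rfl fun p hp => ?_
      have h1 := fact_small h0 hk h3 hp
      rw [fact_sqf h hp] at h1
      rw [if_neg fun h2 => by rw [if_pos h2] at h1; omega]
    · rw [Nat.squarefree_iff_prime_squarefree] at h
      push Not at h
      obtain ⟨p, pp, hd⟩ := h
      refine (prod_eq_zero (i := p) (Nat.mem_primeFactors.2 ⟨pp, (Dvd.intro _ rfl).trans hd, h0.ne'⟩) ?_).symm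
      rw [if_pos (Nat.mod_eq_zero_of_dvd hd), Rat.cast_zero]
  · rw [xkQ, prod_fk h0 hk h3, xM_eq]
    refine prod_congr rfl fun p hp => ?_
    rw [fact_small h0 hk h3 hp]
    split_ifs
    · exact xl_two ρ (good hk hp).1
    · exact xl_one ρ (good hk hp).1

theorem cM_mul {k d : ℕ} (hd : Squarefree d) (h : k.Coprime d) :
    cM (k * d) = cM k * ∏ p ∈ d.primeFactors, (cQ p : ℝ) := by
  unfold cM
  rw [h.primeFactors_mul]
  by_cases hk : Squarefree k
  · rw [if_pos ((Nat.squarefree_mul h).2 ⟨hk, hd⟩), if_pos hk, prod_union h.disjoint_primeFactors]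
  · rw [if_neg fun h2 => hk ((Nat.squarefree_mul h).1 h2).1, if_neg hk, zero_mul]

theorem xM_mul (ρ : ℚ) {k d : ℕ} (hd : Squarefree d) (h : k.Coprime d) :
    xM (uR ρ) (k * d) = xM (uR ρ) k * ∏ p ∈ d.primeFactors, (xQ ρ p : ℝ) := by
  rw [xM_eq, xM_eq, h.primeFactors_mul, prod_union h.disjoint_primeFactors, Nat.factorization_mul_of_coprime h]
  congr 1
  · refine prod_congr rfl fun p hp => ?_
    have : d.factorization p = 0 := Finsupp.notMem_support_iff.1
      (by rw [Nat.support_factorization]; exact disjoint_left.1 h.disjoint_primeFactors hp)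
    rw [Finsupp.add_apply, this, add_zero]
  · refine prod_congr rfl fun p hp => ?_
    have : k.factorization p = 0 := Finsupp.notMem_support_iff.1
      (by rw [Nat.support_factorization]; exact disjoint_right.1 h.disjoint_primeFactors hp)
    rw [Finsupp.add_apply, this, zero_add, fact_sqf hd hp, xl_one ρ (Nat.prime_of_mem_primeFactors hp)]

theorem tot_sqf {d : ℕ} (hd : Squarefree d) : (d.totient : ℝ) = ∏ p ∈ d.primeFactors, ((p : ℝ) - 1) := by
  rw [Nat.totient_eq_prod_factorization hd.ne_zero, Finsupp.prod, Nat.support_factorization, Nat.cast_prod]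
  refine prod_congr rfl fun p hp => ?_
  rw [fact_sqf hd hp, Nat.sub_self, pow_zero, one_mul, Nat.cast_sub (Nat.prime_of_mem_primeFactors hp).one_le,
    Nat.cast_one]

/-- the sum over the multipliers is at most the full Euler product -/
theorem sum_le {ρ : ℚ} (h1 : 1 ≤ ρ) {k : ℕ} (hk : k.Coprime 30) {C : ℝ} (hC : 1 ≤ C) {D S : Finset ℕ}
    (hD : ∀ d ∈ D, Squarefree d ∧ d.Coprime (60 * k)) (hS : ∀ p ∈ S, p.Prime ∧ 7 ≤ p)
    (hDS : ∀ d ∈ D, d.primeFactors ⊆ S) :
    ∑ d ∈ D, trm ρ C (k * d) / d.totient ≤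
      C * xM (uR ρ) k * ∏ p ∈ S, (1 + (xQ ρ p : ℝ) / (p - 1)) - (C - 1) * cM k * ∏ p ∈ S, (1 + (cQ p : ℝ) / (p - 1)) := by
  set T : Finset ℕ → ℝ := fun A =>
    C * xM (uR ρ) k * ∏ p ∈ A, (xQ ρ p : ℝ) / (p - 1) - (C - 1) * cM k * ∏ p ∈ A, (cQ p : ℝ) / (p - 1) with hT
  have e1 : ∀ d ∈ D, trm ρ C (k * d) / d.totient = T d.primeFactors := by
    intro d hd
    have h2 : k.Coprime d := (Nat.Coprime.coprime_mul_left_right (hD d hd).2).symm
    rw [trm, cM_mul (hD d hd).1 h2, xM_mul ρ (hD d hd).1 h2, tot_sqf (hD d hd).1, hT]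
    simp only [prod_div_distrib]
    ring
  have e2 : ∀ A ∈ S.powerset, 0 ≤ T A := by
    intro A hA
    have hA' : ∀ p ∈ A, 0 ≤ (cQ p : ℝ) / (p - 1) ∧ (cQ p : ℝ) / (p - 1) ≤ (xQ ρ p : ℝ) / (p - 1) := by
      intro p hp
      obtain ⟨pp, p7⟩ := hS p (mem_powerset.1 hA hp)
      have hp7 : (7 : ℝ) ≤ p := by exact_mod_cast p7
      have h3 : (0 : ℝ) ≤ p - 1 := by linarith
      exact ⟨div_nonneg (cQ_bounds pp p7).1 h3, div_le_div_of_nonneg_right (cQ_le_xQ h1 pp p7) h3⟩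
    have h4 := xM_nonneg h1 hk
    refine sub_nonneg.2 (mul_le_mul (mul_le_mul (by linarith) (cM_le_xM h1 hk) (cM_nonneg hk) (by linarith))
      (prod_le_prod (fun p hp => (hA' p hp).1) fun p hp => (hA' p hp).2) (prod_nonneg fun p hp => (hA' p hp).1) ?_)
    exact mul_nonneg (by linarith) h4
  rw [sum_congr rfl e1, ← sum_image (f := T) (g := Nat.primeFactors) fun d hd d' hd' h => by
    rw [← Nat.prod_primeFactors_of_squarefree (hD d hd).1, h, Nat.prod_primeFactors_of_squarefree (hD d' hd').1]]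
  refine (sum_le_sum_of_subset_of_nonneg ?_ fun A hA _ => e2 A hA).trans (le_of_eq ?_)
  · intro A hA
    obtain ⟨d, hd, rfl⟩ := mem_image.1 hA
    exact mem_powerset.2 (hDS d hd)
  · rw [prod_one_add, prod_one_add, mul_sum, mul_sum, ← sum_sub_distrib]

theorem PL_prod : (1.1224 : ℚ) ≤ (PL.map fun p : ℕ => 1 + cQ p / (p - 1)).prod := by decide +kernel

theorem one_le_c {p : ℕ} (h : p.Prime ∧ 7 ≤ p) : 1 ≤ 1 + (cQ p : ℝ) / (p - 1) := by
  have hp7 : (7 : ℝ) ≤ p := by exact_mod_cast h.2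
  exact le_add_of_nonneg_right (div_nonneg (cQ_bounds h.1 h.2).1 (by linarith))

theorem one_le_x {ρ : ℚ} (h1 : 1 ≤ ρ) {p : ℕ} (h : p.Prime ∧ 7 ≤ p) : 1 ≤ 1 + (xQ ρ p : ℝ) / (p - 1) := by
  have hp7 : (7 : ℝ) ≤ p := by exact_mod_cast h.2
  exact le_add_of_nonneg_right (div_nonneg ((cQ_bounds h.1 h.2).1.trans (cQ_le_xQ h1 h.1 h.2)) (by linarith))

theorem sums {ρ : ℚ} (h1 : 1 ≤ ρ) {k : ℕ} (h0 : 0 < k) (hk : k.Coprime 30) {P0 : ℚ} {C : ℝ} {D : Finset ℕ}
    (hP : P0ok ρ P0) (hC : 1 ≤ C) (hD : ∀ d ∈ D, Squarefree d ∧ d.Coprime (60 * k)) :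
    ∑ d ∈ D, trm ρ C (k * d) / d.totient ≤ C * xM (uR ρ) k * P0 ∧
    (k < 300 → ∑ d ∈ D, trm ρ C (k * d) / d.totient ≤
      C * xkQ ρ k * P0 / z0Q ρ k - (C - 1) * ckQ k * 1.1224 / z1Q k) := by
  set S0 := D.biUnion Nat.primeFactors with hS0
  have g0 : ∀ p ∈ S0, p.Prime ∧ 7 ≤ p := by
    intro p hp
    obtain ⟨d, hd, hp⟩ := mem_biUnion.1 hp
    exact good ((Nat.Coprime.coprime_mul_right_right (hD d hd).2).coprime_dvd_right (by norm_num)) hp
  have s0 : ∀ d ∈ D, d.primeFactors ⊆ S0 := fun d hd => subset_biUnion_of_mem _ hd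
  have hx : 0 ≤ C * xM (uR ρ) k := mul_nonneg (by linarith) (xM_nonneg h1 hk)
  have hc : 0 ≤ (C - 1) * cM k := mul_nonneg (by linarith) (cM_nonneg hk)
  refine ⟨(sum_le h1 hk hC hD g0 s0).trans ?_, fun h3 => ?_⟩
  · refine (sub_le_self _ (mul_nonneg hc (prod_nonneg fun p hp => zero_le_one.trans (one_le_c (g0 p hp))))).trans ?_
    exact mul_le_mul_of_nonneg_left (hP S0 g0) hx
  · set S := S0 ∪ (PL.toFinset \ k.primeFactors) with hS
    have g1 : ∀ p ∈ S, p.Prime ∧ 7 ≤ p := by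
      intro p hp
      rcases mem_union.1 hp with hp | hp
      · exact g0 p hp
      · exact PL_good p (List.mem_toFinset.1 (mem_sdiff.1 hp).1)
    have dj : Disjoint S k.primeFactors := by
      refine disjoint_union_left.2 ⟨(disjoint_biUnion_left _ _ _).2 fun d hd => ?_, sdiff_disjoint⟩
      exact (Nat.Coprime.coprime_mul_left_right (hD d hd).2).disjoint_primeFactors
    have z0 : (z0Q ρ k : ℝ) = ∏ p ∈ k.primeFactors, (1 + (xQ ρ p : ℝ) / (p - 1)) := by
      rw [z0Q, prod_fk h0 hk h3]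
      exact prod_congr rfl fun p _ => by push_cast; rfl
    have z1 : (z1Q k : ℝ) = ∏ p ∈ k.primeFactors, (1 + (cQ p : ℝ) / (p - 1)) := by
      rw [z1Q, prod_fk h0 hk h3]
      exact prod_congr rfl fun p _ => by push_cast; rfl
    have z0p : (0 : ℝ) < z0Q ρ k := z0 ▸ prod_pos fun p hp => zero_lt_one.trans_le (one_le_x h1 (good hk hp))
    have z1p : (0 : ℝ) < z1Q k := z1 ▸ prod_pos fun p hp => zero_lt_one.trans_le (one_le_c (good hk hp))
    have g2 : ∀ p ∈ S ∪ k.primeFactors, p.Prime ∧ 7 ≤ p := fun p hp =>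
      (mem_union.1 hp).elim (g1 p) (good hk)
    have a1 : ∏ p ∈ S, (1 + (xQ ρ p : ℝ) / (p - 1)) ≤ P0 / z0Q ρ k := by
      rw [le_div_iff₀ z0p, z0, ← prod_union dj]
      exact hP _ g2
    have a2 : 1.1224 / (z1Q k : ℝ) ≤ ∏ p ∈ S, (1 + (cQ p : ℝ) / (p - 1)) := by
      rw [div_le_iff₀ z1p, z1, ← prod_union dj]
      have b1 : ((1.1224 : ℚ) : ℝ) ≤ ∏ p ∈ PL.toFinset, (1 + (cQ p : ℝ) / (p - 1)) := by
        refine (Rat.cast_le.2 PL_prod).trans (le_of_eq ?_)
        rw [← List.prod_toFinset _ PL_nodup, Rat.cast_prod]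
        exact prod_congr rfl fun p _ => by push_cast; rfl
      refine le_trans (by norm_num) (b1.trans (prod_le_prod_of_subset_of_one_le ?_ ?_ ?_))
      · intro p hp
        by_cases h : p ∈ k.primeFactors
        · exact mem_union_right _ h
        · exact mem_union_left _ (mem_union_right _ (mem_sdiff.2 ⟨hp, h⟩))
      · exact fun p hp => zero_le_one.trans (one_le_c (PL_good p (List.mem_toFinset.1 hp)))
      · exact fun p hp _ => one_le_c (g2 p hp)
    obtain ⟨-, e1, e2⟩ := small ρ h0 hk h3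
    refine (sum_le h1 hk hC hD g1 fun d hd => (s0 d hd).trans subset_union_left).trans ?_
    rw [← e1, ← e2, mul_div_assoc, mul_div_assoc]
    exact sub_le_sub (mul_le_mul_of_nonneg_left a1 hx) (mul_le_mul_of_nonneg_left a2 hc)

end Cfsg.Agent.Depth.N.Mu

namespace Cfsg.Agent.Depth.N

/-- multiplicative sums -/
theorem boxMult : BoxMult := fun ρ h1 h2 =>
  ⟨fun _ he => Mu.growth h1 he, fun _ h0 hk =>
    ⟨Mu.cM_nonneg hk, Mu.cM_le_xM h1 hk, Mu.mu2_bound h1 h2 h0 hk, Mu.small ρ h0 hk,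
      fun _ _ _ hP hC hD => Mu.sums h1 h0 hk hP hC hD⟩⟩

end Cfsg.Agent.Depth.N
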