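import Cfsg.Agent.Depth.N.Sk
import Cfsg.Agent.Depth.N.Mult
import Cfsg.Agent.Depth.N.FF
import Cfsg.Agent.Depth.D.Tau

/-!
# Depth (S5768): bounds for the matching terms and their sums
-/

set_option autoImplicit false

namespace Cfsg.Agent.Depth.N

open Finset Cfsg.Agent.Depth.D
open scoped Classical

theorem omg_nonneg' (d : ℚ) : (0 : ℝ) ≤ omg d := le_trans (by norm_num) (omg_ge d)

theorem zet_le (d0 d1 : ℚ) : zet d0 d1 ≤ zetQ d0 d1 := by
  have h := rt2_spec (x := (0.9685 * d1 * omg d0) ^ 2 +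
    (1.0472 * (min ((0.7229 * d1) ^ 2 / 3) 1.14 + min ((0.1808 * d1) ^ 2 / 3) 1.14)) ^ 2)
    (y := (0.9685 * (d1 : ℝ) * omg d0) ^ 2 +
      (1.0472 * (min ((0.7229 * (d1 : ℝ)) ^ 2 / 3) 1.14 + min ((0.1808 * (d1 : ℝ)) ^ 2 / 3) 1.14)) ^ 2)
    (le_of_eq (by push_cast; rfl)) (by positivity)
  unfold zet zetQ
  push_cast
  linarith

theorem trm_one (ρ : ℚ) (C : ℝ) : trm ρ C 1 = 1 := by simp [trm, cM, xM]

theorem SP_facts : ∀ p ∈ SP, p.Prime ∧ 7 ≤ p ∧ p < 300 ∧ p ∈ [7, 11, 13, 17, 19, 23] := by decide +kernel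

theorem spd_facts {k d : ℕ} (h : d ∈ spd k) :
    k * d ∈ 1 :: SP ∧ Squarefree d ∧ d.Coprime (60 * k) ∧ (d.totient : ℝ) = max 1 ((d : ℝ) - 1) := by
  have h1 : ((Nat.totient 1 : ℕ) : ℝ) = max 1 (((1 : ℕ) : ℝ) - 1) := by simp
  unfold spd at h
  split_ifs at h with h2 h3
  · subst h2
    refine ⟨by rwa [one_mul], ?_⟩
    rcases List.mem_cons.1 h with rfl | h4
    · exact ⟨squarefree_one, Nat.coprime_one_left _, h1⟩
    · obtain ⟨h5, h6, -, -⟩ := SP_facts d h4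
      have h7 : ∀ p ∈ SP, p.Coprime (60 * 1) := by decide +kernel
      have h8 : (7 : ℝ) ≤ d := by exact_mod_cast h6
      refine ⟨h5.squarefree, h7 d h4, ?_⟩
      rw [Nat.totient_prime h5, Nat.cast_sub h5.one_le, Nat.cast_one, max_eq_right (by linarith)]
  · obtain rfl := List.mem_singleton.1 h
    exact ⟨by rw [mul_one]; exact List.mem_cons_of_mem _ h3, squarefree_one, Nat.coprime_one_left _, h1⟩
  · simp at h

theorem spd_nodup (k : ℕ) : (spd k).Nodup := by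
  unfold spd
  split_ifs
  · decide
  · simp
  · simp

theorem MatLe.mono {N c1 q : ℕ} {β x y : ℝ} (h : MatLe N c1 q β x) (hxy : x ≤ y) : MatLe N c1 q β y :=
  fun h1 b h2 h3 => (h h1 b h2 h3).trans (mul_le_mul_of_nonneg_left hxy (Th_nonneg N))

namespace Ctx

variable {r : Rg} {N c1 : ℕ} {lam : ℕ → ℕ → ℝ} (X : Ctx r N c1 lam)
include X

theorem mass_ok (hC : chkC r = true) (h3 : BoxM3) {e : ℕ} (h1 : 1 < e) (hc : e.Coprime 30)
    (he : e ^ 4 < 2 ^ (r.iP + 1)) :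
    mass N e ≤ Th N * (r.C * (∏ p ∈ e.primeFactors, uR r.ρ p ^ e.factorization p) / e.totient) := by
  simp only [chkC, Bool.and_eq_true, Bool.or_eq_true, decide_eq_true_eq, List.all_eq_true, List.mem_range] at hC
  obtain ⟨⟨a1, a2⟩, a3⟩ := hC
  have h7 : 7 ≤ e := (Mu.seven_le hc (Nat.minFac_prime h1.ne') (Nat.minFac_dvd e)).trans (Nat.minFac_le (by omega))
  have h0 : e ^ 8 ≠ 0 := by positivity
  have i1 : 22 ≤ (e ^ 8).log2 := (Nat.le_log2 h0).2 (le_trans (by norm_num) (Nat.pow_le_pow_left h7 8))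
  have i2 : (e ^ 8).log2 < 2 * r.iP + 2 := (Nat.log2_lt h0).2 (by
    rw [show 8 = 4 * 2 from rfl, pow_mul, show 2 * r.iP + 2 = (r.iP + 1) * 2 by ring, pow_mul]
    exact Nat.pow_lt_pow_left he two_ne_zero)
  have i3 : e ^ 8 < 2 ^ ((e ^ 8).log2 + 1) := Nat.lt_log2_self
  have g := (boxMult r.ρ X.par.ρ1 X.par.ρ2).1 e (by omega)
  generalize (e ^ 8).log2 = i at i1 i2 i3 g
  have a4 := (a3 i i2).resolve_left (by omega)
  have l0 : (0 : ℚ) ≤ l2 := by unfold l2; norm_num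
  have i4 : (i + 1 : ℚ) ≤ 2 * r.iP + 2 := by exact_mod_cast (by omega : i + 1 ≤ 2 * r.iP + 2)
  have i5 := mul_le_mul_of_nonneg_right i4 l0
  have i6 : (0 : ℚ) ≤ (i + 1) * l2 := by positivity
  obtain ⟨lc, hlc⟩ : ∃ lc : ℚ, lc = lgU (60.6 * r.TB) + (i + 1) * l2 / 8 := ⟨_, rfl⟩
  rw [← hlc] at a4
  have b1 : 4.4 ≤ lc := by linarith
  have b2 : lc + 6 ≤ r.xa := by linarith
  have b3 : (lc : ℝ) + 6 ≤ r.xa := by exact_mod_cast b2
  have b4 : (0 : ℝ) ≤ lc := by exact_mod_cast (by linarith : 0 ≤ lc)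
  have hT : (0 : ℝ) < r.TB := by exact_mod_cast X.par.TB
  have he0 : (0 : ℝ) < e := by exact_mod_cast (by omega : 0 < e)
  have c1 : Real.log (60.6 * r.TB * e) ≤ lc := by
    have k1 := log_le_lgU (x := 60.6 * r.TB) (y := 60.6 * r.TB) (by positivity) (le_of_eq (by push_cast; rfl))
    have k2 := log_le_of_pow_le he0 (k := 8) (m := i + 1) (by norm_num) (by exact_mod_cast i3.le)
    rw [Real.log_mul (by positivity) he0.ne', hlc]
    push_cast at k2 ⊢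
    linarith
  have c2 := X.mul_lev_sq (by positivity) c1
  have c3 := X.one_le_lev (lc := lc) (by linarith)
  have c4 : 400 ≤ lev N lc ^ 2 := by
    have k1 : Real.exp 6 * Real.exp lc ≤ BB N := by
      rw [← Real.exp_add, ← Real.exp_log X.B_pos]
      exact Real.exp_le_exp.2 (by linarith [X.xa_le])
    have k2 : 400 ≤ Real.exp 6 := by
      rw [show (6 : ℝ) = (6 : ℕ) * 1 by norm_num, Real.exp_nat_mul]
      exact le_trans (by norm_num) (pow_le_pow_left₀ (by norm_num) Real.exp_one_gt_d9.le 6)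
    rw [X.lev_sq, le_div_iff₀ (Real.exp_pos _)]
    nlinarith [Real.exp_pos (lc : ℝ)]
  have c5 : lev N lc ^ 2 ≤ BB N := by
    rw [X.lev_sq]
    exact div_le_self X.B_pos.le (Real.one_le_exp b4)
  have c6 := h3 N e r.lo r.TB (lev N lc) X.h23 (by omega) hc X.lo_pos X.hTh hT c3 (by
    have k1 := mul_le_mul_of_nonneg_left c4 (mul_pos he0 hT).le
    nlinarith) (by nlinarith)
  refine c6.trans (mul_le_mul_of_nonneg_left (div_le_div_of_nonneg_right ?_ (Nat.cast_nonneg _)) (Th_nonneg N))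
  have c7 := X.ccH_spec X.par.TB b1 (by linarith)
  have c8 := qle a4
  have c9 : (1 : ℝ) ≤ r.C := by exact_mod_cast X.par.C
  push_cast at c8
  exact c7.trans (c8.trans (mul_le_mul_of_nonneg_left g (by linarith)))

theorem mat_zero (h1 : BoxM1) {q : ℕ} (hq : 0 < q) (hg : 2 < q.gcd 60) (β : ℝ) : MatLe N c1 q β 0 := by
  intro _ b _ hb
  rw [(h1 N c1 b q β X.h23 X.c1_lt hq (Nat.isCoprime_iff_coprime.2 hb)).1 ((boxFF.2.2.1 q hq).2.2.2.2.2.2 hg).2,
    norm_zero, mul_zero]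

theorem trm_nonneg {n : ℕ} (hn : 0 < n) (hc : n.Coprime 30) : 0 ≤ trm r.ρ r.C n := by
  obtain ⟨h1, h2, -⟩ := (boxMult r.ρ X.par.ρ1 X.par.ρ2).2 n hn hc
  have c9 : (1 : ℝ) ≤ r.C := by exact_mod_cast X.par.C
  exact add_nonneg h1 (mul_nonneg (by linarith) (sub_nonneg.2 h2))

theorem mat_gen (hC : chkC r = true) (h1 : BoxM1) (h3 : BoxM3) {q : ℕ} {β : ℝ} {d0 : ℚ} (hq : 0 < q)
    (hg : q.gcd 60 ≤ 2) (hk : q2 q ^ 4 < 2 ^ (r.iP + 1)) (h0 : 0 ≤ d0) (hd : (d0 : ℝ) ≤ dl N β) :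
    MatLe N c1 q β (omg d0 * trm r.ρ r.C (q2 q)) := by
  intro _ b _ hb
  obtain ⟨-, e1, e2⟩ := (boxFF.2.2.1 q hq).2.2.2.2.2.1 hg
  have h := (h1 N c1 b q β X.h23 X.c1_lt hq (Nat.isCoprime_iff_coprime.2 hb)).2 d0 r.C (uR r.ρ)
  rw [e1] at h
  exact h e2 h0 hd (by exact_mod_cast X.par.C) (Mu.one_le_uR X.par.ρ1) fun e he hdv =>
    X.mass_ok hC h3 he (Nat.Coprime.coprime_dvd_left hdv e2)
      ((Nat.pow_le_pow_left (Nat.le_of_dvd (q2_pos hq) hdv) 4).trans_lt hk)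

theorem mat_bet (hC : chkC r = true) (h1 : BoxM1) (h3 : BoxM3) (h4 : BoxM4) (h5 : BoxM5) (hPI : PIH r N)
    {q g : ℕ} {β : ℝ} {e : ℚ × ℚ} (hq : 0 < q) (hg : q.gcd 60 ≤ g) (hg2 : g ≤ 2) (hk : q2 q ∈ 1 :: SP)
    (h0 : 0 ≤ e.1) (hd : (e.1 : ℝ) ≤ dl N β) (hd' : dl N β ≤ e.2) :
    MatLe N c1 q β (bet r g e (q2 q) : ℚ) := by
  obtain ⟨x0, hx, p2, pp⟩ := hPI
  have e1 := gcd_mul_q2 q
  have e2 : 0 < q.gcd 60 := Nat.gcd_pos_of_pos_left _ hq
  rcases List.mem_cons.1 hk with k1 | k1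
  · intro hq1
    rw [k1, mul_one] at e1
    obtain rfl : q = 2 := by omega
    obtain rfl : g = 2 := by omega
    rw [k1]
    unfold bet
    rw [if_pos rfl, if_neg (by norm_num)]
    split_ifs with h8
    · intro b _ hb
      refine (h4 N c1 b β x0 r.p2.1 r.p2.2 e.1 e.2 X.h23 X.c1_lt X.c1_odd (Nat.isCoprime_iff_coprime.2 hb) p2 hx
        (by exact_mod_cast X.par.p1) (by exact_mod_cast X.par.p2) h0 hd hd' h8).trans
        (mul_le_mul_of_nonneg_left ?_ (Th_nonneg N))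
      push_cast
      linarith [zet_le e.1 e.2]
    · have h := X.mat_gen hC h1 h3 hq hg (by rw [k1, one_pow]; exact Nat.one_lt_two_pow (by omega)) h0 hd
      rw [k1, trm_one, mul_one] at h
      exact h hq1
  · intro _ b _ hb
    obtain ⟨s1, s2, -, s4⟩ := SP_facts _ k1
    obtain ⟨u1, u2⟩ := X.par.pp _ k1
    have u3 : (0 : ℝ) ≤ (ppv r (q2 q)).1 := by exact_mod_cast u1
    have u4 : ((ppv r (q2 q)).1 : ℝ) ≤ (ppv r (q2 q)).2 := by exact_mod_cast u2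
    have e3 : q = q2 q ∨ q = 2 * q2 q := by
      rcases (by omega : q.gcd 60 = 1 ∨ q.gcd 60 = 2) with e4 | e4 <;> rw [e4] at e1 <;> omega
    obtain ⟨m1, m2⟩ := h5 N c1 (q2 q) q b β x0 _ _ r.lo e.1 X.h23 X.c1_lt X.c1_odd s4 e3
      (Nat.isCoprime_iff_coprime.2 hb) (pp _ k1) hx u4 X.lo_pos X.hTh h0 hd
    unfold bet
    rw [if_neg (by omega)]
    split_ifs with h8
    · have m3 := m2 e.2 hd' h8 u3
      obtain ⟨v1, v2, -⟩ := Mu.cQ_bounds s1 s2
      have v3 : (7 : ℝ) ≤ q2 q := by exact_mod_cast s2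
      have v4 : 0 ≤ (cQ (q2 q) : ℝ) + (1 - cQ (q2 q)) * ((ppv r (q2 q)).2 / ((q2 q - 1) * r.lo)) :=
        add_nonneg v1 (mul_nonneg (by linarith) (div_nonneg (u3.trans u4) (mul_nonneg (by linarith) X.lo_pos.le)))
      have v5 := mul_le_mul_of_nonneg_right (zet_le e.1 e.2) v4
      push_cast
      rw [mul_min_of_nonneg _ _ (Th_nonneg N)]
      exact le_min m1 (m3.trans (mul_le_mul_of_nonneg_left (by linarith) (Th_nonneg N)))
    · push_cast
      exact m1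

theorem mtE_nonneg {k g d : ℕ} {e : ℚ × ℚ} (hn : 0 < k * d) (hc : (k * d).Coprime 30) : 0 ≤ mtE r k g e d := by
  have h := mul_nonneg (omg_nonneg' e.1) (X.trm_nonneg hn hc)
  unfold mtE
  split_ifs
  · exact le_min h (le_max_left _ _)
  · exact h

/-- the bound of an explicit cell at the multiplier `d` -/
theorem mat_E (hC : chkC r = true) (h1 : BoxM1) (h3 : BoxM3) (h4 : BoxM4) (h5 : BoxM5) (hPI : PIH r N)
    {q g d : ℕ} {β : ℝ} {e : ℚ × ℚ} (hq : 0 < q) (hg : q.gcd 60 ≤ g) (hg2 : g ≤ 2) (hd0 : d.Coprime 60)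
    (hk : (q2 q * d) ^ 4 < 2 ^ (r.iP + 1)) (h0 : 0 ≤ e.1) (hd : (e.1 : ℝ) ≤ dl N β) (hd' : dl N β ≤ e.2) :
    0 ≤ mtE r (q2 q) g e d ∧ MatLe N c1 (q * d) β (mtE r (q2 q) g e d) := by
  have hq' := Nat.mul_pos hq (pos_of_coprime60 hd0)
  have e1 := gcd_mul_eq q hd0
  have e2 := q2_mul q hd0
  have e3 := ((boxFF.2.2.1 _ hq').2.2.2.2.2.1 (by omega)).2.2
  have e4 := q2_pos hq'
  have m1 := X.mat_gen hC h1 h3 hq' (by omega) (by rwa [e2]) h0 hd
  rw [e2] at e3 e4 m1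
  refine ⟨X.mtE_nonneg e4 e3, ?_⟩
  unfold mtE
  split_ifs with h
  · have m2 := X.mat_bet hC h1 h3 h4 h5 hPI (g := g) hq' (by omega) hg2 (by rw [e2]; exact (spd_facts h).1) h0 hd hd'
    rw [e2] at m2
    rcases min_choice (omg e.1 * trm r.ρ r.C (q2 q * d)) (max 0 (bet r g e (q2 q * d) : ℚ)) with k | k <;> rw [k]
    · exact m1
    · exact m2.mono (le_max_right _ _)
  · exact m1

/-- sum over the multipliers, general `k` -/
theorem msum_gen (hP : P0ok r.ρ r.P0) {k : ℕ} (hk : 0 < k) (hc : k.Coprime 30) {D : Finset ℕ}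
    (hD : ∀ d ∈ D, Squarefree d ∧ d.Coprime (60 * k)) :
    ff k * ∑ d ∈ D, trm r.ρ r.C (k * d) / d.totient ≤ CPm r / √k := by
  obtain ⟨h1, h2, h3, -, h4⟩ := (boxMult r.ρ X.par.ρ1 X.par.ρ2).2 k hk hc
  have c9 : (1 : ℝ) ≤ r.C := by exact_mod_cast X.par.C
  have c8 : (0 : ℝ) ≤ r.P0 := by exact_mod_cast X.par.P0
  have h5 := (h4 r.P0 r.C D hP c9 hD).1
  have h6 : 0 ≤ ff k := zero_le_one.trans (boxFF.1 k)
  have h7 : (0 : ℝ) < k := by exact_mod_cast hk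
  have h8 := rt2_spec h3 (by positivity)
  rw [Real.sqrt_mul (sq_nonneg _), Real.sqrt_sq (mul_nonneg h6 (h1.trans h2))] at h8
  have h9 := le_up' (r.C * r.P0 * rt2 (mu2 r.ρ))
  push_cast at h9
  rw [le_div_iff₀ (Real.sqrt_pos.2 h7)]
  have h10 := mul_le_mul_of_nonneg_left h8 (mul_nonneg (zero_le_one.trans c9) c8)
  have h11 := mul_le_mul_of_nonneg_right (mul_le_mul_of_nonneg_left h5 h6) (Real.sqrt_nonneg k)
  unfold CPm
  linarith

/-- sum over the multipliers, explicit `k` -/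
theorem msum_E (hP : P0ok r.ρ r.P0) {k g : ℕ} {e : ℚ × ℚ} (hk : 0 < k) (hk' : k < 300) (hc : k.Coprime 30)
    {D : Finset ℕ} (hD : ∀ d ∈ D, Squarefree d ∧ d.Coprime (60 * k)) :
    ∑ d ∈ D, mtE r k g e d / d.totient ≤ (omg e.1 * eul r k - cor r k g e : ℚ) ∧
      (0 : ℝ) ≤ (omg e.1 * eul r k - cor r k g e : ℚ) := by
  have c9 : (1 : ℝ) ≤ r.C := by exact_mod_cast X.par.C
  have key : ∀ D : Finset ℕ, (∀ d ∈ D, Squarefree d ∧ d.Coprime (60 * k)) →
      ∑ d ∈ D, mtE r k g e d / d.totient ≤ (omg e.1 * eul r k - cor r k g e : ℚ) := by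
    intro D hD
    have hD' : ∀ d ∈ D ∪ (spd k).toFinset, Squarefree d ∧ d.Coprime (60 * k) := fun d hd =>
      (mem_union.1 hd).elim (hD d) fun h => ⟨(spd_facts (List.mem_toFinset.1 h)).2.1,
        (spd_facts (List.mem_toFinset.1 h)).2.2.1⟩
    have hco : ∀ d ∈ D ∪ (spd k).toFinset, 0 < k * d ∧ (k * d).Coprime 30 := fun d hd =>
      ⟨Nat.mul_pos hk (Nat.pos_of_ne_zero (hD' d hd).1.ne_zero), Nat.Coprime.mul_left hc
        (Nat.Coprime.coprime_dvd_right (Dvd.dvd.mul_right (by norm_num) k) (hD' d hd).2)⟩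
    have h1 := (((boxMult r.ρ X.par.ρ1 X.par.ρ2).2 k hk hc).2.2.2.2 r.P0 r.C _ hP c9 hD').2 hk'
    have h2 := le_up' (r.C * xkQ r.ρ k * r.P0 / z0Q r.ρ k - (r.C - 1) * ckQ k * 1.1224 / z1Q k)
    push_cast at h2
    have h3 := mul_le_mul_of_nonneg_left (h1.trans h2) (omg_nonneg' e.1)
    have h4 : ∑ d ∈ D ∪ (spd k).toFinset, mtE r k g e d / d.totient =
        omg e.1 * ∑ d ∈ D ∪ (spd k).toFinset, trm r.ρ r.C (k * d) / d.totient - cor r k g e := by
      rw [cor, ← List.sum_toFinset _ (spd_nodup k), Rat.cast_sum, mul_sum, eq_sub_iff_add_eq,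
        ← inter_eq_right.2 (subset_union_right (s₁ := D) (s₂ := (spd k).toFinset)), ← sum_ite_mem,
        inter_eq_right.2 (subset_union_right (s₁ := D) (s₂ := (spd k).toFinset)), ← sum_add_distrib]
      refine sum_congr rfl fun d hd => ?_
      unfold mtE
      by_cases h : d ∈ spd k
      · obtain ⟨s1, -, -, s2⟩ := spd_facts h
        have s3 : k * d < 300 := by
          rcases List.mem_cons.1 s1 with s4 | s4
          · omega
          · exact (SP_facts _ s4).2.2.1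
        obtain ⟨-, s4, s5⟩ := Mu.small r.ρ (hco d hd).1 (hco d hd).2 s3
        rw [if_pos h, if_pos (List.mem_toFinset.2 h), s2, trm, s4, s5, trQ]
        push_cast
        rw [← add_div, ← mul_div_assoc]
        congr 1
        generalize (omg e.1 : ℝ) * (ckQ (k * d) + r.C * (xkQ r.ρ (k * d) - ckQ (k * d))) = a
        generalize max (0 : ℝ) (bet r g e (k * d)) = b
        rcases le_total a b with s6 | s6
        · rw [min_eq_left s6, max_eq_left (by linarith), add_zero]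
        · rw [min_eq_right s6, max_eq_right (by linarith), add_sub_cancel]
      · rw [if_neg h, if_neg fun h' => h (List.mem_toFinset.1 h'), add_zero, mul_div_assoc]
    refine (sum_le_sum_of_subset_of_nonneg subset_union_left fun d hd _ =>
      div_nonneg (X.mtE_nonneg (hco d hd).1 (hco d hd).2) (Nat.cast_nonneg _)).trans ?_
    rw [h4, eul]
    push_cast
    linarith
  exact ⟨key D hD, by simpa using key ∅ (by simp)⟩

end Ctx

end Cfsg.Agent.Depth.N
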