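import Cfsg.Agent.Depth.N.Cell
import Cfsg.Agent.Depth.N.Mat

/-!
# Depth (S5768): the arc condition, cell by cell
-/

set_option autoImplicit false
set_option linter.unusedSectionVars false

namespace Cfsg.Agent.Depth.N

open Finset Cfsg.Agent.Depth.D
open scoped Classical

/-- everything the checker and the boxes provide -/
structure All (r : Rg) (N : ℕ) : Prop where
  hP : chkP r = true
  hC : chkC r = true
  k1 : chk1 r = true
  k2 : chk2 r = true
  k3 : chk3 r = true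
  hFor : BoxFor
  m1 : BoxM1
  m3 : BoxM3
  m4 : BoxM4
  m5 : BoxM5
  pi : PIH r N
  p0 : P0ok r.ρ r.P0

/-- left side of the arc condition -/
noncomputable def Lhs (r : Rg) (N c1 : ℕ) (lam : ℕ → ℕ → ℝ) (M q : ℕ) (t : ℤ) : ℝ :=
  ∑ d ∈ Dset M (RR N) q t, Dact N c1 lam r.η (q * d) (t / M) / d.totient +
    (if q = 1 then r.γ * (‖nuH N c1 (t / M)‖ / Th N) else 0)

/-- mass of the multipliers -/
noncomputable def Rhs (N M q : ℕ) (t : ℤ) : ℝ := ∑ d ∈ Dset M (RR N) q t, (1 : ℝ) / d.totient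

theorem omg_le {d : ℚ} (h : 1 < d) : (omg d : ℝ) ≤ 1 / (0.63 * d) + 0.000001 := by
  have h' : (1 : ℝ) < d := by exact_mod_cast h
  rw [omg_cast, if_neg (not_le.2 h')]
  exact add_le_add_left (min_le_right _ _) _

theorem omg_pos (d : ℚ) : (0 : ℝ) < omg d := lt_of_lt_of_le (by norm_num) (omg_ge d)

theorem dl_lt_sg (N : ℕ) (β : ℝ) : dl N β < 1.6 * (20.63 * sg N β) := by
  have h1 : dl N β / 33 ≤ sg N β := le_max_right _ _
  have h2 := one_le_sg N β
  linarith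

theorem log_ht {h : ℝ} {i : ℕ} (h1 : 1 ≤ h) (h2 : h ^ 4 < 2 ^ (i + 1)) : Real.log h ≤ (i + 1) * (l2 : ℚ) / 4 := by
  have := log_le_of_pow_le (k := 4) (m := i + 1) (by linarith) (by norm_num) h2.le
  push_cast at this
  exact this

theorem ff_le_Fm1 {N q i : ℕ} {β : ℝ} (hi : i ≤ 193) (h : ht N q β ^ 4 < 2 ^ (i + 1)) : ff (q2 q) ≤ Fm (i + 1) := by
  refine Fm_spec boxFF (by omega) ?_
  have := (pow_le_pow_left₀ (Nat.cast_nonneg _) (q2_le_ht N q β) 4).trans_lt h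
  exact_mod_cast this

theorem arc_small {N M q : ℕ} {t : ℤ} (hN : 10 ^ 24 ≤ N) (hM : 0 < M) (hA : Arc M (RR N) q t) :
    |(t : ℝ) / M| ≤ 0.1 := by
  have h := (mem_Dset hM (one_mem_Dset hA)).2.2.2.2.2
  have h1 : (1 : ℝ) ≤ (q * 1 : ℕ) := by exact_mod_cast (by simpa using hA.1 : 1 ≤ q * 1)
  have h2 := RR_ge' hN
  have h3 := abs_nonneg ((t : ℝ) / M)
  have h4 : (10 : ℝ) ≤ (q * 1 : ℕ) * (RR N : ℝ) := by nlinarith
  nlinarith

theorem q_eq (q : ℕ) : (q : ℝ) = q.gcd 60 * q2 q := by exact_mod_cast (gcd_mul_q2 q).symm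

theorem gcd_le60 (q : ℕ) : q.gcd 60 ≤ 60 := Nat.le_of_dvd (by norm_num) (Nat.gcd_dvd_right _ _)

namespace Ctx

variable {r : Rg} {N c1 : ℕ} {lam : ℕ → ℕ → ℝ} (X : Ctx r N c1 lam)
include X

theorem γ_nonneg : (0 : ℝ) ≤ r.γ := by exact_mod_cast X.par.γ1

theorem γ_le : (r.γ : ℝ) ≤ 1 := by exact_mod_cast X.par.γ2

theorem nu_omg {β : ℝ} {d : ℚ} (hβ : |β| ≤ 0.1) (h0 : 0 ≤ d) (hd : (d : ℝ) ≤ dl N β) :
    ‖nuH N c1 β‖ / Th N ≤ omg d := by
  rw [div_le_iff₀ X.Th_pos, mul_comm]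
  exact (boxNu N c1 X.h23 X.c1_lt).2.1 β d hβ h0 hd

/-- use of `okc` on an arc -/
theorem okc_arc {M q : ℕ} {t : ℤ} (hM : 0 < M) (hA : Arc M (RR N) q t) {Mf rest F u : ℚ}
    (h : okc r Mf rest F u = true) {S Mt rs m : ℝ} (hS : S ≤ Mt + rs) (h0 : (0 : ℝ) ≤ Mf)
    (h2 : ff (q2 q) * Mt ≤ Mf) (h3 : rs ≤ rest) (h4 : 0 ≤ rs) (h6 : ff (q2 q) ≤ F) (hm : 1 ≤ m)
    (hm' : dl N (t / M) < 1.6 * m) (hu : Real.log (q * m) ≤ u) : S ≤ kap r N * Rhs N M q t := by
  obtain ⟨r1, r2⟩ := boxRhs N M q t m hM hA hm hm'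
  have hf := one_le_ff (q2 q)
  have hq : (1 : ℝ) ≤ q := by exact_mod_cast hA.1
  refine X.okc_spec h hS ?_ h2 h3 (h4.trans h3) hf h6 r1 (by rwa [ff_q2 hA.1]) (by nlinarith) hu
  by_cases h7 : 0 ≤ Mt
  · nlinarith
  · linarith

/-- all multipliers on the plateau -/
theorem arc_far (hP : chkP r = true) {M q n : ℕ} {t : ℤ} {T l8 : ℚ} (hM : 0 < M) (hA : Arc M (RR N) q t)
    (hF : Fam r N (t / M) T l8 n) (h : 2 ^ n ≤ ht N q (t / M) ^ 4) :
    Lhs r N c1 lam M q t ≤ kap r N * Rhs N M q t := by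
  have hk := X.kap_pos
  have h0 : ∑ d ∈ Dset M (RR N) q t, Dact N c1 lam r.η (q * d) (t / M) / d.totient = 0 := by
    refine sum_eq_zero fun d hd => ?_
    obtain ⟨d0, -, -, d3, d4, d5⟩ := mem_Dset hM hd
    rw [X.plateau_arc hP hF (Nat.mul_pos hA.1 d0) d4 d5 (h.trans ?_), zero_div]
    rw [ht_mul N hA.1 d3]
    have := one_le_ht N hA.1 ((t : ℝ) / M)
    exact pow_le_pow_left₀ (by linarith) (le_mul_of_one_le_right (by linarith) (by exact_mod_cast d0)) 4
  have hR1 := (boxRhs N M q t (20.63 * sg N (t / M)) hM hA (by linarith [one_le_sg N ((t : ℝ) / M)]) (dl_lt_sg _ _)).1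
  unfold Lhs
  rw [h0, zero_add]
  split_ifs with hq
  swap
  · exact mul_nonneg hk.le (zero_le_one.trans hR1)
  subst hq
  have h1 : (3 * 10 ^ 7 : ℝ) ≤ ht N 1 (t / M) := by
    refine (pow_le_pow_iff_left₀ (by norm_num) (by linarith [one_le_ht N Nat.one_pos ((t : ℝ) / M)])
      (by norm_num : 4 ≠ 0)).1 (le_trans ?_ h)
    exact le_trans (by norm_num) (pow_le_pow_right₀ (by norm_num : (1 : ℝ) ≤ 2) (hF.n_le X.par).1)
  have h2 : (10 ^ 8 : ℝ) ≤ dl N (t / M) := by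
    unfold ht sg at h1
    rw [show q2 1 = 1 from rfl, Nat.cast_one, one_mul] at h1
    rcases le_max_iff.1 h1 with h3 | h3
    · norm_num at h3
    · linarith
  have h3 := X.nu_one ((arc_small X.hN hM hA).trans (by norm_num))
  have h4 : 0 ≤ ‖nuH N c1 (t / M)‖ / Th N := by have := X.Th_pos; positivity
  have h5 : r.γ * (‖nuH N c1 (t / M)‖ / Th N) ≤ ‖nuH N c1 (t / M)‖ / Th N :=
    mul_le_of_le_one_left h4 X.γ_le
  refine h5.trans ?_
  have hκ := qle X.par.κ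
  push_cast at hκ
  have hL := X.La_le; have hL' := X.La_ge
  have hR := RR_ge' X.hN
  set v := ‖nuH N c1 (t / M)‖ / Th N
  set δ := dl N (t / M)
  by_cases h6 : δ ≤ √(RR N)
  · obtain ⟨-, r2⟩ := boxRhs N M 1 t δ hM hA (by linarith) (by linarith)
    rw [ff_one, div_one, Nat.cast_one, one_mul] at r2
    have h7 : √(RR N) ≤ RR N / δ := by
      rw [le_div_iff₀ (by linarith)]
      nlinarith [Real.mul_self_sqrt X.R_pos.le, Real.sqrt_nonneg (RR N : ℝ)]
    have h8 : 1 ≤ √(RR N : ℝ) := by linarith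
    have h9 := (S.gh2 _ (h8.trans h7)).2.1
    have h10 := Real.log_le_log (by linarith) h7
    rw [Real.log_sqrt X.R_pos.le] at h10
    have h11 : 4 / 15 * (Real.log (RR N) + 2.2) / 2 ≤ Rhs N M 1 t := by unfold Rhs; linarith
    have h12 : kap r N * (4 / 15 * (Real.log (RR N) + 2.2) / 2) = r.κ / 2 := by
      unfold kap; field_simp
    have h13 := mul_le_mul_of_nonneg_left h11 hk.le
    nlinarith
  · have h7 : Real.log (RR N) ≤ 4 * √(√(RR N)) := by
      have h8 := Real.log_le_sub_one_of_pos (Real.sqrt_pos.2 (Real.sqrt_pos.2 X.R_pos))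
      rw [Real.log_sqrt (Real.sqrt_nonneg _), Real.log_sqrt X.R_pos.le] at h8
      linarith
    have h8 : (100 : ℝ) ≤ √(√(RR N)) := Real.le_sqrt_of_sq_le (Real.le_sqrt_of_sq_le (by linarith))
    have h9 := Real.mul_self_sqrt (Real.sqrt_nonneg (RR N : ℝ))
    set s := √(√(RR N : ℝ))
    have h10 : v * (s * s) ≤ 4.36 := by rw [h9]; nlinarith
    have h11 : v ≤ kap r N := by
      unfold kap
      rw [le_div_iff₀ (by linarith)]
      have h12 : 4 / 15 * (Real.log (RR N) + 2.2) ≤ 0.05 * (s * s) := by nlinarith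
      nlinarith
    exact h11.trans (le_mul_of_one_le_right hk.le hR1)

theorem log_qm {q i g : ℕ} {β c : ℝ} (hq : 0 < q) (hg : q.gcd 60 ≤ g) (hc : 0 < c) (h : ht N q β ^ 4 < 2 ^ (i + 1)) :
    Real.log (q * (c * sg N β)) ≤ Real.log (g * c) + (i + 1) * (l2 : ℚ) / 4 := by
  have h1 := one_le_ht N hq β
  have h2 := log_ht h1 h
  have hg0 : (0 : ℝ) < q.gcd 60 := by exact_mod_cast Nat.gcd_pos_of_pos_left 60 hq
  have hg' : ((q.gcd 60 : ℕ) : ℝ) ≤ g := by exact_mod_cast hg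
  have h3 : (q : ℝ) * (c * sg N β) = q.gcd 60 * c * ht N q β := by
    unfold ht; conv_lhs => rw [q_eq q]
    ring
  rw [h3, Real.log_mul (by positivity) (by linarith)]
  have := Real.log_le_log (mul_pos hg0 hc) (mul_le_mul_of_nonneg_right hg' hc.le)
  linarith

/-- cells without matching terms -/
theorem arc_N (A : All r N) {M q n i : ℕ} {t : ℤ} {T l8 : ℚ} {big : Bool} (hM : 0 < M) (hA : Arc M (RR N) q t)
    (hF : Fam r N (t / M) T l8 n) (hbig : big = true → 33 ≤ dl N (t / M)) (hW : chkW r n = true) (hi : i < n)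
    (h1 : 2 ^ i ≤ ht N q (t / M) ^ 4) (h2 : ht N q (t / M) ^ 4 < 2 ^ (i + 1)) (hg : 2 < q.gcd 60)
    (hc : cellN r big (cF r (n - 1)) (tA r T l8 30 25.26 n) (tB r T l8 n) i = true) :
    Lhs r N c1 lam M q t ≤ kap r N * Rhs N M q t := by
  obtain ⟨n1, n2⟩ := hF.n_le X.par
  have n3 := X.par.i2
  have hq : q ≠ 1 := by rintro rfl; simp at hg
  have hf := ff_le_Fm1 (by omega) h2
  have hf1 := one_le_ff (q2 q)
  have hs := one_le_sg N ((t : ℝ) / M)
  have hu : Real.log (q * (20.63 * sg N (t / M))) ≤ ((7.1212 + (i + 1) * l2 / 4 : ℚ) : ℝ) := by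
    have := X.log_qm hA.1 (gcd_le60 q) (c := 20.63) (by norm_num) h2
    have := log_N_le
    push_cast at *; linarith
  have g1 : (2 : ℝ) ≤ ge q := by exact_mod_cast ((boxFF.2.2.1 q hA.1).2.2.2.2.2.2 hg).1
  have g2 : (ge q : ℝ) ≤ 30 := by exact_mod_cast ge_le hA.1
  unfold Lhs
  rw [if_neg hq, add_zero]
  unfold cellN at hc
  rcases Bool.or_eq_true_iff.1 hc with hc | hc
  · have hcw := X.cF_nonneg (i := n - 1) (by omega)
    set m : ℚ := if big then min (6.45e-7 * 30) (23.8 / (33 * hlo i)) else 6.45e-7 * 30 with hm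
    have hl := one_le_hlo i
    have hm1 : (6.45e-7 * (ge q : ℝ) ≤ m ∨ 23.8 / (dl N (t / M) * q2 q) ≤ m) ∧ (0 : ℝ) ≤ m := by
      cases big
      · simp only [Bool.false_eq_true, if_false] at hm
        rw [hm]; push_cast
        exact ⟨Or.inl (by linarith), by norm_num⟩
      · simp only [if_true] at hm
        rw [hm]; push_cast
        refine ⟨?_, le_min (by norm_num) (by positivity)⟩
        rcases min_choice ((6.45e-7 : ℝ) * 30) (23.8 / (33 * hlo i)) with e | e <;> rw [e]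
        · exact Or.inl (by linarith)
        · right
          have e1 := hlo_le (by linarith [one_le_ht N hA.1 ((t : ℝ) / M)]) h1
          have e2 : 33 * ht N q (t / M) = dl N (t / M) * q2 q := by
            unfold ht sg; rw [max_eq_right (by linarith [hbig rfl])]; ring
          exact div_le_div_of_nonneg_left (by norm_num) (by positivity) (by linarith)
    have hS := X.cellA A.hP A.hFor (G := 30) (F1 := 25.26) hM hA.1 hF hW h1 h2 (by push_cast; exact g2) (by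
        push_cast
        have : 2.64 / (ge q : ℝ) ≤ 1.32 := by rw [div_le_iff₀ (by linarith)]; linarith
        have : (ge q : ℝ) / 0.66 ≤ 45.455 := by rw [div_le_iff₀ (by norm_num)]; linarith
        linarith) (Mt := fun _ => 0) (fun d hd => ⟨le_rfl, X.mat_zero A.m1
          (Nat.mul_pos hA.1 (mem_Dset hM (mem_filter.1 hd).1).1)
          (by rwa [gcd_mul_eq q (mem_Dset hM (mem_filter.1 hd).1).2.2.2.1]) _⟩) hm1.1
    have hm0 := hm1.2
    have hSB := SB_nonneg (tA r T l8 30 25.26 n) i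
    refine X.okc_arc hM hA hc hS (by norm_num) (by simp) ?_ (by positivity) hf (by linarith) (dl_lt_sg _ _) hu
    unfold inv; push_cast
    gcongr
  · have hS := X.cellB A.hP hM hA.1 hF h1 h2
    rw [if_neg hq, add_comm] at hS
    exact X.okc_arc hM hA hc hS (by norm_num) (by simp) le_rfl (SB_nonneg _ _) hf (by linarith) (dl_lt_sg _ _) hu

/-- the general bound for the matching terms on the multipliers below the plateau -/
theorem gen_low {M q n i : ℕ} {t : ℤ} {T l8 : ℚ} (hM : 0 < M) (hA : Arc M (RR N) q t)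
    (hF : Fam r N (t / M) T l8 n) (h1 : 2 ^ i ≤ ht N q (t / M) ^ 4) (h2 : ht N q (t / M) ^ 4 < 2 ^ (i + 1))
    {d : ℕ} (hd : d ∈ Dlow M (RR N) q t n i) : (q2 q * d) ^ 4 < 2 ^ (r.iP + 1) := by
  obtain ⟨hd1, hd2⟩ := mem_filter.1 hd
  have b := (bin_mul hM hA.1 hd1 h1 h2).2
  have n2 := (hF.n_le X.par).2
  have e := q2_le_ht N (q * d) ((t : ℝ) / M)
  rw [q2_mul q (mem_Dset hM hd1).2.2.2.1] at e
  have := ((pow_le_pow_left₀ (Nat.cast_nonneg _) e 4).trans_lt b).trans_le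
    (pow_le_pow_right₀ (by norm_num : (1 : ℝ) ≤ 2) (by omega : i + (d ^ 4).log2 + 2 ≤ r.iP + 1))
  exact_mod_cast this

theorem low_cop {M q n i : ℕ} {t : ℤ} (hM : 0 < M) :
    ∀ d ∈ Dlow M (RR N) q t n i, Squarefree d ∧ d.Coprime (60 * q2 q) := fun d hd => by
  obtain ⟨-, d1, d2, -⟩ := mem_Dset hM (mem_filter.1 hd).1
  exact ⟨d1, Nat.Coprime.coprime_dvd_right (Nat.mul_dvd_mul_left 60 (Dvd.intro_left _ (gcd_mul_q2 q))) d2⟩

/-- first option for general cells with matching terms -/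
theorem cellA_gen (A : All r N) {M q n i : ℕ} {t : ℤ} {T l8 d0 : ℚ} (hM : 0 < M) (hA : Arc M (RR N) q t)
    (hF : Fam r N (t / M) T l8 n) (hW : chkW r n = true) (h1 : 2 ^ i ≤ ht N q (t / M) ^ 4)
    (h2 : ht N q (t / M) ^ 4 < 2 ^ (i + 1)) (hg : q.gcd 60 ≤ 2) (h0 : 0 ≤ d0) (hd : (d0 : ℝ) ≤ dl N (t / M)) {m : ℝ}
    (hm : 6.45e-7 ≤ m ∨ 23.8 / (dl N (t / M) * q2 q) ≤ m) :
    ∃ Mt : ℝ, ff (q2 q) * Mt ≤ CPm r * (omg d0 / √(q2 q)) ∧
      ∑ d ∈ Dset M (RR N) q t, Dact N c1 lam r.η (q * d) (t / M) / d.totient ≤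
        Mt + (ff (q2 q) * (cF r (n - 1) * (1.07 * 226.6 * m)) + SB (tA r T l8 1 2.244 n) i) := by
  obtain ⟨g1, -, g3⟩ := (boxFF.2.2.1 q hA.1).2.2.2.2.2.1 hg
  have hw := omg_pos d0
  refine ⟨_, ?_, X.cellA A.hP A.hFor (G := 1) (F1 := 2.244) hM hA.1 hF hW h1 h2 (by rw [g1]; norm_num)
    (by rw [g1]; norm_num) (Mt := fun d => omg d0 * trm r.ρ r.C (q2 q * d)) (fun d hd' => ?_) (by rw [g1]; simpa using hm)⟩
  · have := X.msum_gen A.p0 (q2_pos hA.1) g3 (X.low_cop (q := q) (n := n) (i := i) (t := t) hM)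
    have e : ∑ d ∈ Dlow M (RR N) q t n i, omg d0 * trm r.ρ r.C (q2 q * d) / d.totient =
        omg d0 * ∑ d ∈ Dlow M (RR N) q t n i, trm r.ρ r.C (q2 q * d) / d.totient := by
      rw [mul_sum]; exact sum_congr rfl fun d _ => by ring
    rw [e]
    calc _ = omg d0 * (ff (q2 q) * ∑ d ∈ Dlow M (RR N) q t n i, trm r.ρ r.C (q2 q * d) / d.totient) := by ring
      _ ≤ omg d0 * (CPm r / √(q2 q)) := mul_le_mul_of_nonneg_left this hw.le
      _ = _ := by ring
  · obtain ⟨d0', -, -, d3, -⟩ := mem_Dset hM (mem_filter.1 hd').1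
    have e := q2_mul q d3
    refine ⟨mul_nonneg hw.le (X.trm_nonneg (Nat.mul_pos (q2_pos hA.1) d0')
      (Nat.Coprime.mul_left g3 (Nat.Coprime.coprime_dvd_right (by norm_num) d3))), ?_⟩
    rw [← e]
    exact X.mat_gen A.hC A.m1 A.m3 (Nat.mul_pos hA.1 d0') (by rwa [gcd_mul_eq q d3])
      (by rw [e]; exact X.gen_low hM hA hF h1 h2 hd') h0 hd

theorem CPm_nonneg : (0 : ℝ) ≤ CPm r := by
  refine le_trans ?_ (le_up' _)
  have h1 := qle X.par.C; have h2 := qle X.par.P0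
  have h3 : (0 : ℝ) ≤ rt2 (mu2 r.ρ) := by
    have h4 : (0 : ℚ) ≤ mu2 r.ρ := by
      unfold mu2
      refine List.prod_nonneg fun x hx => ?_
      obtain ⟨p, -, rfl⟩ := List.mem_map.1 hx
      exact zero_le_one.trans (le_max_left _ _)
    exact (Real.sqrt_nonneg 0).trans (rt2_spec (by exact_mod_cast h4) le_rfl)
  push_cast at *
  have : (0 : ℝ) ≤ r.C := by linarith
  positivity

/-- cells with matching terms and large drift -/
theorem arc_M1 (A : All r N) {M q i : ℕ} {t : ℤ} (hM : 0 < M) (hA : Arc M (RR N) q t)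
    (hδ : 33 ≤ dl N (t / M)) (hW : chkW r r.iP = true) (hi : i < r.iP)
    (h1 : 2 ^ i ≤ ht N q (t / M) ^ 4) (h2 : ht N q (t / M) ^ 4 < 2 ^ (i + 1)) (hg : q.gcd 60 ≤ 2)
    (hc : cellM1 r (CPm r) (cF r (r.iP - 1)) (tA r 1 7.2312 1 2.244 r.iP) (tB r 1 7.2312 r.iP) i = true) :
    Lhs r N c1 lam M q t ≤ kap r N * Rhs N M q t := by
  have hF : Fam r N (t / M) 1 7.2312 r.iP := Or.inr ⟨hδ, rfl, rfl, rfl⟩
  have n3 := X.par.i2
  have hf := ff_le_Fm1 (by omega) h2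
  have hf1 := one_le_ff (q2 q)
  have hs := one_le_sg N ((t : ℝ) / M)
  have hh := one_le_ht N hA.1 ((t : ℝ) / M)
  have hu : Real.log (q * (20.63 * sg N (t / M))) ≤ ((3.72 + (i + 1) * l2 / 4 : ℚ) : ℝ) := by
    have := X.log_qm hA.1 hg (c := 20.63) (by norm_num) h2
    have := log_M_le
    push_cast at *; linarith
  have hl := one_le_hlo i
  have hl2 := one_le_hlo (i / 2)
  have e1 := hlo_le (by linarith) h1
  have e2 : 33 * ht N q (t / M) = dl N (t / M) * q2 q := by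
    unfold ht sg; rw [max_eq_right (by linarith)]; ring
  have hγ := X.γ_nonneg
  have hν0 : 0 ≤ (if q = 1 then ‖nuH N c1 (t / M)‖ / Th N else 0) := by
    have := X.Th_pos
    split_ifs <;> positivity
  have hν : (if q = 1 then ‖nuH N c1 (t / M)‖ / Th N else 0) ≤ 1 / (20.79 * (hlo i : ℝ)) + 0.000001 := by
    split_ifs with hq
    · subst hq
      rw [show q2 1 = 1 from rfl, Nat.cast_one, mul_one] at e2
      have e3 := (hlo_aux i).1
      have e4 := X.nu_omg (d := 33 * hlo i) (arc_small X.hN hM hA) (by linarith) (by push_cast; linarith)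
      have e5 := omg_le (d := 33 * hlo i) (by linarith)
      push_cast at e5
      rw [← mul_assoc, show (0.63 : ℝ) * 33 = 20.79 by norm_num] at e5
      linarith
    · positivity
  have hL : Lhs r N c1 lam M q t = ∑ d ∈ Dset M (RR N) q t, Dact N c1 lam r.η (q * d) (t / M) / d.totient +
      r.γ * (if q = 1 then ‖nuH N c1 (t / M)‖ / Th N else 0) := by
    unfold Lhs; split_ifs <;> simp
  rw [hL]
  set v := (if q = 1 then ‖nuH N c1 (t / M)‖ / Th N else 0)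
  have hγv := mul_le_mul_of_nonneg_left hν hγ
  unfold cellM1 at hc
  rcases Bool.or_eq_true_iff.1 hc with hc | hc
  · have hcw := X.cF_nonneg (i := r.iP - 1) (by omega)
    have hk : (1 : ℝ) ≤ q2 q := by exact_mod_cast q2_pos hA.1
    have e3 := hlo_half (by linarith) h1
    have e4 : (hlo (i / 2) : ℝ) ^ 2 ≤ ht N q (t / M) := by
      have := Real.sq_sqrt (show 0 ≤ ht N q (t / M) by linarith)
      nlinarith
    have hd0 : ((max 33 (33 * hlo (i / 2) ^ 2 / q2 q) : ℚ) : ℝ) ≤ dl N (t / M) := by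
      push_cast
      refine max_le hδ ?_
      rw [div_le_iff₀ (by linarith)]; linarith
    obtain ⟨Mt, m1, m2⟩ := X.cellA_gen A hM hA hF hW h1 h2 hg (d0 := max 33 (33 * hlo (i / 2) ^ 2 / q2 q))
      (le_max_of_le_left (by norm_num)) hd0 (m := min 6.45e-7 (23.8 / (33 * hlo i))) (by
        rcases min_choice (6.45e-7 : ℝ) (23.8 / (33 * hlo i)) with e | e <;> rw [e]
        · exact Or.inl le_rfl
        · exact Or.inr (div_le_div_of_nonneg_left (by norm_num) (by positivity) (by linarith)))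
    have e5 := omg_le (d := max 33 (33 * hlo (i / 2) ^ 2 / q2 q)) (lt_max_of_lt_left (by norm_num))
    have hs1 : 1 ≤ √(q2 q : ℝ) := Real.one_le_sqrt.2 hk
    have hs2 := Real.mul_self_sqrt (show (0 : ℝ) ≤ q2 q by linarith)
    have e6 : (omg (max 33 (33 * hlo (i / 2) ^ 2 / q2 q)) : ℝ) / √(q2 q) ≤
        1 / (20.79 * (hlo (i / 2) : ℝ)) + 0.000001 := by
      push_cast at e5
      set D := max (33 : ℝ) (33 * (hlo (i / 2) : ℝ) ^ 2 / q2 q)
      set s := √(q2 q : ℝ)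
      set H := (hlo (i / 2) : ℝ)
      have d1 : 33 ≤ D := le_max_left _ _
      have d2 : 33 * H ^ 2 ≤ D * q2 q := (div_le_iff₀ (by linarith)).1 (le_max_right _ _)
      have d3 : 33 * H ≤ D * s := by
        by_cases d4 : H ≤ s
        · nlinarith
        · have d5 : (33 * H) * s ≤ (D * s) * s := by nlinarith
          exact le_of_mul_le_mul_right d5 (by linarith)
      have d6 : 1 / (0.63 * D) / s ≤ 1 / (20.79 * H) := by
        rw [div_div]
        exact one_div_le_one_div_of_le (by positivity) (by linarith)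
      have d7 : (0.000001 : ℝ) / s ≤ 0.000001 := div_le_self (by norm_num) hs1
      exact (div_le_div_of_nonneg_right e5 (by linarith)).trans (by rw [add_div]; linarith)
    have hCP := X.CPm_nonneg
    have hSB := SB_nonneg (tA r 1 7.2312 1 2.244 r.iP) i
    have hm0 : (0 : ℝ) ≤ min 6.45e-7 (23.8 / (33 * (hlo i : ℝ))) := le_min (by norm_num) (by positivity)
    refine X.okc_arc hM hA hc (Mt := Mt) (rs := ff (q2 q) * (cF r (r.iP - 1) * (1.07 * 226.6 *
      min 6.45e-7 (23.8 / (33 * (hlo i : ℝ))))) + SB (tA r 1 7.2312 1 2.244 r.iP) i + r.γ * v) (by linarith)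
      (by push_cast; positivity) (m1.trans ?_) ?_ (by positivity) hf (by linarith) (dl_lt_sg _ _) hu
    · push_cast; exact mul_le_mul_of_nonneg_left e6 hCP
    · unfold inv; push_cast
      gcongr
  · have hS := X.cellB A.hP hM hA.1 hF h1 h2
    have hSB := SB_nonneg (tB r 1 7.2312 r.iP) i
    refine X.okc_arc hM hA hc (Mt := 0) (rs := SB (tB r 1 7.2312 r.iP) i + (1 + r.γ) * v) (by linarith)
      (by norm_num) (by simp) ?_ (by positivity) hf (by linarith) (dl_lt_sg _ _) hu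
    push_cast
    gcongr

theorem m_bin {δ : ℝ} {e : ℚ} (h : δ ≤ e) :
    (1 : ℝ) ≤ (max 1 (e / 1.5999) : ℚ) ∧ δ < 1.6 * ((max 1 (e / 1.5999) : ℚ) : ℝ) := by
  push_cast
  have h1 := le_max_left (1 : ℝ) (e / 1.5999)
  have h2 := (div_le_iff₀ (by norm_num)).1 (le_max_right (1 : ℝ) (e / 1.5999))
  exact ⟨h1, by linarith⟩

/-- cells with matching terms, small drift, large `k` -/
theorem arc_M2 (A : All r N) {M q i : ℕ} {t : ℤ} {e : ℚ × ℚ} (hM : 0 < M) (hA : Arc M (RR N) q t)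
    (hδ : dl N (t / M) ≤ 33) (hW : chkW r 101 = true) (hi : i < 101) (hq : q ≠ 1)
    (h1 : 2 ^ i ≤ ht N q (t / M) ^ 4) (h2 : ht N q (t / M) ^ 4 < 2 ^ (i + 1)) (hg : q.gcd 60 ≤ 2)
    (e0 : 0 ≤ e.1) (e1 : (e.1 : ℝ) ≤ dl N (t / M)) (e2 : dl N (t / M) ≤ e.2)
    (hc : cellM2 r (CPm r) (cF r 100) (tA r 10 8.9076 1 2.244 101) (tB r 10 8.9076 101) i e = true) :
    Lhs r N c1 lam M q t ≤ kap r N * Rhs N M q t := by
  have hF : Fam r N (t / M) 10 8.9076 101 := Or.inl ⟨hδ, rfl, rfl, rfl⟩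
  have n1 := X.par.i1
  have hf := ff_le_Fm1 (by omega) h2
  have hf1 := one_le_ff (q2 q)
  have hs : sg N ((t : ℝ) / M) = 1 := max_eq_left (by linarith)
  obtain ⟨m1, m2⟩ := X.m_bin e2
  have hu : Real.log (q * ((max 1 (e.2 / 1.5999) : ℚ) : ℝ)) ≤
      ((lgU (2 * max 1 (e.2 / 1.5999)) + (i + 1) * l2 / 4 : ℚ) : ℝ) := by
    have a1 := X.log_qm hA.1 hg (c := ((max 1 (e.2 / 1.5999) : ℚ) : ℝ)) (by linarith) h2
    have a2 := log_le_lgU (x := (2 : ℕ) * ((max 1 (e.2 / 1.5999) : ℚ) : ℝ)) (y := 2 * max 1 (e.2 / 1.5999))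
      (by positivity) (by push_cast; exact le_rfl)
    rw [hs, mul_one] at a1
    rw [Rat.cast_add]
    refine a1.trans (add_le_add a2 (by push_cast; exact le_rfl))
  unfold Lhs
  rw [if_neg hq, add_zero]
  unfold cellM2 at hc
  rcases Bool.or_eq_true_iff.1 hc with hc | hc
  · have hcw := X.cF_nonneg (i := 100) (by omega)
    obtain ⟨Mt, a1, a2⟩ := X.cellA_gen A hM hA hF hW h1 h2 hg e0 e1 (m := 6.45e-7) (Or.inl le_rfl)
    have hCP := X.CPm_nonneg
    have hSB := SB_nonneg (tA r 10 8.9076 1 2.244 101) i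
    have hw := omg_pos e.1
    have hl2 := one_le_hlo (i / 2)
    have e3 := hlo_half (by linarith [one_le_ht N hA.1 ((t : ℝ) / M)]) h1
    rw [ht, hs, mul_one] at e3
    refine X.okc_arc hM hA hc a2 (by push_cast; positivity) (a1.trans ?_) ?_ (by positivity) hf m1 m2 hu
    · push_cast
      rw [mul_div_assoc]
      gcongr
    · unfold inv; push_cast
      gcongr
  · have hS := X.cellB A.hP hM hA.1 hF h1 h2
    rw [if_neg hq, add_comm] at hS
    exact X.okc_arc hM hA hc hS (by norm_num) (by simp) le_rfl (SB_nonneg _ _) hf m1 m2 hu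

/-- explicit cells -/
theorem arc_E (A : All r N) {M q g : ℕ} {t : ℤ} {e : ℚ × ℚ} (hM : 0 < M) (hA : Arc M (RR N) q t)
    (hδ : dl N (t / M) ≤ 33) (hW : chkW r 101 = true) (hk : q2 q < 300) (hg : q.gcd 60 ≤ g) (hg2 : g ≤ 2)
    (hg1 : q = 1 → g = 1) (e0 : 0 ≤ e.1) (e1 : (e.1 : ℝ) ≤ dl N (t / M)) (e2 : dl N (t / M) ≤ e.2)
    (hc : cellE r (cF r 100) (tA r 10 8.9076 1 2.244 101) (q2 q) g e = true) :
    Lhs r N c1 lam M q t ≤ kap r N * Rhs N M q t := by
  have hF : Fam r N (t / M) 10 8.9076 101 := Or.inl ⟨hδ, rfl, rfl, rfl⟩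
  have n1 := X.par.i1
  have hf1 := one_le_ff (q2 q)
  have hs : sg N ((t : ℝ) / M) = 1 := max_eq_left (by linarith)
  have hk0 := q2_pos hA.1
  obtain ⟨g1, -, g3⟩ := (boxFF.2.2.1 q hA.1).2.2.2.2.2.1 (hg.trans hg2)
  obtain ⟨b1, b2⟩ := log2_bin (pow_pos hk0 4)
  have h1 : 2 ^ (q2 q ^ 4).log2 ≤ ht N q (t / M) ^ 4 := by rw [ht, hs, mul_one]; exact_mod_cast b1
  have h2 : ht N q (t / M) ^ 4 < 2 ^ ((q2 q ^ 4).log2 + 1) := by rw [ht, hs, mul_one]; exact_mod_cast b2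
  obtain ⟨m1, m2⟩ := X.m_bin e2
  have hu : Real.log (q * ((max 1 (e.2 / 1.5999) : ℚ) : ℝ)) ≤ lgU (g * q2 q * max 1 (e.2 / 1.5999)) := by
    have hq : (0 : ℝ) < q := by exact_mod_cast hA.1
    refine log_le_lgU (by positivity) ?_
    rw [Rat.cast_mul]
    refine mul_le_mul_of_nonneg_right ?_ (by linarith)
    push_cast
    rw [q_eq q]
    have : ((q.gcd 60 : ℕ) : ℝ) ≤ g := by exact_mod_cast hg
    conv_rhs => rw [← Nat.cast_mul, Nat.cast_mul]
    gcongr
  have hfe : ff (q2 q) = fQ (q2 q) := (((boxMult r.ρ X.par.ρ1 X.par.ρ2).2 _ hk0 g3).2.2.2.1 hk).1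
  obtain ⟨s1, s2⟩ := X.msum_E A.p0 (g := g) (e := e) hk0 hk g3
    (X.low_cop (q := q) (n := 101) (i := (q2 q ^ 4).log2) (t := t) hM)
  have hS := X.cellA A.hP A.hFor (G := 1) (F1 := 2.244) hM hA.1 hF hW h1 h2 (by rw [g1]; norm_num)
    (by rw [g1]; norm_num) (Mt := mtE r (q2 q) g e) (fun d hd => X.mat_E A.hC A.m1 A.m3 A.m4 A.m5 A.pi hA.1 hg hg2
      (mem_Dset hM (mem_filter.1 hd).1).2.2.2.1 (X.gen_low hM hA hF h1 h2 hd) e0 e1 e2)
    (m := 6.45e-7) (Or.inl (by rw [g1]; norm_num))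
  have hcw := X.cF_nonneg (i := 100) (by omega)
  have hSB := SB_nonneg (tA r 10 8.9076 1 2.244 101) (q2 q ^ 4).log2
  have hγ := X.γ_nonneg
  have hw := omg_pos e.1
  have hν0 : 0 ≤ (if q = 1 then r.γ * (‖nuH N c1 (t / M)‖ / Th N) else 0) := by
    have := X.Th_pos
    split_ifs <;> positivity
  have hν : (if q = 1 then r.γ * (‖nuH N c1 (t / M)‖ / Th N) else 0) ≤
      ((if q2 q = 1 ∧ g = 1 then r.γ * omg e.1 else 0 : ℚ) : ℝ) := by
    by_cases hq : q = 1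
    · rw [if_pos hq, if_pos ⟨by rw [hq]; rfl, hg1 hq⟩]
      push_cast
      exact mul_le_mul_of_nonneg_left (X.nu_omg (arc_small X.hN hM hA) e0 e1) hγ
    · rw [if_neg hq]
      split_ifs
      · push_cast; positivity
      · simp
  unfold Lhs
  unfold cellE at hc
  refine X.okc_arc hM hA hc (rs := ff (q2 q) * (cF r 100 * (1.07 * 226.6 * 6.45e-7)) +
    SB (tA r 10 8.9076 1 2.244 101) (q2 q ^ 4).log2 + if q = 1 then r.γ * (‖nuH N c1 (t / M)‖ / Th N) else 0)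
    (Mt := ∑ d ∈ Dlow M (RR N) q t 101 (q2 q ^ 4).log2, mtE r (q2 q) g e d / d.totient) (by
      rw [show 101 - 1 = 100 from rfl] at hS; linarith) ?_ ?_ ?_ (by positivity) hfe.le m1 m2 hu
  · rw [Rat.cast_mul, ← hfe]; positivity
  · rw [Rat.cast_mul, ← hfe]; exact mul_le_mul_of_nonneg_left s1 (by linarith)
  · rw [Rat.cast_add, Rat.cast_add]
    refine add_le_add (add_le_add (le_of_eq ?_) le_rfl) hν
    unfold inv; push_cast; rw [hfe]

/-- the arc condition -/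
theorem arc (A : All r N) {M q : ℕ} {t : ℤ} (hM : 0 < M) (hA : Arc M (RR N) q t) :
    Lhs r N c1 lam M q t ≤ kap r N * Rhs N M q t := by
  obtain ⟨i, h1, h2⟩ := exists_bin (one_le_ht N hA.1 ((t : ℝ) / M))
  have k1 := A.k1; have k2 := A.k2; have k3 := A.k3
  simp only [chk1, chk2, chk3, Bool.and_eq_true, List.all_eq_true, List.mem_range, Bool.or_eq_true,
    decide_eq_true_eq] at k1 k2 k3
  by_cases hδ : dl N (t / M) ≤ 33
  · have hF : Fam r N (t / M) 10 8.9076 101 := Or.inl ⟨hδ, rfl, rfl, rfl⟩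
    by_cases hi : i < 101
    swap
    · exact X.arc_far A.hP hM hA hF ((pow_le_pow_right₀ (by norm_num) (not_lt.1 hi)).trans h1)
    by_cases hg : q.gcd 60 ≤ 2
    swap
    · exact X.arc_N A hM hA hF (by simp) k2.1.1 hi h1 h2 (not_le.1 hg) (k2.1.2 i hi)
    have g3 := ((boxFF.2.2.1 q hA.1).2.2.2.2.2.1 hg).2.2
    obtain ⟨eS, hS, eS0, eS1, eS2⟩ := exists_DS (dl_nonneg N (t / M)) hδ
    obtain ⟨eE, hE, eE0, eE1, eE2⟩ := exists_DE (dl_nonneg N (t / M)) hδ
    by_cases hq : q = 1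
    · refine X.arc_E A (g := 1) hM hA hδ k2.1.1 (by rw [hq]; decide) (by rw [hq]; decide) (by norm_num) (fun _ => rfl)
        eS0 eS1 eS2 ?_
      rw [hq]; exact k3.1 eS hS
    by_cases hk : q2 q < 300
    · have k4 := (k3.2 _ hk).resolve_left (fun h => h g3)
      unfold dbin at k4
      split_ifs at k4
      · exact X.arc_E A hM hA hδ k2.1.1 hk hg le_rfl (fun h => absurd h hq) eS0 eS1 eS2 (k4 eS hS)
      · exact X.arc_E A hM hA hδ k2.1.1 hk hg le_rfl (fun h => absurd h hq) eE0 eE1 eE2 (k4 eE hE)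
    · have h3 : ¬ i < 32 := by
        intro h4
        have h5 : (300 : ℝ) ≤ q2 q := by exact_mod_cast not_lt.1 hk
        have h6 := ((pow_le_pow_left₀ (by norm_num) (h5.trans (q2_le_ht N q (t / M))) 4).trans_lt h2).trans_le
          (pow_le_pow_right₀ (by norm_num : (1 : ℝ) ≤ 2) (by omega : i + 1 ≤ 32))
        norm_num at h6
      exact X.arc_M2 A hM hA hδ k2.1.1 hi hq h1 h2 hg eE0 eE1 eE2 ((k2.2 i hi).resolve_left h3 eE hE)
  · have hδ' := (not_le.1 hδ).le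
    have hF : Fam r N (t / M) 1 7.2312 r.iP := Or.inr ⟨hδ', rfl, rfl, rfl⟩
    by_cases hi : i < r.iP
    swap
    · exact X.arc_far A.hP hM hA hF ((pow_le_pow_right₀ (by norm_num) (not_lt.1 hi)).trans h1)
    by_cases hg : q.gcd 60 ≤ 2
    · exact X.arc_M1 A hM hA hδ' k1.1.1 hi h1 h2 hg (k1.2 i hi)
    · exact X.arc_N A hM hA hF (fun _ => hδ') k1.1.1 hi h1 h2 (not_le.1 hg) (k1.1.2 i hi)

end Ctx

end Cfsg.Agent.Depth.N
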