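import Cfsg.Agent.Depth.N.Defs
import Cfsg.Agent.Depth.S.GH1

/-!
# Depth (S5768): sums over the bins, mass of the multipliers (helper61)
-/

set_option autoImplicit false

namespace Cfsg.Agent.Depth.N

open Finset

theorem le_of_log2 {d j : ℕ} (h : (d ^ 4).log2 = j) : d ≤ 2 ^ (j / 4 + 1) := by
  have h1 : d ^ 4 < 2 ^ (j + 1) := h ▸ Nat.lt_log2_self
  have h2 : 2 ^ (j + 1) ≤ (2 ^ (j / 4 + 1)) ^ 4 := by
    rw [← pow_mul]
    exact Nat.pow_le_pow_right (by norm_num) (by omega)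
  exact (lt_of_pow_lt_pow_left₀ 4 (Nat.zero_le _) (h1.trans_le h2)).le

theorem bin_le (D : Finset ℕ) (hD : ∀ d ∈ D, Squarefree d ∧ d.Coprime 60) (j : ℕ) :
    ∑ d ∈ D.filter (fun d => (d ^ 4).log2 = j), (1 : ℝ) / d.totient ≤ Wbin j := by
  refine sum_le_sum_of_subset_of_nonneg (fun d hd => ?_) fun _ _ _ => by positivity
  obtain ⟨h1, h2⟩ := mem_filter.1 hd
  exact mem_filter.2 ⟨mem_Icc.2 ⟨Nat.pos_of_ne_zero (hD d h1).1.ne_zero, le_of_log2 h2⟩, (hD d h1).1, (hD d h1).2,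
    Nat.log2_eq_log_two ▸ h2⟩

theorem boxBin (h : GH3) : BoxBin := by
  intro D a J hD ha hJ
  have h1 : ∀ d ∈ D, a (d ^ 4).log2 / d.totient =
      ∑ j ∈ range J, if (d ^ 4).log2 = j then a j * (1 / d.totient) else 0 := by
    intro d _
    rw [sum_ite_eq]
    split_ifs with e
    · rw [mul_one_div]
    · rw [hJ _ (not_lt.1 fun e' => e (mem_range.2 e')), zero_div]
  rw [sum_congr rfl h1, sum_comm]
  refine sum_le_sum fun j _ => ?_
  rw [← sum_filter, ← mul_sum, mul_comm]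
  exact mul_le_mul_of_nonneg_right ((bin_le D hD j).trans (h j)) (ha j)

theorem RR_sq (N : ℕ) : 192 * (RR N : ℝ) ^ 2 ≤ N := by
  have h1 : RR N * RR N ≤ N / 192 := Nat.sqrt_le _
  have h2 : 192 * RR N ^ 2 ≤ N := by
    rw [sq]
    omega
  exact_mod_cast h2

theorem one_mem_Dset {M R q : ℕ} {t : ℤ} (h : Arc M R q t) : 1 ∈ Dset M R q t :=
  mem_filter.2 ⟨mem_Icc.2 ⟨le_rfl, h.1.trans h.2.1⟩, squarefree_one, Nat.coprime_one_left _, by simpa using h.2.1,
    by simpa using h.2.2⟩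

theorem boxRhs : BoxRhs := by
  intro N M q t m hM hA hm hδ
  have hq : (1 : ℝ) ≤ q := by exact_mod_cast hA.1
  have hM' : (0 : ℝ) < M := by exact_mod_cast hM
  refine ⟨?_, (S.gh1 q _ hA.1).trans ?_⟩
  · have := single_le_sum (f := fun d : ℕ => (1 : ℝ) / d.totient) (fun _ _ => by positivity) (one_mem_Dset hA)
    simpa using this
  refine sum_le_sum_of_subset_of_nonneg (fun d hd => ?_) fun _ _ _ => by positivity
  obtain ⟨h1, h2, h3⟩ := mem_filter.1 hd
  obtain ⟨h4, h5⟩ := mem_Icc.1 h1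
  have h6 : (d : ℝ) ≤ RR N / (q * m) := (Nat.le_floor_iff (by positivity)).1 h5
  rw [le_div_iff₀ (by positivity)] at h6
  have hd0 : (0 : ℝ) ≤ d := Nat.cast_nonneg _
  have h7 : q * d ≤ RR N := by
    have : (q : ℝ) * d ≤ RR N := by nlinarith [mul_nonneg (mul_nonneg hd0 (zero_le_one.trans hq)) (sub_nonneg.2 hm)]
    exact_mod_cast this
  refine mem_filter.2 ⟨mem_Icc.2 ⟨h4, le_trans (Nat.le_mul_of_pos_left _ hA.1) h7⟩, h2, h3, h7, ?_⟩
  have h8 : |(t : ℝ)| * N < 96 * m * M := by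
    unfold dl at hδ
    rw [abs_div, abs_of_pos hM', div_mul_eq_mul_div, div_div, div_lt_iff₀ (by positivity)] at hδ
    linarith
  have h9 := RR_sq N
  have ht : (0 : ℝ) ≤ |(t : ℝ)| := abs_nonneg _
  have hR : (0 : ℝ) ≤ RR N := Nat.cast_nonneg _
  have h10 : (2 : ℝ) * (q * d) * RR N * |(t : ℝ)| < M := by
    refine lt_of_mul_lt_mul_right ?_ (zero_le_one.trans hm)
    have h11 := mul_le_mul_of_nonneg_right h6 (mul_nonneg hR ht)
    have h12 := mul_le_mul_of_nonneg_right h9 ht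
    nlinarith
  rw [← Int.cast_abs, Int.abs_eq_natAbs, Int.cast_natCast] at h10
  exact_mod_cast h10

end Cfsg.Agent.Depth.N
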