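import Cfsg.Agent.Depth.N.FF

/-!
# Depth (S5768): the terms with a large drift (helper61)
-/

set_option autoImplicit false

namespace Cfsg.Agent.Depth.N

open Finset
open scoped Classical

namespace Drift

/-- `∑ e / φ(e)²` over the divisors -/
def sQ (Q : ℕ) : ℚ := ∑ e ∈ Q.divisors, (e : ℚ) / (e.totient : ℚ) ^ 2

theorem sum_QF : ∑ ps ∈ QF, (ps.map cQ).prod * ((ps.prod : ℕ) * sQ ps.prod) ≤ 2266 / 10 := by
  decide +kernel

theorem QF_pos : ∀ ps ∈ QF, 0 < ps.prod ∧ 0 ≤ (ps.map cQ).prod := by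
  decide +kernel

theorem sQ_cast (Q : ℕ) : (sQ Q : ℝ) = ∑ e ∈ Q.divisors, (e : ℝ) / (e.totient : ℝ) ^ 2 := by
  unfold sQ
  push_cast
  rfl

theorem sQ_nonneg (Q : ℕ) : (0 : ℝ) ≤ sQ Q := by
  rw [sQ_cast]
  exact sum_nonneg fun _ _ => by positivity

theorem cL_nonneg {ps : List ℕ} (h : ps ∈ QF) : 0 ≤ cL ps := by
  unfold cL
  exact_mod_cast (QF_pos ps h).2

theorem sum_cL : ∑ ps ∈ QF, cL ps * ((ps.prod : ℕ) * (sQ ps.prod : ℝ)) ≤ 226.6 := by
  have h : ((∑ ps ∈ QF, (ps.map cQ).prod * ((ps.prod : ℕ) * sQ ps.prod) : ℚ) : ℝ) ≤ ((2266 / 10 : ℚ) : ℝ) :=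
    Rat.cast_le.2 sum_QF
  rw [Rat.cast_sum] at h
  refine le_trans (le_of_eq (sum_congr rfl fun ps _ => ?_)) (h.trans (by norm_num))
  rw [Rat.cast_mul, Rat.cast_mul, Rat.cast_natCast, cL]

/-- splitting `d = gcd(Q, d) * d₂` -/
theorem split_le {Q : ℕ} (hQ : 0 < Q) (D : Finset ℕ) (hD : ∀ d ∈ D, Squarefree d) :
    ∑ d ∈ D, (Q.gcd d : ℝ) / (d.totient : ℝ) ^ 2 ≤
      sQ Q * ∑ e ∈ D.image (fun d => d / Q.gcd d), (1 : ℝ) / (e.totient : ℝ) ^ 2 := by
  rw [sQ_cast, sum_mul_sum, ← sum_product']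
  have hm : ∀ d, Q.gcd d * (d / Q.gcd d) = d := fun d => Nat.mul_div_cancel' (Nat.gcd_dvd_right _ _)
  refine S.GH.sum_le_of_inj _ _ (fun d => (Q.gcd d, d / Q.gcd d)) _ _ (fun a _ b _ h => ?_) (fun d hd => ?_)
    (fun d hd => le_of_eq ?_) fun _ _ => by positivity
  · exact (hm a).symm.trans ((congrArg (fun x : ℕ × ℕ => x.1 * x.2) h).trans (hm b))
  · exact mem_product.2 ⟨Nat.mem_divisors.2 ⟨Nat.gcd_dvd_left _ _, hQ.ne'⟩, mem_image_of_mem _ hd⟩
  · have h1 : (Q.gcd d).Coprime (d / Q.gcd d) := (Nat.squarefree_mul_iff.1 ((hm d).symm ▸ hD d hd)).1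
    have h2 := Nat.totient_mul h1
    rw [hm] at h2
    rw [h2, Nat.cast_mul, mul_pow, div_mul_div_comm, mul_one]

/-- the tail sums with the term `1` -/
theorem tail_le (h : GH5) {x : ℝ} (hx : 0 < x) (s : Finset ℕ) (hs : ∀ d ∈ s, Squarefree d ∧ d.Coprime 60 ∧ x < d) :
    ∑ d ∈ s, (1 : ℝ) / (d.totient : ℝ) ^ 2 ≤ 1.07 ∧ x * ∑ d ∈ s, (1 : ℝ) / (d.totient : ℝ) ^ 2 ≤ 1.07 := by
  obtain ⟨h1, h2⟩ := h x (s.erase 1) hx fun d hd => by
    obtain ⟨e1, e2⟩ := mem_erase.1 hd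
    have := (hs d e2).1.ne_zero
    exact ⟨(hs d e2).1, (hs d e2).2.1, by omega, (hs d e2).2.2.le⟩
  by_cases e : 1 ∈ s
  · have h3 : ∑ d ∈ s, (1 : ℝ) / (d.totient : ℝ) ^ 2 ≤ 1.07 := by
      rw [← add_sum_erase _ _ e]
      simp only [Nat.totient_one, Nat.cast_one, one_pow, div_one]
      linarith
    have h4 : x < 1 := by simpa using (hs 1 e).2.2
    exact ⟨h3, (mul_le_of_le_one_left (sum_nonneg fun _ _ => by positivity) h4.le).trans h3⟩
  · rw [erase_eq_of_notMem e] at h1 h2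
    exact ⟨by linarith, by linarith⟩

theorem dl_nonneg (N : ℕ) (β : ℝ) : 0 ≤ dl N β := by
  unfold dl
  positivity

theorem drift_le {N : ℕ} (hN : 10 ^ 23 ≤ N) (β : ℝ) : |β| * (2 * BB N + 1) ≤ 2.0305e-8 * dl N β := by
  have h1 : (10 : ℝ) ^ 23 ≤ N := by exact_mod_cast hN
  have h2 : 2 * BB N + 1 ≤ 2.0305e-8 * (N / 60) := by
    unfold BB
    linarith
  have h3 := mul_le_mul_of_nonneg_left h2 (abs_nonneg β)
  unfold dl
  linarith

/-- one term -/
theorem term_eq {q d : ℕ} (hq : 0 < q) (hd : d.Coprime (60 * q)) (Q : ℕ) {δ : ℝ} (hδ : 0 < δ) :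
    ff (q2 (q * d)) * (23.8 * Q.gcd (q * d) / (δ * q2 (q * d))) / d.totient =
      ff (q2 q) * (23.8 * Q.gcd q / (δ * q2 q)) * ((Q.gcd d : ℝ) / (d.totient : ℝ) ^ 2) := by
  have h60 : d.Coprime 60 := hd.coprime_mul_right_right
  have hdq : d.Coprime q := hd.coprime_mul_left_right
  have hd0 := pos_of_coprime60 h60
  have h1 : (q2 q).Coprime d := (hdq.coprime_dvd_right (Dvd.intro_left _ (gcd_mul_q2 q))).symm
  have h2 : (0 : ℝ) < d := by exact_mod_cast hd0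
  have h3 : (0 : ℝ) < d.totient := by exact_mod_cast Nat.totient_pos.2 hd0
  have h4 : (0 : ℝ) < q2 q := by exact_mod_cast q2_pos hq
  rw [q2_mul q h60, Depth.D.ff_mul_coprime h1, Depth.D.ff_eq_div hd0 (h60.coprime_dvd_right (by norm_num)),
    Nat.Coprime.gcd_mul Q hdq.symm]
  push_cast
  field_simp

/-- one modulus -/
theorem one_mod (h : GH5) {N q Q : ℕ} {β : ℝ} (D : Finset ℕ) (hN : 10 ^ 23 ≤ N) (hq : 0 < q) (hQ : 0 < Q)
    (hD : ∀ d ∈ D, Squarefree d ∧ d.Coprime (60 * q)) (hV : ∀ d ∈ D, ¬ Val N (q * d) Q β) (hδ : 0 < dl N β) :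
    ∑ d ∈ D, ff (q2 (q * d)) * (23.8 * Q.gcd (q * d) / (dl N β * q2 (q * d))) / d.totient ≤
      ff (q2 q) * (1.07 * (Q * sQ Q) * min (6.45e-7 * (ge q : ℝ)) (23.8 / (dl N β * q2 q))) := by
  have hk : (0 : ℝ) < q2 q := by exact_mod_cast q2_pos hq
  have hg : (0 : ℝ) < ge q := by exact_mod_cast one_le_ge hq
  have hG : (0 : ℝ) < Q.gcd q := by exact_mod_cast Nat.gcd_pos_of_pos_left q hQ
  have hG1 : (Q.gcd q : ℝ) ≤ Q := by exact_mod_cast Nat.gcd_le_left q hQ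
  have hQ' : (0 : ℝ) < Q := by exact_mod_cast hQ
  have hs := sQ_nonneg Q
  have hx : (0 : ℝ) < 0.75 * Q.gcd q / (2.0305e-8 * dl N β * Q * ge q * q2 q) := by positivity
  obtain ⟨h1, h2⟩ := tail_le h hx (D.image (fun d => d / Q.gcd d)) fun e he => by
    obtain ⟨d, hd, rfl⟩ := mem_image.1 he
    have hm : Q.gcd d * (d / Q.gcd d) = d := Nat.mul_div_cancel' (Nat.gcd_dvd_right _ _)
    have h60 : d.Coprime 60 := (hD d hd).2.coprime_mul_right_right
    refine ⟨(hD d hd).1.squarefree_of_dvd (Dvd.intro_left _ hm), h60.coprime_dvd_left (Dvd.intro_left _ hm), ?_⟩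
    have h3 := hV d hd
    unfold Val at h3
    rw [not_le, qc_mul hq h60, Nat.Coprime.gcd_mul Q (hD d hd).2.coprime_mul_left_right.symm] at h3
    have h4 : (0 : ℝ) < Q.gcd d := by exact_mod_cast Nat.gcd_pos_of_pos_left d hQ
    have h5 : (d : ℝ) = Q.gcd d * (d / Q.gcd d : ℕ) := by exact_mod_cast hm.symm
    have h6 := mul_le_mul_of_nonneg_right (drift_le hN β) (show (0 : ℝ) ≤ Q * (ge q * q2 q * d) by positivity)
    push_cast at h3
    rw [div_lt_iff₀ (by positivity)]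
    refine lt_of_mul_lt_mul_right ?_ h4.le
    calc 0.75 * (Q.gcd q : ℝ) * Q.gcd d = 0.75 * (Q.gcd q * Q.gcd d) := by ring
      _ < 2.0305e-8 * dl N β * (Q * (ge q * q2 q * d)) := h3.trans_le (by linarith)
      _ = 2.0305e-8 * dl N β * (Q * (ge q * q2 q * (Q.gcd d * (d / Q.gcd d : ℕ)))) := by rw [← h5]
      _ = _ := by ring
  rw [sum_congr rfl fun d hd => term_eq hq (hD d hd).2 Q hδ, ← mul_sum, mul_assoc]
  refine mul_le_mul_of_nonneg_left ?_ (Depth.D.ff_pos _).le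
  refine (mul_le_mul_of_nonneg_left (split_le hQ D fun d hd => (hD d hd).1) (by positivity)).trans ?_
  set T := ∑ e ∈ D.image (fun d => d / Q.gcd d), (1 : ℝ) / (e.totient : ℝ) ^ 2 with hT
  have hT0 : 0 ≤ T := sum_nonneg fun _ _ => by positivity
  rw [mul_min_of_nonneg _ _ (by positivity)]
  refine le_min ?_ ?_
  · have e : 23.8 * (Q.gcd q : ℝ) / (dl N β * q2 q) * (sQ Q * T) = 23.8 * 2.0305e-8 / 0.75 * (Q * sQ Q * ge q) *
        (0.75 * Q.gcd q / (2.0305e-8 * dl N β * Q * ge q * q2 q) * T) := by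
      field_simp
    have h3 : (0 : ℝ) ≤ Q * sQ Q * ge q := by positivity
    rw [e]
    refine (mul_le_mul_of_nonneg_left h2 (by positivity)).trans ?_
    linarith
  · have e : 23.8 * (Q.gcd q : ℝ) / (dl N β * q2 q) * (sQ Q * T) =
        T * (Q.gcd q * sQ Q) * (23.8 / (dl N β * q2 q)) := by ring
    rw [e]
    gcongr

theorem invT_nonneg (N q' : ℕ) (β : ℝ) : 0 ≤ invT N q' β :=
  sum_nonneg fun ps h => mul_nonneg (cL_nonneg (mem_filter.1 h).1) (by have := dl_nonneg N β; positivity)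

theorem sum_le (h : GH5) {N q : ℕ} {β : ℝ} (D : Finset ℕ) (hN : 10 ^ 23 ≤ N) (hq : 0 < q)
    (hD : ∀ d ∈ D, Squarefree d ∧ d.Coprime (60 * q)) :
    ∑ d ∈ D, ff (q2 (q * d)) * invT N (q * d) β / d.totient ≤
      ff (q2 q) * (1.07 * 226.6 * min (6.45e-7 * (ge q : ℝ)) (23.8 / (dl N β * q2 q))) := by
  have hm : (0 : ℝ) ≤ min (6.45e-7 * (ge q : ℝ)) (23.8 / (dl N β * q2 q)) :=
    le_min (by positivity) (by have := dl_nonneg N β; positivity)
  have hf := (Depth.D.ff_pos (q2 q)).le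
  rcases (dl_nonneg N β).eq_or_lt with hδ | hδ
  · refine le_trans (le_of_eq (sum_eq_zero fun d _ => ?_)) (by positivity)
    simp [invT, ← hδ]
  have h1 : ∀ d ∈ D, ff (q2 (q * d)) * invT N (q * d) β / d.totient = ∑ ps ∈ QF, if ¬ Val N (q * d) ps.prod β then
      cL ps * (ff (q2 (q * d)) * (23.8 * ps.prod.gcd (q * d) / (dl N β * q2 (q * d))) / d.totient) else 0 := by
    intro d _
    rw [← sum_filter, invT, mul_sum, sum_div]
    exact sum_congr (by congr) fun ps _ => by ring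
  rw [sum_congr rfl h1, sum_comm]
  calc _ ≤ ∑ ps ∈ QF, cL ps * (ff (q2 q) * (1.07 * ((ps.prod : ℕ) * (sQ ps.prod : ℝ)) *
        min (6.45e-7 * (ge q : ℝ)) (23.8 / (dl N β * q2 q)))) := by
        refine sum_le_sum fun ps hps => ?_
        rw [← sum_filter, ← mul_sum]
        exact mul_le_mul_of_nonneg_left (one_mod h _ hN hq (QF_pos ps hps).1 (fun d hd => hD d (mem_filter.1 hd).1)
          (fun d hd => (mem_filter.1 hd).2) hδ) (cL_nonneg hps)
    _ = ff (q2 q) * (1.07 * (∑ ps ∈ QF, cL ps * ((ps.prod : ℕ) * (sQ ps.prod : ℝ))) *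
        min (6.45e-7 * (ge q : ℝ)) (23.8 / (dl N β * q2 q))) := by
        rw [mul_sum, sum_mul, mul_sum]
        exact sum_congr rfl fun ps _ => by ring
    _ ≤ _ := by
        have := sum_cL
        gcongr

end Drift

theorem boxInv (h : GH5) : BoxInv := by
  intro N q β D hN hq hD
  have hf := (Depth.D.ff_pos (q2 q)).le
  have h1 := Drift.sum_le h (β := β) D hN hq hD
  refine ⟨fun d => Drift.invT_nonneg _ _ _, h1.trans ?_, h1.trans ?_⟩
  · gcongr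
    exact min_le_left _ _
  · gcongr
    exact min_le_right _ _

end Cfsg.Agent.Depth.N
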