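import Cfsg.Agent.Depth.N.Pt
import Cfsg.Agent.Depth.N.Inv
import Cfsg.Agent.Depth.S.GH3
import Cfsg.Agent.Depth.S.GH5

/-!
# Depth (S5768): sums over the multipliers of a cell
-/

set_option autoImplicit false

namespace Cfsg.Agent.Depth.N

open Finset Cfsg.Agent.Depth.D
open scoped Classical

theorem one_le_sg (N : ℕ) (β : ℝ) : 1 ≤ sg N β := le_max_left _ _

theorem dl_nonneg (N : ℕ) (β : ℝ) : 0 ≤ dl N β := by unfold dl; positivity

theorem q2_le_ht (N q : ℕ) (β : ℝ) : (q2 q : ℝ) ≤ ht N q β :=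
  le_mul_of_one_le_right (Nat.cast_nonneg _) (one_le_sg N β)

theorem one_le_ht (N : ℕ) {q : ℕ} (hq : 0 < q) (β : ℝ) : 1 ≤ ht N q β :=
  le_trans (by exact_mod_cast (boxFF.2.2.1 q hq).1) (q2_le_ht N q β)

theorem ht_mul (N : ℕ) {q d : ℕ} (hq : 0 < q) (hd : d.Coprime 60) (β : ℝ) : ht N (q * d) β = ht N q β * d := by
  unfold ht; rw [(boxFF.2.2.2 q d hq hd).2.1]; push_cast; ring

theorem log2_bin {n : ℕ} (hn : 0 < n) : (2 : ℝ) ^ n.log2 ≤ n ∧ (n : ℝ) < 2 ^ (n.log2 + 1) :=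
  ⟨by exact_mod_cast Nat.log2_self_le hn.ne', by exact_mod_cast @Nat.lt_log2_self n⟩

theorem exists_bin {h : ℝ} (h1 : 1 ≤ h) : ∃ i : ℕ, 2 ^ i ≤ h ^ 4 ∧ h ^ 4 < 2 ^ (i + 1) := by
  have h2 : 1 ≤ h ^ 4 := one_le_pow₀ h1
  have h3 : 0 < ⌊h ^ 4⌋₊ := Nat.floor_pos.2 h2
  refine ⟨⌊h ^ 4⌋₊.log2, (log2_bin h3).1.trans (Nat.floor_le (by linarith)), ?_⟩
  have h4 : ⌊h ^ 4⌋₊ < 2 ^ (⌊h ^ 4⌋₊.log2 + 1) := Nat.lt_log2_self
  have h5 := (Nat.floor_lt (by linarith : 0 ≤ h ^ 4)).1 h4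
  exact_mod_cast h5

theorem mem_Dset {M R q d : ℕ} {t : ℤ} (hM : 0 < M) (h : d ∈ Dset M R q t) :
    0 < d ∧ Squarefree d ∧ d.Coprime (60 * q) ∧ d.Coprime 60 ∧ q * d ≤ R ∧
      ((q * d : ℕ) : ℝ) * R * |(t : ℝ) / M| ≤ 1 := by
  obtain ⟨h1, h2, h3, h4, h5⟩ := mem_filter.1 h
  refine ⟨(mem_Icc.1 h1).1, h2, h3, Nat.Coprime.coprime_mul_right_right h3, h4, ?_⟩
  have hM' : (0 : ℝ) < M := by exact_mod_cast hM
  have h6 : ((2 * (q * d) * R * t.natAbs : ℕ) : ℝ) < M := by exact_mod_cast h5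
  rw [abs_div, abs_of_pos hM', ← mul_div_assoc, div_le_one hM']
  push_cast at h6 ⊢
  rw [Nat.cast_natAbs] at h6
  push_cast at h6
  have : (0 : ℝ) ≤ q * d * R * |(t : ℝ)| := by positivity
  linarith

theorem sum_bins {D : Finset ℕ} (hD : ∀ d ∈ D, Squarefree d ∧ d.Coprime 60) (a : ℕ → ℕ) {n i : ℕ}
    (hl : ∀ d ∈ D, i + (d ^ 4).log2 < n) :
    ∑ d ∈ D, (a (i + (d ^ 4).log2) : ℝ) / 10 ^ 9 / d.totient ≤ ((SB ((List.range n).map a) i : ℚ) : ℝ) := by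
  have h := boxBin S.gh3 D (fun j => if i + j < n then (a (i + j) : ℝ) / 10 ^ 9 else 0) (n - i) hD
    (fun j => by split_ifs <;> positivity) (fun j hj => if_neg (by omega))
  rw [SB_eq]
  refine le_trans (le_of_eq (sum_congr rfl fun d hd => by rw [if_pos (hl d hd)])) (h.trans (le_of_eq ?_))
  exact sum_congr rfl fun j hj => by rw [if_pos (by have := mem_range.1 hj; omega)]

/-- the multipliers below the plateau -/
noncomputable def Dlow (M R q : ℕ) (t : ℤ) (n i : ℕ) : Finset ℕ :=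
  (Dset M R q t).filter fun d => i + (d ^ 4).log2 < n

theorem Fam.n_le {r : Rg} {N n : ℕ} {β : ℝ} {T l8 : ℚ} (h : Fam r N β T l8 n) (hp : Par r) : 101 ≤ n ∧ n ≤ r.iP := by
  have := hp.i1
  rcases h with ⟨_, _, _, h⟩ | ⟨_, _, _, h⟩ <;> omega

theorem bin_mul {N M q d i : ℕ} {t : ℤ} (hM : 0 < M) (hq : 0 < q) (hd : d ∈ Dset M (RR N) q t)
    (h1 : 2 ^ i ≤ ht N q (t / M) ^ 4) (h2 : ht N q (t / M) ^ 4 < 2 ^ (i + 1)) :
    2 ^ (i + (d ^ 4).log2) ≤ ht N (q * d) (t / M) ^ 4 ∧ ht N (q * d) (t / M) ^ 4 < 2 ^ (i + (d ^ 4).log2 + 2) := by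
  obtain ⟨d0, -, -, d3, -⟩ := mem_Dset hM hd
  obtain ⟨b1, b2⟩ := log2_bin (pow_pos d0 4)
  push_cast at b1 b2
  rw [ht_mul N hq d3, mul_pow, pow_add, show i + (d ^ 4).log2 + 2 = (i + 1) + ((d ^ 4).log2 + 1) by ring, pow_add 2 (i + 1)]
  exact ⟨mul_le_mul h1 b1 (by positivity) (by positivity), mul_lt_mul'' h2 b2 (by positivity) (by positivity)⟩

namespace Ctx

variable {r : Rg} {N c1 : ℕ} {lam : ℕ → ℕ → ℝ} (X : Ctx r N c1 lam)
include X

theorem cF_nonneg {i : ℕ} (hi : i < r.iP) : (0 : ℝ) ≤ cF r i := by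
  have hl : (0 : ℚ) < l2 := by unfold l2; norm_num
  have h0 : (0 : ℚ) ≤ (i + 2) * l2 / 4 := by positivity
  have h1 : (i + 2 : ℚ) * l2 / 4 ≤ (r.iP + 1) * l2 / 4 := by
    have : (i + 2 : ℚ) ≤ r.iP + 1 := by exact_mod_cast (by omega : i + 2 ≤ r.iP + 1)
    gcongr
  have h2 : (i + 2 : ℚ) * l2 / 4 + 6.9135 ≤ r.xa := by linarith [X.par.i4]
  exact (cc_pos X.h23 X.lo_pos (by norm_num) (X.one_le_lev (qle h2))).le.trans
    (X.ccH_spec (T := 10) (by norm_num) (by linarith) h2)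

/-- the multipliers on the plateau do not count -/
theorem sum_low (hP : chkP r = true) {M q n i : ℕ} {t : ℤ} {T l8 : ℚ} (hM : 0 < M) (hq : 0 < q)
    (hF : Fam r N (t / M) T l8 n) (h1 : 2 ^ i ≤ ht N q (t / M) ^ 4) (h2 : ht N q (t / M) ^ 4 < 2 ^ (i + 1)) :
    ∑ d ∈ Dset M (RR N) q t, Dact N c1 lam r.η (q * d) (t / M) / d.totient =
      ∑ d ∈ Dlow M (RR N) q t n i, Dact N c1 lam r.η (q * d) (t / M) / d.totient := by
  unfold Dlow
  rw [sum_filter]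
  refine sum_congr rfl fun d hd => ?_
  split_ifs with h
  · rfl
  · obtain ⟨d0, -, -, -, d4, d5⟩ := mem_Dset hM hd
    rw [X.plateau_arc hP hF (Nat.mul_pos hq d0) d4 d5
      ((pow_le_pow_right₀ (by norm_num) (not_lt.1 h)).trans (bin_mul hM hq hd h1 h2).1), zero_div]

theorem cellA (hP : chkP r = true) (hFor : BoxFor) {M q n i : ℕ} {t : ℤ} {T l8 G F1 : ℚ} (hM : 0 < M) (hq : 0 < q)
    (hF : Fam r N (t / M) T l8 n) (hW : chkW r n = true) (h1 : 2 ^ i ≤ ht N q (t / M) ^ 4)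
    (h2 : ht N q (t / M) ^ 4 < 2 ^ (i + 1)) (hG : (ge q : ℝ) ≤ G)
    (hF1 : 0.54 * (ge q / 0.66 + 2.64 / ge q) ≤ (F1 : ℝ)) {Mt : ℕ → ℝ}
    (hMt : ∀ d ∈ Dlow M (RR N) q t n i, 0 ≤ Mt d ∧ MatLe N c1 (q * d) (t / M) (Mt d)) {m : ℝ}
    (hm : 6.45e-7 * (ge q : ℝ) ≤ m ∨ 23.8 / (dl N (t / M) * q2 q) ≤ m) :
    ∑ d ∈ Dset M (RR N) q t, Dact N c1 lam r.η (q * d) (t / M) / d.totient ≤
      ∑ d ∈ Dlow M (RR N) q t n i, Mt d / d.totient +
        (ff (q2 q) * (cF r (n - 1) * (1.07 * 226.6 * m)) + SB (tA r T l8 G F1 n) i) := by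
  obtain ⟨n1, n2⟩ := hF.n_le X.par
  have hD : ∀ d ∈ Dlow M (RR N) q t n i, Squarefree d ∧ d.Coprime (60 * q) := fun d hd =>
    ⟨(mem_Dset hM (mem_filter.1 hd).1).2.1, (mem_Dset hM (mem_filter.1 hd).1).2.2.1⟩
  obtain ⟨i0, i1, i2⟩ := boxInv S.gh5 N q (t / M) (Dlow M (RR N) q t n i) X.h23 hq hD
  have hcw := X.cF_nonneg (i := n - 1) (by omega)
  have hf := one_le_ff (q2 q)
  have hI : ∑ d ∈ Dlow M (RR N) q t n i, ff (q2 (q * d)) * invT N (q * d) (t / M) / d.totient ≤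
      ff (q2 q) * (1.07 * 226.6 * m) := by
    rcases hm with hm | hm
    · exact i1.trans (by gcongr)
    · exact i2.trans (by gcongr)
  have hS := sum_bins (D := Dlow M (RR N) q t n i)
    (fun d hd => ⟨(hD d hd).1, (mem_Dset hM (mem_filter.1 hd).1).2.2.2.1⟩) (nA r T l8 G F1) (n := n) (i := i)
    (fun d hd => (mem_filter.1 hd).2)
  rw [X.sum_low hP hM hq hF h1 h2]
  calc _ ≤ ∑ d ∈ Dlow M (RR N) q t n i, (Mt d / d.totient +
        (cF r (n - 1) * (ff (q2 (q * d)) * invT N (q * d) (t / M) / d.totient) +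
          (nA r T l8 G F1 (i + (d ^ 4).log2) : ℝ) / 10 ^ 9 / d.totient)) := by
        refine sum_le_sum fun d hd => ?_
        obtain ⟨hd1, hd2⟩ := mem_filter.1 hd
        obtain ⟨d0, -, -, d3, d4, d5⟩ := mem_Dset hM hd1
        obtain ⟨b1, b2⟩ := bin_mul hM hq hd1 h1 h2
        have hge := (boxFF.2.2.2 q d hq d3).2.2
        have hw : cF r (i + (d ^ 4).log2) ≤ cF r (n - 1) := by
          have := List.all_eq_true.1 hW _ (List.mem_range.2 hd2)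
          exact of_decide_eq_true this
        have := X.ptA hFor hF (Nat.mul_pos hq d0) d4 d5 hd2 b1 b2 (G := G) (F1 := F1) (by rwa [hge]) (by rwa [hge])
          (hMt d hd).1 (hMt d hd).2 (qle hw) (i0 d)
        refine (div_le_div_of_nonneg_right this (Nat.cast_nonneg _)).trans (le_of_eq ?_)
        ring
    _ ≤ _ := by
        rw [sum_add_distrib, sum_add_distrib, ← mul_sum]
        have := mul_le_mul_of_nonneg_left hI hcw
        unfold tA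
        linarith

theorem cellB (hP : chkP r = true) {M q n i : ℕ} {t : ℤ} {T l8 : ℚ} (hM : 0 < M) (hq : 0 < q)
    (hF : Fam r N (t / M) T l8 n) (h1 : 2 ^ i ≤ ht N q (t / M) ^ 4) (h2 : ht N q (t / M) ^ 4 < 2 ^ (i + 1)) :
    ∑ d ∈ Dset M (RR N) q t, Dact N c1 lam r.η (q * d) (t / M) / d.totient ≤
      SB (tB r T l8 n) i + if q = 1 then ‖nuH N c1 (t / M)‖ / Th N else 0 := by
  have hS := sum_bins (D := Dlow M (RR N) q t n i)
    (fun d hd => ⟨(mem_Dset hM (mem_filter.1 hd).1).2.1, (mem_Dset hM (mem_filter.1 hd).1).2.2.2.1⟩) (nB r T l8)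
    (n := n) (i := i) (fun d hd => (mem_filter.1 hd).2)
  have h0 : 0 ≤ (if q = 1 then ‖nuH N c1 (t / M)‖ / Th N else 0) := by
    have := X.Th_pos
    split_ifs <;> positivity
  rw [X.sum_low hP hM hq hF h1 h2]
  calc _ ≤ ∑ d ∈ Dlow M (RR N) q t n i, ((nB r T l8 (i + (d ^ 4).log2) : ℝ) / 10 ^ 9 / d.totient +
        if d = 1 then (if q = 1 then ‖nuH N c1 (t / M)‖ / Th N else 0) else 0) := by
        refine sum_le_sum fun d hd => ?_
        obtain ⟨hd1, hd2⟩ := mem_filter.1 hd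
        obtain ⟨d0, -, -, d3, d4, d5⟩ := mem_Dset hM hd1
        obtain ⟨b1, b2⟩ := bin_mul hM hq hd1 h1 h2
        have := X.ptB hF (Nat.mul_pos hq d0) d4 d5 hd2 b1 b2
        refine (div_le_div_of_nonneg_right this (Nat.cast_nonneg _)).trans (le_of_eq ?_)
        rw [add_div]
        congr 1
        by_cases e1 : d = 1
        · subst e1; simp
        · rw [if_neg e1, if_neg (fun e => e1 (Nat.eq_one_of_mul_eq_one_left e)), zero_div]
    _ ≤ _ := by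
        rw [sum_add_distrib, sum_ite_eq']
        unfold tB
        split_ifs at * <;> linarith

end Ctx

end Cfsg.Agent.Depth.N
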