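import Cfsg.Agent.Depth.N.Ar
import Cfsg.Agent.Depth.N.Bin
import Cfsg.Agent.Depth.D.Noi
import Cfsg.Agent.Depth.S.GH2

/-!
# Depth (S5768): the range of `log N`, sieve constants, the inequality of a cell
-/

set_option autoImplicit false

namespace Cfsg.Agent.Depth.N

open Finset Cfsg.Agent.Depth.D

theorem qle {a b : ℚ} (h : a ≤ b) : (a : ℝ) ≤ b := Rat.cast_le.2 h

theorem qlt {a b : ℚ} (h : a < b) : (a : ℝ) < b := Rat.cast_lt.2 h

/-- the content of `chk0` -/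
structure Par (r : Rg) : Prop where
  la : 55.26 ≤ r.la
  lo : 0.94 ≤ r.lo
  TA : 1 ≤ r.TA
  TB : 0 < r.TB
  ρ1 : 1 ≤ r.ρ
  ρ2 : r.ρ ^ 88 ≤ 2
  C : 1 ≤ r.C
  P0 : 0 ≤ r.P0
  η1 : 0.0033 ≤ r.η
  η2 : r.η ≤ 1
  κ : 0.3 ≤ r.κ
  γ1 : 0 ≤ r.γ
  γ2 : r.γ ≤ 1
  i1 : 101 ≤ r.iP
  i2 : r.iP ≤ 190
  i3 : (34611200 * r.TA) ^ 4 ≤ 2 ^ r.iP
  i4 : (r.iP + 1) * l2 / 4 + 8.91 ≤ r.xa
  p1 : 0 < r.p2.1
  p2 : r.p2.1 ≤ r.p2.2
  pp : ∀ p ∈ SP, 0 ≤ (ppv r p).1 ∧ (ppv r p).1 ≤ (ppv r p).2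
  En : (r.inf = false ∧ 0.2736 * r.lb - 0.24 ≤ r.En) ∨ 61 ≤ r.En ∨ (r.inf = false ∧ r.lb ≤ 10 ^ 6 ∧ 56 ≤ r.En)
  fin : 2.052 * r.κ + 0.0001 + r.η * r.En < 0.84 * (1 + r.γ)

theorem par_of {r : Rg} (h : chk0 r = true) : Par r := by
  simp only [chk0, Bool.and_eq_true, Bool.or_eq_true, decide_eq_true_eq, List.all_eq_true, Bool.not_eq_true',
    and_assoc, or_assoc] at h
  obtain ⟨h1, h2, h3, h4, h5, h6, h7, h8, h9, h10, h11, h12, h13, h14, h15, h16, h17, h18, h19, h20, h21, h22⟩ := h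
  exact ⟨h1, h2, h3, h4, h5, h6, h7, h8, h9, h10, h11, h12, h13, h14, h15, h16, h17, h18, h19, h20, h21, h22⟩

/-- the standing hypotheses -/
structure Ctx (r : Rg) (N c1 : ℕ) (lam : ℕ → ℕ → ℝ) : Prop where
  hN : 10 ^ 24 ≤ N
  hc : c1 = 59 ∨ c1 = 47
  hL : LAll c1 lam
  par : Par r
  ha : (r.la : ℝ) ≤ Real.log N
  hb : r.inf = false → Real.log N ≤ r.lb
  hTh : (r.lo : ℝ) * BB N / 16 ≤ Th N

/-- sieve level `√(B / exp lc)` -/
noncomputable def lev (N : ℕ) (lc : ℝ) : ℝ := Real.exp (1 / 2 * Real.log (BB N) - lc / 2)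

/-- the constant `κ` of the arc inequality -/
noncomputable def kap (r : Rg) (N : ℕ) : ℝ := r.κ / (4 / 15 * (Real.log (RR N) + 2.2))

theorem RR_ge {N : ℕ} (h : 10 ^ 24 ≤ N) : 7 * 10 ^ 10 ≤ RR N := by
  unfold RR
  rw [Nat.le_sqrt]
  omega

theorem RR_ge' {N : ℕ} (h : 10 ^ 24 ≤ N) : (7 * 10 ^ 10 : ℝ) ≤ RR N := by exact_mod_cast RR_ge h

theorem RR_sq' (N : ℕ) : 192 * (RR N : ℝ) ^ 2 ≤ N := by exact_mod_cast RR_sq N

theorem le_RR_sq {N : ℕ} (h : 10 ^ 24 ≤ N) : (N : ℝ) ≤ 192.0001 * (RR N : ℝ) ^ 2 := by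
  have h1 : N / 192 < (RR N + 1) ^ 2 := by
    have := Nat.lt_succ_sqrt' (N / 192); exact this
  have h2 : N ≤ 192 * (RR N + 1) ^ 2 := by omega
  have h3 : (N : ℝ) ≤ 192 * (RR N + 1) ^ 2 := by exact_mod_cast h2
  have h4 := RR_ge' h
  nlinarith

theorem c0_cases (y : ℚ) : (((c0 y : ℚ) : ℝ) = 2.2 ∧ (6.908 : ℝ) ≤ y) ∨ ((c0 y : ℚ) : ℝ) = 1.8 := by
  unfold c0
  split_ifs with h
  · left; exact ⟨by norm_num, by have := qle h; push_cast at this; exact this⟩
  · right; norm_num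

theorem Gs_ge {R : ℝ} {y : ℚ} (hR : 0 < R) (hy : (0 : ℝ) ≤ y) (h : (y : ℝ) ≤ Real.log R) :
    1 ≤ Gs 60 R ∧ 4 / 15 * (Real.log R + c0 y) ≤ Gs 60 R := by
  have h1 : 1 ≤ R := by
    by_contra h2
    have := Real.log_neg hR (not_le.1 h2)
    linarith
  obtain ⟨g1, g2, g3⟩ := S.gh2 R h1
  refine ⟨g1, ?_⟩
  rcases c0_cases y with ⟨h2, h3⟩ | h2
  · rw [h2]
    refine g3 ?_
    have := log_1000_le
    exact (Real.log_le_log_iff (by norm_num) hR).1 (by linarith)
  · rw [h2]; exact g2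

namespace Ctx

variable {r : Rg} {N c1 : ℕ} {lam : ℕ → ℕ → ℝ} (X : Ctx r N c1 lam)
include X

theorem h23 : 10 ^ 23 ≤ N := le_trans (by norm_num) X.hN

theorem N_pos : (0 : ℝ) < N := by have := X.hN; exact_mod_cast (by omega : 0 < N)

theorem B_pos : 0 < BB N := BB_pos X.h23

theorem B_ge : 169000000000000 ≤ BB N := by
  have h : ((10 ^ 24 : ℕ) : ℝ) ≤ N := by exact_mod_cast X.hN
  unfold BB
  rw [le_div_iff₀ (by norm_num)]
  norm_num at h ⊢; linarith

theorem c1_lt : c1 < 60 := by rcases X.hc with h | h <;> omega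

theorem c1_odd : c1 % 2 = 1 := by rcases X.hc with h | h <;> omega

theorem lo_ge : (0.94 : ℝ) ≤ r.lo := by have := qle X.par.lo; push_cast at this; exact this

theorem lo_pos : (0 : ℝ) < r.lo := by linarith [X.lo_ge]

theorem Th_pos : 0 < Th N := lt_of_lt_of_le (by have := X.lo_pos; have := X.B_pos; positivity) X.hTh

theorem logB_eq : Real.log (BB N) = Real.log N - Real.log 5910000000 := by
  unfold BB; rw [Real.log_div X.N_pos.ne' (by norm_num)]

theorem xa_le : (r.xa : ℝ) ≤ Real.log (BB N) := by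
  have := X.ha; have := log_B_le
  rw [X.logB_eq]; unfold Rg.xa; push_cast; norm_num at *; linarith

theorem xa_ge : (32.76 : ℝ) ≤ r.xa := by
  have h : ((55.26 : ℚ) : ℝ) ≤ r.la := by exact_mod_cast X.par.la
  unfold Rg.xa; push_cast at *; norm_num at *; linarith

theorem le_xb (h : r.inf = false) : Real.log (BB N) ≤ r.xb := by
  have := X.hb h; have := le_log_B
  rw [X.logB_eq]; unfold Rg.xb; push_cast; norm_num at *; linarith

theorem R_pos : (0 : ℝ) < RR N := by linarith [RR_ge' X.hN]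

theorem logR_le' : 2 * Real.log (RR N) ≤ Real.log N - 5.2574 := by
  have h := Real.log_le_log (by have := X.R_pos; positivity) (RR_sq' N)
  rw [Real.log_mul (by norm_num) (by have := X.R_pos; positivity), Real.log_pow] at h
  have := le_log_192
  push_cast at h; linarith

theorem le_logR' : Real.log N - 5.2576 ≤ 2 * Real.log (RR N) := by
  have h := Real.log_le_log X.N_pos (le_RR_sq X.hN)
  rw [Real.log_mul (by norm_num) (by have := X.R_pos; positivity), Real.log_pow,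
    show (192.0001 : ℝ) = 192 * (192.0001 / 192) by norm_num, Real.log_mul (by norm_num) (by norm_num)] at h
  have h1 := log_192_le
  have h2 := Real.log_le_sub_one_of_pos (show (0 : ℝ) < 192.0001 / 192 by norm_num)
  push_cast at h; norm_num at *; linarith

theorem La_le : (r.La : ℝ) ≤ Real.log (RR N) := by
  have := X.ha; have := X.le_logR'
  unfold Rg.La; push_cast; norm_num at *; linarith

theorem La_ge : (25 : ℝ) ≤ r.La := by
  have h : ((55.26 : ℚ) : ℝ) ≤ r.la := by exact_mod_cast X.par.la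
  unfold Rg.La; push_cast at *; norm_num at *; linarith

theorem le_Lb (h : r.inf = false) : Real.log (RR N) ≤ r.Lb := by
  have := X.hb h; have := X.logR_le'
  unfold Rg.Lb; push_cast; norm_num at *; linarith

theorem logR_le : Real.log (RR N) ≤ Real.log (BB N) / 2 + 8.6213 := by
  have := X.logR_le'; have := log_B_le
  rw [X.logB_eq]; norm_num at *; linarith

theorem kap_pos : 0 < kap r N := by
  have h : ((0.3 : ℚ) : ℝ) ≤ r.κ := by exact_mod_cast X.par.κ
  have := X.La_le; have := X.La_ge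
  unfold kap
  push_cast at h
  exact div_pos (by linarith) (by linarith)

theorem log_two_B : Real.log (2 * BB N) ≤ Real.log (BB N) + (l2 : ℚ) := by
  rw [Real.log_mul (by norm_num) X.B_pos.ne']; linarith [log_two_le]

/-- the constant branch -/
theorem cc_le_one {T R : ℝ} (hT : 0 < T) (hG : 1 ≤ Gs 60 R) (h : r.inf = false) :
    cc N r.lo T R ≤ (1 + 1.2 / T + 0.000001) / r.lo * (4 / 15 * (r.xb + (l2 : ℚ))) := by
  have h1 := X.log_two_B; have h2 := X.le_xb h; have h3 := X.lo_pos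
  have h4 := log_two_BB_pos X.h23
  unfold cc
  have hK : 0 < 1 + 1.2 / T + 0.000001 := by positivity
  rw [div_le_iff₀ (by positivity)]
  have h5 : (1 + 1.2 / T + 0.000001) / r.lo * (4 / 15 * (r.xb + (l2 : ℚ))) * (r.lo * Gs 60 R) =
      (1 + 1.2 / T + 0.000001) * (4 / 15) * ((r.xb + (l2 : ℚ)) * Gs 60 R) := by field_simp
  rw [h5]
  refine mul_le_mul_of_nonneg_left ?_ (by positivity)
  nlinarith

theorem ccG_spec {T s t : ℚ} (hT : 0 < T) (hs : 0 ≤ s) (ht : 2.2 ≤ t) (hy : 0 ≤ s * r.xa - t) :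
    cc N r.lo T (Real.exp (s * Real.log (BB N) - t)) ≤ ccG r T s t := by
  refine le_trans ?_ (le_up' _)
  have hT' : (0 : ℝ) < T := by exact_mod_cast hT
  have hs' : (0 : ℝ) ≤ s := by exact_mod_cast hs
  have ht' : (2.2 : ℝ) ≤ t := by have := qle ht; push_cast at this; exact this
  have hy' : (0 : ℝ) ≤ ((s * r.xa - t : ℚ) : ℝ) := by exact_mod_cast hy
  have hx := X.xa_le
  have hsx := mul_le_mul_of_nonneg_left hx hs'
  obtain ⟨g1, g2⟩ := Gs_ge (Real.exp_pos (s * Real.log (BB N) - t)) hy' (by rw [Real.log_exp]; push_cast; linarith)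
  rw [Real.log_exp] at g2
  have hc : (1.8 : ℝ) ≤ c0 (s * r.xa - t) ∧ (c0 (s * r.xa - t) : ℝ) ≤ 2.2 := by
    rcases c0_cases (s * r.xa - t) with ⟨h, _⟩ | h <;> rw [h] <;> norm_num
  have hK : 0 < 1 + 1.2 / (T : ℝ) + 0.000001 := by positivity
  have hl := X.lo_pos
  have h1 : cc N r.lo T (Real.exp (s * Real.log (BB N) - t)) ≤
      (1 + 1.2 / T + 0.000001) / r.lo * ((r.xa + (l2 : ℚ)) / (s * r.xa - t + c0 (s * r.xa - t))) := by
    push_cast at hy'
    set c : ℝ := ((c0 (s * r.xa - t) : ℚ) : ℝ)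
    set G := Gs 60 (Real.exp (s * Real.log (BB N) - t))
    set x := Real.log (BB N)
    have hd : 0 < s * r.xa - t + c := by linarith
    have h2 := X.log_two_B
    have h3 : (x + (l2 : ℚ)) * (s * r.xa - t + c) ≤ (r.xa + (l2 : ℚ)) * (s * x - t + c) := by
      have := mul_nonneg (sub_nonneg.2 hx) (show 0 ≤ t - c + s * (l2 : ℚ) by
        have := mul_nonneg hs' l2_pos.le; linarith)
      nlinarith
    have h4 : 0 ≤ r.xa + ((l2 : ℚ) : ℝ) := by linarith [X.xa_ge, l2_pos]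
    have h5 : 4 / 15 * Real.log (2 * BB N) / G ≤ (r.xa + (l2 : ℚ)) / (s * r.xa - t + c) := by
      rw [div_le_div_iff₀ (by linarith) hd]
      have h6 := mul_le_mul_of_nonneg_left g2 h4
      have h7 := mul_le_mul_of_nonneg_right h2 hd.le
      nlinarith
    calc cc N r.lo T (Real.exp (s * x - t)) = (1 + 1.2 / T + 0.000001) / r.lo * (4 / 15 * Real.log (2 * BB N) / G) := by
          unfold cc; change _ / (r.lo * G) = _; ring
      _ ≤ _ := mul_le_mul_of_nonneg_left h5 (by positivity)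
  cases hi : r.inf
  · have h2 := X.cc_le_one hT' g1 hi
    simp only [Bool.false_eq_true, if_false]
    push_cast
    rw [mul_min_of_nonneg _ _ (by positivity)]
    exact le_min h1 h2
  · simp only [if_true]
    push_cast
    exact h1

theorem ccH_spec {T lc : ℚ} (hT : 0 < T) (h1 : 4.4 ≤ lc) (h2 : lc ≤ r.xa) :
    cc N r.lo T (lev N lc) ≤ ccH r T lc := by
  have := X.ccG_spec (s := 1 / 2) (t := lc / 2) hT (by norm_num) (by linarith) (by linarith)
  push_cast at this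
  exact this

theorem one_le_lev {lc : ℝ} (h : lc ≤ r.xa) : 1 ≤ lev N lc :=
  Real.one_le_exp (by linarith [X.xa_le])

theorem lev_sq (lc : ℝ) : lev N lc ^ 2 = BB N / Real.exp lc := by
  unfold lev
  rw [← Real.exp_nat_mul, eq_div_iff (Real.exp_pos _).ne', ← Real.exp_add]
  conv_rhs => rw [← Real.exp_log X.B_pos]
  congr 1; push_cast; ring

/-- the sieve condition -/
theorem mul_lev_sq {A lc : ℝ} (hA : 0 < A) (h : Real.log A ≤ lc) : A * lev N lc ^ 2 ≤ BB N := by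
  rw [X.lev_sq, ← mul_div_assoc, div_le_iff₀ (Real.exp_pos _), mul_comm]
  exact mul_le_mul_of_nonneg_left ((Real.log_le_iff_le_exp hA).1 h) X.B_pos.le

theorem okc_spec {Mf rest F u : ℚ} (h : okc r Mf rest F u = true) {S Mt rs f G y : ℝ} (hS : S ≤ Mt + rs)
    (h1 : Mt ≤ Mf) (h2 : f * Mt ≤ Mf) (h3 : rs ≤ rest) (h4 : (0 : ℝ) ≤ rest) (h5 : 1 ≤ f) (h6 : f ≤ F) (h7 : 1 ≤ G)
    (h8 : Gs 60 (RR N / y) / f ≤ G) (h9 : 1 ≤ y) (h10 : Real.log y ≤ u) : S ≤ kap r N * G := by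
  have hκ : ((0.3 : ℚ) : ℝ) ≤ r.κ := by exact_mod_cast X.par.κ
  push_cast at hκ
  have hL := X.La_le; have hL' := X.La_ge
  have hk := X.kap_pos
  simp only [okc, Bool.and_eq_true, Bool.or_eq_true, decide_eq_true_eq, Bool.not_eq_true'] at h
  rcases h with ⟨ha, hb⟩ | ⟨ha, hb⟩
  · have ha' : (0 : ℝ) ≤ ((r.La - u : ℚ) : ℝ) := by exact_mod_cast ha
    have hb' : (Mf : ℝ) + F * rest ≤ r.κ * ((r.La - u + c0 (r.La - u)) / (r.La + 2.2)) := by
      have := qle hb; push_cast at this; exact this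
    have hlog : Real.log (RR N / y) = Real.log (RR N) - Real.log y := Real.log_div X.R_pos.ne' (by linarith)
    obtain ⟨-, g2⟩ := Gs_ge (div_pos X.R_pos (by linarith : 0 < y)) ha' (by rw [hlog]; push_cast; linarith)
    rw [hlog] at g2
    have hc : (c0 (r.La - u) : ℝ) ≤ 2.2 := by
      rcases c0_cases (r.La - u) with ⟨h, _⟩ | h <;> rw [h] <;> norm_num
    have hu := Real.log_nonneg h9
    set c : ℝ := ((c0 (r.La - u) : ℚ) : ℝ)
    set L := Real.log (RR N)
    have e1 : (r.La - u + c) / (r.La + 2.2) ≤ (L - u + c) / (L + 2.2) := by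
      rw [div_le_div_iff₀ (by linarith) (by linarith)]
      nlinarith [mul_nonneg (sub_nonneg.2 hL) (show 0 ≤ 2.2 + u - c by linarith)]
    have e2 : Gs 60 (RR N / y) ≤ G * f := (div_le_iff₀ (by linarith)).1 h8
    have e3 : (L - u + c) / (L + 2.2) ≤ G * f / (4 / 15 * (L + 2.2)) := by
      rw [div_le_div_iff₀ (by linarith) (by linarith)]
      have : 4 / 15 * (L - u + c) ≤ G * f := by linarith
      nlinarith
    have e4 : f * S ≤ f * (kap r N * G) := by
      have e5 : f * rs ≤ F * rest :=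
        (mul_le_mul_of_nonneg_left h3 (by linarith)).trans (mul_le_mul_of_nonneg_right h6 h4)
      have e6 := mul_le_mul_of_nonneg_left hS (show 0 ≤ f by linarith)
      have e7 := mul_le_mul_of_nonneg_left (e1.trans e3) (show (0 : ℝ) ≤ r.κ by linarith)
      have e8 : r.κ * (G * f / (4 / 15 * (L + 2.2))) = f * (kap r N * G) := by unfold kap; ring
      linarith
    exact le_of_mul_le_mul_left e4 (by linarith)
  · have hb' : (Mf : ℝ) + rest ≤ r.κ * (15 / (4 * (r.Lb + 2.2))) := by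
      have := qle hb; push_cast at this; exact this
    have e1 := X.le_Lb ha
    have e2 : r.κ * (15 / (4 * (r.Lb + 2.2))) ≤ kap r N := by
      unfold kap
      rw [div_eq_mul_inv (r.κ : ℝ)]
      refine mul_le_mul_of_nonneg_left ?_ (by linarith)
      rw [inv_eq_one_div, div_le_div_iff₀ (by linarith) (by linarith)]
      linarith
    nlinarith

end Ctx

end Cfsg.Agent.Depth.N
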