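import Cfsg.Agent.Depth.N.Defs

/-!
# Depth (S5768): local factors of the multiplicative sums (helper23)
-/

set_option autoImplicit false

namespace Cfsg.Agent.Depth.N.Mu

open Finset Cfsg.Agent.Depth.N
open scoped Classical

theorem seven_le {k p : ℕ} (hk : k.Coprime 30) (hp : p.Prime) (h : p ∣ k) : 7 ≤ p := by
  have h1 : p.Coprime 30 := Nat.Coprime.coprime_dvd_left h hk
  have h2 := hp.two_le
  by_contra h3
  have h4 : p < 7 := not_le.1 h3
  interval_cases p <;> first | exact absurd h1 (by decide) | exact absurd hp (by decide)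

theorem cQ_bounds {p : ℕ} (hp : p.Prime) (h7 : 7 ≤ p) :
    0 ≤ (cQ p : ℝ) ∧ (cQ p : ℝ) ≤ 1 ∧ (cQ p : ℝ) * p ≤ 2.37 := by
  unfold cQ
  split_ifs with h1 h2
  · subst h1; norm_num
  · subst h2; norm_num
  · have h13 : 13 ≤ p := by
      by_contra h3
      have h4 : p < 13 := not_le.1 h3
      interval_cases p <;> first | exact absurd rfl h1 | exact absurd rfl h2 | exact absurd hp (by decide)
    have h5 : (13 : ℝ) ≤ p := by exact_mod_cast h13
    have h6 : (0 : ℝ) < p - 2 := by linarith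
    push_cast
    refine ⟨by positivity, ?_, ?_⟩
    · rw [div_le_one h6]; linarith
    · rw [div_mul_eq_mul_div, div_le_iff₀ h6]; linarith

theorem uR_eq (ρ : ℚ) (p : ℕ) : uR ρ p = (ρ : ℝ) ^ ((p ^ 8).log2 + 1) := by
  simp [uR, uQ]

theorem one_le_uR {ρ : ℚ} (h1 : 1 ≤ ρ) (p : ℕ) : 1 ≤ uR ρ p := by
  rw [uR_eq]
  exact one_le_pow₀ (by exact_mod_cast h1)

theorem uR_sq {ρ : ℚ} (h1 : 1 ≤ ρ) (h2 : ρ ^ 88 ≤ 2) {p : ℕ} (h7 : 7 ≤ p) : uR ρ p ^ 2 ≤ (p : ℝ) / 4 := by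
  have hp : (7 : ℝ) ≤ p := by exact_mod_cast h7
  have h0 : (0 : ℝ) ≤ ρ := by exact_mod_cast zero_le_one.trans h1
  have h2' : (ρ : ℝ) ^ 88 ≤ 2 := by exact_mod_cast h2
  refine le_of_pow_le_pow_left₀ (n := 44) (by norm_num) (by positivity) ?_
  have h3 : (uR ρ p ^ 2) ^ 44 = ((ρ : ℝ) ^ 88) ^ ((p ^ 8).log2 + 1) := by
    rw [uR_eq, ← pow_mul, ← pow_mul, ← pow_mul]; congr 1; ring
  have h4 : (2 : ℝ) ^ (p ^ 8).log2 ≤ (p : ℝ) ^ 8 := by
    exact_mod_cast Nat.log2_self_le (n := p ^ 8) (by positivity)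
  have h5 : (7 : ℝ) ^ 36 ≤ (p : ℝ) ^ 36 := pow_le_pow_left₀ (by norm_num) hp _
  have h6 : (0 : ℝ) < (p : ℝ) ^ 8 := by positivity
  calc (uR ρ p ^ 2) ^ 44 ≤ 2 ^ ((p ^ 8).log2 + 1) := h3 ▸ pow_le_pow_left₀ (by positivity) h2' _
    _ ≤ (p : ℝ) ^ 8 * 2 := by rw [pow_succ]; linarith
    _ ≤ (p : ℝ) ^ 8 * ((p : ℝ) ^ 36 / 4 ^ 44) := by
      refine mul_le_mul_of_nonneg_left ?_ h6.le
      rw [le_div_iff₀ (by positivity)]
      refine le_trans ?_ h5
      norm_num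
    _ = ((p : ℝ) / 4) ^ 44 := by rw [div_pow]; ring

/-- the local factor of `xM` at `p ^ v` -/
noncomputable def xl (ρ : ℚ) (p v : ℕ) : ℝ :=
  (cQ p : ℝ) * (uR ρ p ^ (v - 1) / (p ^ (v - 1)).totient) + (1 - (cQ p : ℝ)) * (uR ρ p ^ v / (p ^ v).totient)

theorem xM_eq (ρ : ℚ) (k : ℕ) : xM (uR ρ) k = ∏ p ∈ k.primeFactors, xl ρ p (k.factorization p) := rfl

theorem tot_pow {p : ℕ} (hp : p.Prime) (w : ℕ) : ((p ^ (w + 1)).totient : ℝ) = (p : ℝ) ^ w * (p - 1) := by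
  rw [Nat.totient_prime_pow_succ hp]
  push_cast [Nat.cast_sub hp.one_le]
  ring

theorem xl_one (ρ : ℚ) {p : ℕ} (hp : p.Prime) : xl ρ p 1 = (xQ ρ p : ℝ) := by
  have := tot_pow hp 0
  simp only [zero_add, pow_one, pow_zero, one_mul] at this
  simp [xl, xQ, uR, this]

theorem xl_two (ρ : ℚ) {p : ℕ} (hp : p.Prime) : xl ρ p 2 = (x2Q ρ p : ℝ) := by
  have h1 := tot_pow hp 0
  have h2 := tot_pow hp 1
  simp only [zero_add, pow_one, pow_zero, one_mul] at h1 h2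
  simp [xl, x2Q, uR, h1, h2]

theorem xl_nonneg {ρ : ℚ} (h1 : 1 ≤ ρ) {p : ℕ} (hp : p.Prime) (h7 : 7 ≤ p) (v : ℕ) : 0 ≤ xl ρ p v := by
  obtain ⟨c0, c1, -⟩ := cQ_bounds hp h7
  have hu : 0 ≤ uR ρ p := zero_le_one.trans (one_le_uR h1 p)
  have : 0 ≤ 1 - (cQ p : ℝ) := by linarith
  unfold xl
  positivity

theorem xQ_eq (ρ : ℚ) (p : ℕ) : (xQ ρ p : ℝ) = cQ p + (1 - cQ p) * (uR ρ p / (p - 1)) := by
  simp [xQ, uR]

theorem cQ_le_xQ {ρ : ℚ} (h1 : 1 ≤ ρ) {p : ℕ} (hp : p.Prime) (h7 : 7 ≤ p) : (cQ p : ℝ) ≤ xQ ρ p := by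
  obtain ⟨c0, c1, -⟩ := cQ_bounds hp h7
  have hu : 0 ≤ uR ρ p := zero_le_one.trans (one_le_uR h1 p)
  have h2 : 0 ≤ 1 - (cQ p : ℝ) := by linarith
  have hp7 : (7 : ℝ) ≤ p := by exact_mod_cast h7
  have h3 : (0 : ℝ) < p - 1 := by linarith
  rw [xQ_eq]
  exact le_add_of_nonneg_right (by positivity)

/-- the local factor of `(ff k * xM k)² k` is at most one, unless `v = 1` and `p ≤ 23` -/
theorem loc_le {ρ : ℚ} (h1 : 1 ≤ ρ) (h2 : ρ ^ 88 ≤ 2) {p : ℕ} (hp : p.Prime) (h7 : 7 ≤ p) {v : ℕ} (hv : 0 < v)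
    (h : v = 1 → 29 ≤ p) : ((p : ℝ) / (p - 1) * xl ρ p v) ^ 2 * (p : ℝ) ^ v ≤ 1 := by
  obtain ⟨c0, c1, c2⟩ := cQ_bounds hp h7
  have hu : 0 ≤ uR ρ p := zero_le_one.trans (one_le_uR h1 p)
  have hp7 : (7 : ℝ) ≤ p := by exact_mod_cast h7
  have h3 : (0 : ℝ) < p - 1 := by linarith
  obtain ⟨s, hs0, hs⟩ : ∃ s : ℝ, 0 < s ∧ s ^ 2 = p := ⟨√p, by positivity, Real.sq_sqrt (by positivity)⟩
  have hus : uR ρ p ≤ s / 2 := by
    refine le_of_pow_le_pow_left₀ (n := 2) (by norm_num) (by positivity) ?_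
    have := uR_sq h1 h2 h7
    rw [div_pow, hs]; linarith
  have hx := xl_nonneg h1 hp h7 v
  have key : (p : ℝ) / (p - 1) * xl ρ p v * s ^ v ≤ 1 := by
    obtain ⟨w, rfl⟩ : ∃ w, v = w + 1 := ⟨v - 1, by omega⟩
    rcases w with _ | w
    · have h29 : 29 ≤ p := h rfl
      have hp29 : (29 : ℝ) ≤ p := by exact_mod_cast h29
      have hs5 : 5.2 ≤ s := by
        refine le_of_pow_le_pow_left₀ (n := 2) (by norm_num) hs0.le ?_
        rw [hs]; linarith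
      have h4 : (0 : ℝ) < p - 2 := by linarith
      have hc : (cQ p : ℝ) = 2 / (p - 2) := by
        rw [cQ, if_neg (by omega), if_neg (by omega)]; push_cast; rfl
      have h5 : xl ρ p (0 + 1) ≤ (2 + s / 2) / (p - 2) := by
        rw [zero_add, xl_one ρ hp, xQ_eq, add_div, ← hc]
        refine add_le_add_right ?_ _
        calc (1 - (cQ p : ℝ)) * (uR ρ p / (p - 1)) ≤ (p - 1) / (p - 2) * (s / 2 / (p - 1)) := by
              refine mul_le_mul ?_ (div_le_div_of_nonneg_right hus h3.le) (by positivity) (by positivity)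
              rw [le_div_iff₀ h4]; nlinarith
          _ = s / 2 / (p - 2) := by field_simp
      calc (p : ℝ) / (p - 1) * xl ρ p (0 + 1) * s ^ (0 + 1) ≤ p / (p - 1) * ((2 + s / 2) / (p - 2)) * s ^ (0 + 1) := by
            gcongr
        _ = p * (2 * s + s ^ 2 / 2) / ((p - 1) * (p - 2)) := by field_simp; ring
        _ ≤ 1 := by
            rw [div_le_one (by positivity), hs]
            have h6 : 2 * s + 3 ≤ p / 2 := by rw [← hs]; nlinarith
            nlinarith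
    · have hs2 : 2.64 ≤ s := by
        refine le_of_pow_le_pow_left₀ (n := 2) (by norm_num) hs0.le ?_
        rw [hs]; linarith
      have h5 : (p : ℝ) / (p - 1) * xl ρ p (w + 1 + 1) * s ^ (w + 1 + 1) =
          (uR ρ p / s) ^ w * (p * (cQ p * p * uR ρ p + (1 - cQ p) * uR ρ p ^ 2) / (p - 1) ^ 2) := by
        rw [xl, Nat.add_sub_cancel, tot_pow hp, tot_pow hp, div_pow]
        rw [← hs] at h3 ⊢
        have := h3.ne'
        field_simp
        ring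
      have h6 : (uR ρ p / s) ^ w ≤ 1 := pow_le_one₀ (by positivity) (by rw [div_le_one hs0]; linarith)
      have h7' : cQ p * p * uR ρ p + (1 - cQ p) * uR ρ p ^ 2 ≤ 2.37 * (s / 2) + p / 4 := by
        have h8 := uR_sq h1 h2 h7
        refine add_le_add (mul_le_mul c2 hus hu (by norm_num)) ?_
        exact (mul_le_of_le_one_left (by positivity) (by linarith)).trans h8
      have h9 : 0 ≤ 1 - (cQ p : ℝ) := by linarith
      rw [h5]
      refine (mul_le_of_le_one_left (by positivity) h6).trans ?_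
      rw [div_le_one (by positivity)]
      have h10 : 2.37 * (s / 2) + p / 4 ≤ p - 2 := by rw [← hs]; nlinarith
      nlinarith
  calc ((p : ℝ) / (p - 1) * xl ρ p v) ^ 2 * (p : ℝ) ^ v = ((p : ℝ) / (p - 1) * xl ρ p v * s ^ v) ^ 2 := by
        rw [← hs]; ring
    _ ≤ 1 := pow_le_one₀ (by positivity) key

theorem growth {ρ : ℚ} (h1 : 1 ≤ ρ) {e : ℕ} (he : 0 < e) :
    (ρ : ℝ) ^ (e ^ 8).log2 ≤ ∏ p ∈ e.primeFactors, uR ρ p ^ e.factorization p := by
  have h2 : ∏ p ∈ e.primeFactors, uR ρ p ^ e.factorization p =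
      (ρ : ℝ) ^ ∑ p ∈ e.primeFactors, ((p ^ 8).log2 + 1) * e.factorization p := by
    rw [← prod_pow_eq_pow_sum]
    exact prod_congr rfl fun p _ => by rw [uR_eq, pow_mul]
  rw [h2]
  refine pow_le_pow_right₀ (by exact_mod_cast h1) ?_
  refine (Nat.pow_le_pow_iff_right (a := 2) (by norm_num)).1 ((Nat.log2_self_le (by positivity)).trans ?_)
  rw [← prod_pow_eq_pow_sum]
  conv_lhs => rw [← Nat.factorization_prod_pow_eq_self he.ne', Finsupp.prod, Nat.support_factorization, ← prod_pow]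
  refine prod_le_prod' fun p _ => ?_
  rw [← pow_mul, mul_comm, pow_mul, pow_mul]
  exact Nat.pow_le_pow_left Nat.lt_log2_self.le _

end Cfsg.Agent.Depth.N.Mu
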