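import Cfsg.Agent.Depth.N.Arc

/-!
# Depth (S5768): the numerical part on one range
-/

set_option autoImplicit false

namespace Cfsg.Agent.Depth.N

open Finset Cfsg.Agent.Depth.D
open scoped Classical

/-- the conclusion of `BoxNum` -/
def NumAt (N c1 : ℕ) (lam : ℕ → ℕ → ℝ) : Prop :=
  0.94 * BB N / 16 ≤ Th N ∧ ∃ η κ γ : ℝ, 0.0033 ≤ η ∧ η ≤ 1 ∧ 0 ≤ κ ∧ 0 ≤ γ ∧ γ ≤ 1 ∧
    (∀ (q : ℕ) (β : ℝ), 1 ≤ q → q ≤ RR N → 1 ≤ 2 * q * RR N * |β| → q * RR N * |β| ≤ 1 →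
      Dact N c1 lam η q β = 0) ∧
    (∀ (M q : ℕ) (t : ℤ), 0 < M → Arc M (RR N) q t →
      ∑ d ∈ Dset M (RR N) q t, Dact N c1 lam η (q * d) (t / M) / d.totient +
        (if q = 1 then γ * (‖nuH N c1 (t / M)‖ / Th N) else 0) ≤
        κ * ∑ d ∈ Dset M (RR N) q t, (1 : ℝ) / d.totient) ∧
    (κ + 38 / Real.sqrt N) * (0.2736 * Real.log N - 0.24) +
      η * min (0.2736 * Real.log N - 0.24)
        (if Real.log N < 190 then 52 else if Real.log N ≤ 10 ^ 6 then 56 else 61) < 0.84 * (1 + γ)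

namespace Ctx

variable {r : Rg} {N c1 : ℕ} {lam : ℕ → ℕ → ℝ} (X : Ctx r N c1 lam)
include X

theorem kap_E : kap r N * (0.2736 * Real.log N - 0.24) ≤ 2.052 * r.κ := by
  have hκ := qle X.par.κ
  have h1 := X.le_logR'; have h2 := X.La_le; have h3 := X.La_ge
  push_cast at hκ
  unfold kap
  rw [div_mul_eq_mul_div, div_le_iff₀ (by linarith)]
  have h4 : 0.2736 * Real.log N - 0.24 ≤ 2.052 * (4 / 15 * (Real.log (RR N) + 2.2)) := by linarith
  nlinarith

theorem small_E : 38 / Real.sqrt N * (0.2736 * Real.log N - 0.24) ≤ 0.0001 := by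
  have h0 := X.N_pos
  have h1 : Real.log N ≤ 4 * √(√N) := by
    have h8 := Real.log_le_sub_one_of_pos (Real.sqrt_pos.2 (Real.sqrt_pos.2 h0))
    rw [Real.log_sqrt (Real.sqrt_nonneg _), Real.log_sqrt h0.le] at h8
    linarith
  have h : ((10 ^ 24 : ℕ) : ℝ) ≤ N := by exact_mod_cast X.hN
  have h2 : (10 ^ 6 : ℝ) ≤ √(√N) := Real.le_sqrt_of_sq_le (Real.le_sqrt_of_sq_le (by push_cast at h; linarith))
  have h3 := Real.mul_self_sqrt (Real.sqrt_nonneg (N : ℝ))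
  rw [div_mul_eq_mul_div, div_le_iff₀ (Real.sqrt_pos.2 h0)]
  set s := √(√(N : ℝ))
  rw [← h3]
  nlinarith

theorem min_E : min (0.2736 * Real.log N - 0.24)
    (if Real.log N < 190 then 52 else if Real.log N ≤ 10 ^ 6 then 56 else 61) ≤ (r.En : ℝ) := by
  rcases X.par.En with ⟨h1, h2⟩ | h1 | ⟨h1, h2, h3⟩
  · have := qle h2; have := X.hb h1
    push_cast at *
    exact (min_le_left _ _).trans (by linarith)
  · have := qle h1
    push_cast at *
    refine (min_le_right _ _).trans ?_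
    split_ifs <;> linarith
  · have := qle h2; have := qle h3; have := X.hb h1
    push_cast at *
    refine (min_le_right _ _).trans ?_
    split_ifs <;> linarith

theorem numAt (A : All r N) : NumAt N c1 lam := by
  have h1 := qle X.par.η1; have h2 := qle X.par.η2; have h3 := qlt X.par.fin
  push_cast at h1 h2 h3
  refine ⟨le_trans ?_ X.hTh, r.η, kap r N, r.γ, h1, h2, X.kap_pos.le, X.γ_nonneg, X.γ_le,
    fun q β a b c d => X.plateau_off A.hP a b c d, fun M q t a b => X.arc A a b, ?_⟩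
  · have := X.lo_ge; have := X.B_pos
    gcongr
  · have h4 := mul_le_mul_of_nonneg_left X.min_E (show (0 : ℝ) ≤ r.η by linarith)
    have h5 := X.kap_E; have h6 := X.small_E
    linarith

end Ctx

/-- all checks of a range -/
def Chk (r : Rg) : Prop :=
  chk0 r = true ∧ chkP r = true ∧ chkC r = true ∧ chk1 r = true ∧ chk2 r = true ∧ chk3 r = true

/-- the primes in progressions needed for a range -/
def PIr (r : Rg) (x : ℝ) : Prop :=
  (∃ u : ℝ, PI 60 (Real.exp x) r.lo u) ∧ PI 120 (Real.exp x) r.p2.1 r.p2.2 ∧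
    ∀ p ∈ SP, PI (120 * p) (Real.exp x) (ppv r p).1 (ppv r p).2

theorem num_range {r : Rg} (h : Chk r) (hFor : BoxFor) (m1 : BoxM1) (m3 : BoxM3) (m4 : BoxM4) (m5 : BoxM5)
    (p0 : P0ok r.ρ r.P0) {x : ℝ} (hx : x ≤ r.xa) (hPI : PIr r x) {N c1 : ℕ} {lam : ℕ → ℕ → ℝ} (hN : 10 ^ 24 ≤ N)
    (hc : c1 = 59 ∨ c1 = 47) (hL : LAll c1 lam) (ha : (r.la : ℝ) ≤ Real.log N)
    (hb : r.inf = false → Real.log N ≤ r.lb) : NumAt N c1 lam := by
  have h23 : 10 ^ 23 ≤ N := le_trans (by norm_num) hN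
  have hB : Real.exp x ≤ BB N := by
    rw [← Real.le_log_iff_exp_le (BB_pos h23)]
    have hN0 : (0 : ℝ) < N := by exact_mod_cast (by omega : 0 < N)
    have := log_B_le
    unfold BB; rw [Real.log_div hN0.ne' (by norm_num)]
    unfold Rg.xa at hx; push_cast at hx; norm_num at *; linarith
  obtain ⟨⟨u, hu⟩, h2, h3⟩ := hPI
  have X : Ctx r N c1 lam := ⟨hN, hc, hL, par_of h.1, ha, hb, boxTh N _ _ _ h23 hu hB⟩
  exact X.numAt ⟨h.2.1, h.2.2.1, h.2.2.2.1, h.2.2.2.2.1, h.2.2.2.2.2, hFor, m1, m3, m4, m5, ⟨_, hB, h2, h3⟩, p0⟩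

end Cfsg.Agent.Depth.N
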