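import Cfsg.Agent.Depth.N.Defs

/-!
# Depth (S5768): the Euler product in the kernel (helper88)
-/

set_option autoImplicit false

namespace Cfsg.Agent.Depth.N

open Finset

namespace P0

/-- the numbers which survive the sieve by the primes up to `31` -/
def gd (n : ℕ) : Bool := Nat.ble 7 n && (Nat.ble n 31 && Nat.beq (n.gcd 30) 1 || Nat.beq (n.gcd 200560490130) 1)

/-- numerator of `cQ` -/
def ca (n : ℕ) : ℕ := bif Nat.beq n 7 then 2901 else bif Nat.beq n 11 then 1735 else 2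

/-- denominator of `cQ` -/
def cb (n : ℕ) : ℕ := bif Nat.beq n 7 then 10000 else bif Nat.beq n 11 then 10000 else n - 2

/-- the factor, in fixed point -/
def fac (a b n : ℕ) : ℕ :=
  bif gd n then 1000000000000 + (ca n * (n - 1) * 1000000000000 + (cb n - ca n) *
    (a ^ ((n ^ 8).log2 + 1) * 1000000000000 / b ^ ((n ^ 8).log2 + 1) + 1)) / (cb n * ((n - 1) * (n - 1))) + 1
  else 1000000000000

/-- the product of the factors on `[lo, lo + 2 ^ k)` -/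
def pr (a b k : ℕ) : ℕ → ℕ :=
  Nat.rec (fac a b) (fun k ih lo => ih lo * ih (lo + 2 ^ k) / 1000000000000 + 1) k

/-- bound for the tail -/
def tl (ρ : ℚ) : ℚ := 1001 / 1000 * (2 / 2 ^ 14 + (ρ ^ 8 / 2) ^ 15 / (1 - ρ ^ 8 / 2))

/-- the term -/
noncomputable def zz (ρ : ℚ) (n : ℕ) : ℝ := (xQ ρ n : ℝ) / (n - 1)

/-- the factor -/
noncomputable def FF (ρ : ℚ) (n : ℕ) : ℝ := if gd n then 1 + zz ρ n else 1

theorem gd_of {p : ℕ} (hp : p.Prime) (h7 : 7 ≤ p) : gd p = true := by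
  simp only [gd, Bool.and_eq_true, Bool.or_eq_true, Nat.ble_eq, Nat.beq_eq]
  refine ⟨h7, ?_⟩
  rcases le_or_gt p 31 with h | h
  · refine Or.inl ⟨h, hp.coprime_iff_not_dvd.2 fun h1 => ?_⟩
    have := hp.dvd_factorial.1 (h1.trans (by decide : 30 ∣ Nat.factorial 5))
    omega
  · refine Or.inr (hp.coprime_iff_not_dvd.2 fun h1 => ?_)
    have := hp.dvd_factorial.1 (h1.trans (by decide +kernel : 200560490130 ∣ Nat.factorial 31))
    omega

theorem seven_le {n : ℕ} (h : gd n = true) : 7 ≤ n := by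
  simp only [gd, Bool.and_eq_true, Nat.ble_eq] at h
  exact h.1

theorem cQ_eq {n : ℕ} (h : 7 ≤ n) : ((cQ n : ℚ) : ℝ) = ca n / cb n ∧ ca n ≤ cb n ∧ 0 < cb n := by
  unfold cQ ca cb
  by_cases h7 : n = 7
  · subst h7; norm_num
  by_cases h11 : n = 11
  · subst h11
    rw [show Nat.beq 11 7 = false from rfl]
    norm_num
  have e1 : Nat.beq n 7 = false := Bool.eq_false_iff.2 fun h => h7 (Nat.eq_of_beq_eq_true h)
  have e2 : Nat.beq n 11 = false := Bool.eq_false_iff.2 fun h => h11 (Nat.eq_of_beq_eq_true h)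
  rw [if_neg h7, if_neg h11, e1, e2]
  simp only [cond_false]
  refine ⟨?_, by omega, by omega⟩
  rw [Nat.cast_sub (by omega)]
  push_cast
  rfl

theorem le_div_succ (x y : ℕ) (hy : 0 < y) : (x : ℝ) / y ≤ ((x / y + 1 : ℕ) : ℝ) := by
  rw [div_le_iff₀ (by exact_mod_cast hy), mul_comm]
  exact_mod_cast (Nat.lt_mul_div_succ x hy).le

theorem zz_eq (ρ : ℚ) (n : ℕ) :
    zz ρ n = ((cQ n : ℝ) + (1 - cQ n) * ((ρ : ℝ) ^ ((n ^ 8).log2 + 1) / (n - 1))) / (n - 1) := by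
  unfold zz xQ uQ
  push_cast
  rfl

theorem zz_nonneg {ρ : ℚ} (hρ : 0 ≤ ρ) {n : ℕ} (h : 7 ≤ n) : 0 ≤ zz ρ n := by
  obtain ⟨h1, h2, h3⟩ := cQ_eq h
  have h4 : (0 : ℝ) ≤ n - 1 := by
    have : (7 : ℝ) ≤ n := by exact_mod_cast h
    linarith
  have h5 : (0 : ℝ) ≤ 1 - cQ n := by
    rw [h1, sub_nonneg]
    exact div_le_one_of_le₀ (by exact_mod_cast h2) (by positivity)
  have h6 : (0 : ℝ) ≤ cQ n := by rw [h1]; positivity
  have h7 : (0 : ℝ) ≤ ρ := by exact_mod_cast hρ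
  rw [zz_eq]
  positivity

theorem one_le_FF {ρ : ℚ} (hρ : 0 ≤ ρ) (n : ℕ) : 1 ≤ FF ρ n := by
  unfold FF
  split_ifs with h
  · have := zz_nonneg hρ (seven_le h)
    linarith
  · exact le_rfl

theorem fac_ok {ρ : ℚ} {a b : ℕ} (hb : 0 < b) (h : (ρ : ℝ) = a / b) (n : ℕ) :
    1000000000000 * FF ρ n ≤ fac a b n := by
  unfold FF fac
  cases hg : gd n
  · simp
  have h7 := seven_le hg
  obtain ⟨h1, h2, h3⟩ := cQ_eq h7
  simp only [cond_true, if_true]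
  obtain ⟨i, hi⟩ : ∃ i, i = (n ^ 8).log2 + 1 := ⟨_, rfl⟩
  rw [zz_eq, ← hi, add_assoc, Nat.cast_add, mul_add, mul_one]
  refine add_le_add (by norm_num) (le_trans ?_ (le_div_succ _ _ (Nat.mul_pos h3 (Nat.mul_pos (by omega) (by omega)))))
  have h4 := le_div_succ (a ^ i * 1000000000000) (b ^ i) (pow_pos hb i)
  obtain ⟨U, hU⟩ : ∃ U, U = a ^ i * 1000000000000 / b ^ i + 1 := ⟨_, rfl⟩
  rw [← hU] at h4 ⊢
  have h5 : (ρ : ℝ) ^ i * 1000000000000 ≤ U := by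
    rw [h, div_pow, div_mul_eq_mul_div]
    exact_mod_cast h4
  have h6 : (0 : ℝ) < n - 1 := by
    have : (7 : ℝ) ≤ n := by exact_mod_cast h7
    linarith
  have h8 : (0 : ℝ) < cb n := by exact_mod_cast h3
  have h9 : (0 : ℝ) ≤ cb n - ca n := sub_nonneg.2 (by exact_mod_cast h2)
  push_cast [Nat.cast_sub h2, Nat.cast_sub (show 1 ≤ n by omega)]
  have e : 1000000000000 * (((cQ n : ℝ) + (1 - cQ n) * ((ρ : ℝ) ^ i / (n - 1))) / (n - 1)) =
      (ca n * (n - 1) * 1000000000000 + (cb n - ca n) * ((ρ : ℝ) ^ i * 1000000000000)) /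
        (cb n * ((n - 1) * (n - 1))) := by
    rw [h1]
    field_simp
  rw [e]
  gcongr

theorem pr_ok {ρ : ℚ} (hρ : 0 ≤ ρ) {a b : ℕ} (hb : 0 < b) (h : (ρ : ℝ) = a / b) (k : ℕ) : ∀ lo,
    1000000000000 * ∏ m ∈ range (2 ^ k), FF ρ (lo + m) ≤ pr a b k lo := by
  induction k with
  | zero =>
    intro lo
    rw [pow_zero, prod_range_one, add_zero]
    exact fac_ok hb h lo
  | succ k ih =>
    intro lo
    have h1 := ih lo
    have h2 := ih (lo + 2 ^ k)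
    have h0 : ∀ l, 0 ≤ ∏ m ∈ range (2 ^ k), FF ρ (l + m) := fun l =>
      prod_nonneg fun m _ => zero_le_one.trans (one_le_FF hρ _)
    refine le_trans ?_ (le_div_succ (pr a b k lo * pr a b k (lo + 2 ^ k)) 1000000000000 (by norm_num))
    rw [pow_succ, mul_two, prod_range_add, le_div_iff₀ (by norm_num)]
    simp only [← add_assoc]
    have h3 := mul_le_mul h1 h2 (mul_nonneg (by norm_num) (h0 _)) (Nat.cast_nonneg _)
    push_cast
    linarith

theorem tele (c : ℕ) (hc : 3 ≤ c) (d : ℕ) :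
    ∑ n ∈ Ico c (c + d), 1 / (((n : ℝ) - 1) * (n - 2)) = 1 / ((c : ℝ) - 2) - 1 / (c + d - 2) := by
  have h3 : (3 : ℝ) ≤ c := by exact_mod_cast hc
  induction d with
  | zero => simp
  | succ d ih =>
    rw [← add_assoc, sum_Ico_succ_top (by omega), ih]
    have h1 : (0 : ℝ) ≤ d := Nat.cast_nonneg d
    have h2 : (c : ℝ) + d - 2 ≠ 0 := by linarith
    have h4 : (c : ℝ) + d - 1 ≠ 0 := by linarith
    have h5 : (c : ℝ) + (d + 1) - 2 = c + d - 1 := by ring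
    push_cast
    rw [h5]
    field_simp
    ring

theorem zz_le {ρ : ℚ} (hρ : 1 ≤ ρ) {n j : ℕ} (h : 12 ≤ n) (hj : n < 2 ^ j) :
    zz ρ n ≤ (2 + ((ρ : ℝ) ^ 8) ^ j) * (1 / (((n : ℝ) - 1) * (n - 2))) := by
  have h12 : (12 : ℝ) ≤ n := by exact_mod_cast h
  have h1 : ((cQ n : ℚ) : ℝ) = 2 / (n - 2) := by
    unfold cQ
    rw [if_neg (by omega), if_neg (by omega)]
    push_cast
    rfl
  have h2 : (n ^ 8).log2 + 1 ≤ 8 * j := by
    have h3 : n ^ 8 < 2 ^ (8 * j) := by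
      rw [mul_comm, pow_mul]
      exact Nat.pow_lt_pow_left hj (by norm_num)
    exact (Nat.log2_lt (by positivity)).2 h3
  have h3 : (1 : ℝ) ≤ ρ := by exact_mod_cast hρ
  have h4 : (ρ : ℝ) ^ ((n ^ 8).log2 + 1) ≤ ((ρ : ℝ) ^ 8) ^ j := by
    rw [← pow_mul]
    exact pow_le_pow_right₀ h3 h2
  rw [zz_eq, h1]
  obtain ⟨u, hu⟩ : ∃ u, u = (ρ : ℝ) ^ ((n ^ 8).log2 + 1) := ⟨_, rfl⟩
  have h5 : 0 ≤ u := by rw [hu]; positivity
  rw [← hu] at h4 ⊢
  have h6 : (0 : ℝ) < n - 1 := by linarith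
  have h7 : (0 : ℝ) < n - 2 := by linarith
  have e : (2 / ((n : ℝ) - 2) + (1 - 2 / (n - 2)) * (u / (n - 1))) / (n - 1) =
      (2 + u * ((n - 4) / (n - 1))) * (1 / (((n : ℝ) - 1) * (n - 2))) := by
    field_simp
    ring
  rw [e]
  have h8 : u * (((n : ℝ) - 4) / (n - 1)) ≤ u :=
    mul_le_of_le_one_right h5 (div_le_one_of_le₀ (by linarith) h6.le)
  gcongr
  linarith

theorem block {ρ : ℚ} (hρ : 1 ≤ ρ) {j : ℕ} (hj : 14 ≤ j) :
    ∑ n ∈ Ico (2 ^ j) (2 ^ (j + 1)), zz ρ n ≤ 1001 / 1000 * (2 / 2 ^ (j + 1) + ((ρ : ℝ) ^ 8 / 2) ^ (j + 1)) := by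
  have h1 : 2 ^ 14 ≤ 2 ^ j := Nat.pow_le_pow_right (by norm_num) hj
  have h2 : (2 : ℝ) ^ 14 ≤ 2 ^ j := by exact_mod_cast h1
  refine (sum_le_sum fun n hn => zz_le hρ (by have := (mem_Ico.1 hn).1; omega) (mem_Ico.1 hn).2).trans ?_
  rw [← mul_sum, pow_succ 2 j, mul_two, tele _ (by omega), div_pow, pow_succ (2 : ℝ) j]
  push_cast
  obtain ⟨x, hx⟩ : ∃ x, x = (2 : ℝ) ^ j := ⟨_, rfl⟩
  rw [← hx] at h2 ⊢
  have h3 : 1 / (x - 2) - 1 / (x + x - 2) ≤ 1001 / 1000 / (x * 2) := by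
    rw [div_sub_div _ _ (by linarith) (by linarith), div_le_div_iff₀ (by nlinarith) (by linarith)]
    nlinarith
  have h4 : (0 : ℝ) ≤ ((ρ : ℝ) ^ 8) ^ (j + 1) := by positivity
  refine (mul_le_mul_of_nonneg_left h3 (by linarith)).trans (le_of_eq ?_)
  ring

theorem tail {ρ : ℚ} (hρ : 1 ≤ ρ) (h8 : ρ ^ 8 ≤ 1.07) (k : ℕ) :
    ∑ n ∈ Ico (2 ^ 14) (2 ^ (14 + k)), zz ρ n ≤ tl ρ := by
  have h1 : (ρ : ℝ) ^ 8 ≤ 1.07 := by
    have : ((ρ ^ 8 : ℚ) : ℝ) ≤ ((1.07 : ℚ) : ℝ) := by exact_mod_cast h8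
    push_cast at this
    exact this.trans (by norm_num)
  obtain ⟨s, hs⟩ : ∃ s, s = (ρ : ℝ) ^ 8 / 2 := ⟨_, rfl⟩
  have h2 : 0 < 1 - s := by rw [hs]; linarith
  have h3 : 0 ≤ s := by rw [hs]; positivity
  have key : ∑ n ∈ Ico (2 ^ 14) (2 ^ (14 + k)), zz ρ n +
      1001 / 1000 * (2 / 2 ^ (14 + k) + s ^ (14 + k + 1) / (1 - s)) ≤ tl ρ := by
    induction k with
    | zero =>
      unfold tl
      push_cast
      rw [← hs]
      simp
    | succ k ih =>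
      have h4 := block hρ (j := 14 + k) (by omega)
      rw [← hs] at h4
      rw [← add_assoc, ← sum_Ico_consecutive _ (Nat.pow_le_pow_right (by norm_num) (Nat.le_add_right 14 k))
        (Nat.pow_le_pow_right (by norm_num) (Nat.le_succ _))]
      have e1 : (2 : ℝ) / 2 ^ (14 + k) = 2 / 2 ^ (14 + k + 1) + 2 / 2 ^ (14 + k + 1) := by
        rw [pow_succ _ (14 + k)]
        field_simp
        ring
      have e2 : s ^ (14 + k + 1) / (1 - s) = s ^ (14 + k + 1) + s ^ (14 + k + 1 + 1) / (1 - s) := by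
        rw [pow_succ _ (14 + k + 1)]
        field_simp
        ring
      rw [e1, e2] at ih
      linarith
  exact (le_add_of_nonneg_right (by positivity)).trans key

end P0

open P0

/-- the checker -/
def p0chk (ρ P : ℚ) : Bool :=
  decide (tl ρ < 1) && decide ((pr ρ.num.toNat ρ.den 14 0 : ℚ) ≤ 1000000000000 * (P * (1 - tl ρ)))

theorem p0chk_ok {ρ P : ℚ} (hρ : 1 ≤ ρ) (h8 : ρ ^ 8 ≤ 1.07) (h : p0chk ρ P = true) : P0ok ρ P := by
  classical
  intro S hS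
  simp only [p0chk, Bool.and_eq_true, decide_eq_true_eq] at h
  have h0 : 0 ≤ ρ := zero_le_one.trans hρ
  have t1 : (0 : ℝ) < 1 - tl ρ := by
    have : ((tl ρ : ℚ) : ℝ) < 1 := by exact_mod_cast h.1
    linarith
  have t2 : (pr ρ.num.toNat ρ.den 14 0 : ℝ) ≤ 1000000000000 * (P * (1 - tl ρ)) := by exact_mod_cast h.2
  have t3 := pr_ok h0 ρ.den_pos (a := ρ.num.toNat) (by
    rw [Rat.cast_def]
    congr 1
    exact_mod_cast (Int.toNat_of_nonneg (Rat.num_nonneg.2 h0)).symm) 14 0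
  simp only [zero_add] at t3
  have h1 : ∏ p ∈ S.filter (· < 2 ^ 14), (1 + zz ρ p) ≤ P * (1 - tl ρ) := by
    have h2 : ∏ p ∈ S.filter (· < 2 ^ 14), (1 + zz ρ p) = ∏ p ∈ S.filter (· < 2 ^ 14), FF ρ p :=
      prod_congr rfl fun p hp => by
        obtain ⟨h3, h4⟩ := hS p (mem_filter.1 hp).1
        rw [FF, if_pos (gd_of h3 h4)]
    have h3 : ∏ p ∈ S.filter (· < 2 ^ 14), FF ρ p ≤ ∏ p ∈ range (2 ^ 14), FF ρ p :=
      prod_le_prod_of_subset_of_one_le (fun p hp => mem_range.2 (mem_filter.1 hp).2)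
        (fun p _ => zero_le_one.trans (one_le_FF h0 p)) fun p _ _ => one_le_FF h0 p
    linarith
  obtain ⟨k, hk⟩ : ∃ k, ∀ p ∈ S, p < 2 ^ (14 + k) :=
    ⟨S.sup id, fun p hp => (Nat.lt_two_pow_self).trans_le
      (Nat.pow_le_pow_right (by norm_num) ((le_sup (f := id) hp).trans (Nat.le_add_left _ _)))⟩
  have h2 : ∑ p ∈ S.filter (fun p => ¬ p < 2 ^ 14), zz ρ p ≤ tl ρ :=
    (sum_le_sum_of_subset_of_nonneg (fun p hp => mem_Ico.2 ⟨not_lt.1 (mem_filter.1 hp).2, hk p (mem_filter.1 hp).1⟩)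
      fun p hp _ => zz_nonneg h0 (by have := (mem_Ico.1 hp).1; omega)).trans (tail hρ h8 k)
  have h3 : ∏ p ∈ S.filter (fun p => ¬ p < 2 ^ 14), (1 + zz ρ p) ≤ 1 / (1 - tl ρ) := by
    have z0 : ∀ p ∈ S.filter (fun p => ¬ p < 2 ^ 14), 0 ≤ zz ρ p := fun p hp =>
      zz_nonneg h0 (hS p (mem_filter.1 hp).1).2
    calc ∏ p ∈ S.filter (fun p => ¬ p < 2 ^ 14), (1 + zz ρ p)
        ≤ ∏ p ∈ S.filter (fun p => ¬ p < 2 ^ 14), Real.exp (zz ρ p) :=
          prod_le_prod (fun p hp => by have := z0 p hp; linarith) fun p _ => by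
            have := Real.add_one_le_exp (zz ρ p); linarith
      _ ≤ Real.exp (tl ρ) := by rw [← Real.exp_sum]; exact Real.exp_le_exp.2 h2
      _ ≤ 1 / (1 - tl ρ) := by
          rw [le_div_iff₀ t1]
          have h4 := Real.add_one_le_exp (-(tl ρ : ℝ))
          have h5 : Real.exp (tl ρ) * Real.exp (-(tl ρ : ℝ)) = 1 := by rw [← Real.exp_add, add_neg_cancel, Real.exp_zero]
          have h6 := Real.exp_pos (tl ρ)
          nlinarith
  show ∏ p ∈ S, (1 + zz ρ p) ≤ P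
  rw [← prod_filter_mul_prod_filter_not S (· < 2 ^ 14)]
  have h4 : 0 ≤ ∏ p ∈ S.filter (· < 2 ^ 14), (1 + zz ρ p) := prod_nonneg fun p hp => by
    have := zz_nonneg h0 (hS p (mem_filter.1 hp).1).2
    linarith
  refine (mul_le_mul h1 h3 (prod_nonneg fun p hp => ?_) (h4.trans h1)).trans (le_of_eq ?_)
  · have := zz_nonneg h0 (hS p (mem_filter.1 hp).1).2
    linarith
  · field_simp

/-- **the values of the Euler product** -/
theorem boxP0 : BoxP0 := by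
  refine ⟨?_, ?_, ?_, ?_, ?_, ?_, ?_⟩ <;> exact p0chk_ok (by norm_num) (by norm_num) (by decide +kernel)

end Cfsg.Agent.Depth.N
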