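import Cfsg.Agent.Depth.N.Sk
import Cfsg.Agent.Depth.N.FF
import Cfsg.Agent.Depth.D.Nu
import Cfsg.Agent.Depth.D.Rho

/-!
# Depth (S5768): bounds for `Dact` at one denominator
-/

set_option autoImplicit false
set_option linter.unusedVariables false

namespace Cfsg.Agent.Depth.N

open Finset Cfsg.Agent.Depth.D
open scoped Classical

theorem Dact_nonneg' (N c1 : ℕ) (lam : ℕ → ℕ → ℝ) (η : ℝ) (q : ℕ) (β : ℝ) : 0 ≤ Dact N c1 lam η q β :=
  (le_fold_max _).2 (Or.inl le_rfl)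

theorem Dact_le {N c1 : ℕ} {lam : ℕ → ℕ → ℝ} {η : ℝ} {q : ℕ} {β x : ℝ} (hx : 0 ≤ x)
    (h : ∀ b : ℕ, b < q → b.Coprime q →
      ‖phiH N c1 lam (b / q + β) - nuH N c1 (b / q + β)‖ / Th N - η ≤ x) : Dact N c1 lam η q β ≤ x := by
  refine (fold_max_le _).2 ⟨hx, fun y hy => ?_⟩
  simp only [Finset.bind_def, Finset.pure_def, Finset.mem_sup, mem_filter, mem_range, mem_singleton] at hy
  obtain ⟨b, ⟨h1, h2⟩, rfl⟩ := hy
  exact h b h1 h2

theorem dl_nonneg' (N : ℕ) (β : ℝ) : 0 ≤ dl N β := by unfold dl; positivity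

theorem q2_le (q : ℕ) : q2 q ≤ q := Nat.div_le_self _ _

theorem le_q2 (q : ℕ) : q ≤ 60 * q2 q := by
  conv_lhs => rw [← gcd_mul_q2 q]
  exact Nat.mul_le_mul_right _ (Nat.le_of_dvd (by norm_num) (Nat.gcd_dvd_right _ _))

theorem Gs_one (k : ℕ) : Gs k 1 = 1 := by
  unfold Gs
  rw [Nat.floor_one, Icc_self, filter_singleton, if_pos ⟨squarefree_one, Nat.coprime_one_left k⟩, sum_singleton]
  simp

theorem dvd_of_sixty (n : ℕ) : ∀ m' r : ℕ, Squarefree r → r.Coprime (60 * n) → n ∣ m' * r → n ∣ m' :=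
  fun _ _ _ h1 h2 => (Nat.Coprime.coprime_mul_left_right h1).symm.dvd_of_dvd_mul_right h2

theorem cop_int {b q : ℕ} (h : b.Coprime q) : IsCoprime (b : ℤ) (q : ℤ) := Nat.isCoprime_iff_coprime.2 h

namespace Ctx

variable {r : Rg} {N c1 : ℕ} {lam : ℕ → ℕ → ℝ} (X : Ctx r N c1 lam)
include X

theorem R_le_B : (RR N : ℝ) ≤ 0.1 * BB N := by
  have h1 := RR_sq' N
  have h2 := RR_ge' X.hN
  have h3 := N_eq N
  nlinarith

theorem abs_le_of {q : ℕ} {β : ℝ} (h1 : 1 ≤ q) (hβ : q * RR N * |β| ≤ 1) : |β| ≤ 0.1 := by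
  have h2 := RR_ge' X.hN
  have h3 : (1 : ℝ) ≤ q := by exact_mod_cast h1
  have h4 := abs_nonneg β
  have h5 : (RR N : ℝ) * |β| ≤ q * RR N * |β| := by
    rw [mul_assoc]; exact le_mul_of_one_le_left (by positivity) h3
  nlinarith

theorem nu_small {q b : ℕ} {β : ℝ} (h2 : 2 ≤ q) (hq : q ≤ RR N) (hb : b < q) (hc : b.Coprime q)
    (hβ : q * RR N * |β| ≤ 1) : ‖nuH N c1 (b / q + β)‖ ≤ Th N * 1e-8 := by
  have hq0 : (0 : ℝ) < q := by exact_mod_cast (by omega : 0 < q)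
  have hqR : (q : ℝ) ≤ RR N := by exact_mod_cast hq
  have hR := RR_ge' X.hN
  have h1 := S.one_div_le_nd (q := q) (a := b) (by omega) fun h => by
    have h3 : q ∣ b := Int.natCast_dvd_natCast.1 h
    have h4 := Nat.Coprime.eq_one_of_dvd hc.symm h3
    omega
  rw [Int.cast_natCast] at h1
  have h3 := S.nd_sub_abs_le ((b : ℝ) / q) β
  have h4 := S.two_nd_le_sin ((b : ℝ) / q + β)
  have h5 : |β| ≤ 1 / (2 * q) := by
    rw [le_div_iff₀ (by positivity)]
    have h6 := mul_nonneg hq0.le (abs_nonneg β)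
    nlinarith
  have h6 : 1 / (RR N : ℝ) ≤ |Real.sin (Real.pi * ((b : ℝ) / q + β))| := by
    have h7 : 1 / (RR N : ℝ) ≤ 1 / q := one_div_le_one_div_of_le hq0 hqR
    have h8 : 1 / (q : ℝ) = 2 * (1 / (2 * q)) := by field_simp
    linarith
  have h7 := (boxNu N c1 X.h23 X.c1_lt).1 ((b : ℝ) / q + β)
  have h8 : 100000000 ≤ 11304960 * BB N * |Real.sin (Real.pi * ((b : ℝ) / q + β))| := by
    refine le_trans ?_ (mul_le_mul_of_nonneg_left h6 (by have := X.B_pos; positivity))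
    rw [mul_one_div, le_div_iff₀ X.R_pos]
    linarith [X.R_le_B, X.B_pos]
  have h9 := mul_le_mul_of_nonneg_left h8 (norm_nonneg (nuH N c1 ((b : ℝ) / q + β)))
  linarith

theorem nu_one {β : ℝ} (hβ : |β| ≤ 1 / 2) : ‖nuH N c1 β‖ / Th N * dl N β ≤ 4.36 := by
  have h1 := S.two_nd_le_sin β
  rw [S.nd_eq_abs hβ] at h1
  have h2 := (boxNu N c1 X.h23 X.c1_lt).1 β
  have h3 := mul_le_mul_of_nonneg_left (mul_le_mul_of_nonneg_left h1
    (show 0 ≤ 11304960 * BB N by have := X.B_pos; positivity)) (norm_nonneg (nuH N c1 β))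
  have h4 : 0 ≤ ‖nuH N c1 β‖ * (|β| * BB N) := by have := X.B_pos; positivity
  rw [div_mul_eq_mul_div, div_le_iff₀ X.Th_pos, dl_eq]
  nlinarith [X.Th_pos]

theorem TA_ge : (1 : ℝ) ≤ r.TA := by exact_mod_cast X.par.TA

theorem eta_ge : (0.0033 : ℝ) ≤ r.η := by have := qle X.par.η1; push_cast at this; exact this

theorem q_dl {q : ℕ} {β : ℝ} (hβ : q * RR N * |β| ≤ 1) : q * dl N β ≤ 3.2001 * RR N := by
  have h1 := le_RR_sq X.hN
  have h2 := X.R_pos
  have h3 : 0 ≤ (q : ℝ) * |β| := by positivity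
  have h4 := mul_le_mul_of_nonneg_left h1 h3
  have h5 := mul_le_mul_of_nonneg_right hβ h2.le
  unfold dl
  nlinarith

theorem base_le {q : ℕ} {β : ℝ} (hq : q ≤ RR N) (hβ : q * RR N * |β| ≤ 1) :
    q2 q * (r.TA + 0.0325 * dl N β) ≤ RR N * (r.TA + 0.105) := by
  have h1 : (q2 q : ℝ) ≤ q := by exact_mod_cast q2_le q
  have h2 : (q : ℝ) ≤ RR N := by exact_mod_cast hq
  have h3 := X.q_dl hβ
  have h4 := mul_le_mul_of_nonneg_right h1 (dl_nonneg' N β)
  have h5 := mul_le_mul_of_nonneg_right (h1.trans h2) (show (0 : ℝ) ≤ r.TA by linarith [X.TA_ge])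
  have h6 := X.R_pos
  nlinarith

theorem top_le : RR N * (r.TA + 0.105) *
    Real.exp (((1 / 4 : ℚ) : ℝ) * Real.log (BB N) - (tTop r : ℚ)) ^ 2 ≤ 0.0015 * BB N := by
  have h0 : (0 : ℝ) < (r.TA + 0.105) / 0.0015 := by have := X.TA_ge; positivity
  have h1 : Real.log ((r.TA + 0.105) / 0.0015) ≤ lgU ((r.TA + 0.105) / 0.0015) :=
    log_le_lgU h0 (by push_cast; exact le_rfl)
  have h2 := X.logR_le
  have h3 : RR N * ((r.TA + 0.105) / 0.0015) *
      Real.exp (((1 / 4 : ℚ) : ℝ) * Real.log (BB N) - (tTop r : ℚ)) ^ 2 ≤ BB N := by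
    rw [← Real.log_le_log_iff (by have := X.R_pos; positivity) X.B_pos,
      Real.log_mul (by have := X.R_pos; positivity) (by positivity), Real.log_mul X.R_pos.ne' h0.ne', Real.log_pow,
      Real.log_exp]
    unfold tTop
    push_cast
    linarith
  have h4 : RR N * (r.TA + 0.105) * Real.exp (((1 / 4 : ℚ) : ℝ) * Real.log (BB N) - (tTop r : ℚ)) ^ 2 =
      0.0015 * (RR N * ((r.TA + 0.105) / 0.0015) *
        Real.exp (((1 / 4 : ℚ) : ℝ) * Real.log (BB N) - (tTop r : ℚ)) ^ 2) := by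
    field_simp
  rw [h4]
  linarith

/-- the second part of the direct bound -/
theorem plat_of {q k qt : ℕ} {β R F : ℝ} {c : ℚ} (h1 : 1 ≤ q) (hq : q ≤ RR N) (hβ : q * RR N * |β| ≤ 1)
    (hh : 34611200 ≤ q2 q * max 1 (dl N β / (33 * r.TA))) (hR : 1 ≤ R)
    (hs : q2 q * (r.TA + 0.0325 * dl N β) * R ^ 2 ≤ 0.0015 * BB N) (hk : 60 ∣ k) (hqt : 0 < qt) (hF : 0 < F)
    (hG : Gs 60 R / F ≤ Gs k R) (hd : ∀ m' r : ℕ, Squarefree r → r.Coprime k → q2 q ∣ m' * r → qt ∣ m')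
    (hh' : 34611200 ≤ qt * max 1 (dl N β / (33 * r.TA))) (hc : cc N r.lo r.TA R * F ≤ c) (hp : plat r c = true) :
    Dact N c1 lam r.η q β = 0 := by
  refine le_antisymm (Dact_le le_rfl fun b hb hcop => ?_) (Dact_nonneg' _ _ _ _ _ _)
  have hT := X.TA_ge
  have hη := X.eta_ge
  have h2 := (boxDir N c1 lam b q k qt β r.lo r.TA R 34611200 F X.h23 X.hL h1 (cop_int hcop) X.lo_pos X.hTh
    (by linarith) hR hs hk hqt hF hG hd (by norm_num) hh').2 le_rfl
  rw [Int.cast_natCast] at h2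
  have h3 : √(cc N r.lo r.TA R * F * 2.14e-6) ≤ r.η - 1e-8 := by
    have h4 := qle (of_decide_eq_true hp)
    push_cast at h4
    exact Real.sqrt_le_iff.2 ⟨by linarith, by linarith⟩
  have h4 : ‖nuH N c1 (b / q + β)‖ ≤ Th N * 1e-8 := by
    rcases Nat.lt_or_ge q 2 with h5 | h5
    · obtain rfl : q = 1 := by omega
      obtain rfl : b = 0 := by omega
      have h6 := X.nu_one (β := β) ((X.abs_le_of h1 hβ).trans (by norm_num))
      rw [show q2 1 = 1 from rfl, Nat.cast_one, one_mul, le_max_iff] at hh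
      have h7 : 33 * 34611200 ≤ dl N β := by
        rcases hh with h8 | h8
        · norm_num at h8
        · rw [le_div_iff₀ (by positivity)] at h8
          linarith
      have h8 := mul_le_mul_of_nonneg_left h7 (div_nonneg (norm_nonneg (nuH N c1 β)) X.Th_pos.le)
      rw [Nat.cast_zero, zero_div, zero_add, mul_comm, ← div_le_iff₀ X.Th_pos]
      linarith
    · exact X.nu_small h5 hq hb hcop hβ
  have h5 := norm_sub_le (phiH N c1 lam (b / q + β)) (nuH N c1 (b / q + β))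
  have h6 := mul_le_mul_of_nonneg_left h3 X.Th_pos.le
  rw [sub_nonpos, div_le_iff₀ X.Th_pos]
  linarith

theorem plateau (hP : chkP r = true) {q : ℕ} {β : ℝ} (h1 : 1 ≤ q) (hq : q ≤ RR N) (hβ : q * RR N * |β| ≤ 1)
    (hh : 34611200 ≤ q2 q * max 1 (dl N β / (33 * r.TA))) : Dact N c1 lam r.η q β = 0 := by
  simp only [chkP, Bool.and_eq_true, Bool.or_eq_true, decide_eq_true_eq, Bool.not_eq_true'] at hP
  obtain ⟨⟨-, p1⟩, p2⟩ := hP
  have hT := X.TA_ge
  have hT' : (0 : ℚ) < r.TA := by linarith [X.par.TA]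
  have hq2 : 0 < q2 q := q2_pos h1
  have hb := X.base_le hq hβ
  have ht := X.top_le
  have hR : 1 ≤ Real.exp (((1 / 4 : ℚ) : ℝ) * Real.log (BB N) - (tTop r : ℚ)) := by
    refine Real.one_le_exp ?_
    have h2 := qle p1
    have h3 := X.xa_le
    push_cast at h2 ⊢
    linarith
  have hc := X.ccG_spec (s := 1 / 4) (t := tTop r) hT' (by norm_num) (by
    have h2 := lgU_nonneg ((r.TA + 0.105) / 0.0015)
    have h3 : (0 : ℚ) ≤ lgU ((r.TA + 0.105) / 0.0015) := by exact_mod_cast h2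
    unfold tTop
    linarith) p1
  set R := Real.exp (((1 / 4 : ℚ) : ℝ) * Real.log (BB N) - (tTop r : ℚ))
  have hs : q2 q * (r.TA + 0.0325 * dl N β) * R ^ 2 ≤ 0.0015 * BB N :=
    (mul_le_mul_of_nonneg_right hb (by positivity)).trans ht
  rcases p2 with ⟨p2, p3⟩ | ⟨p2, p3⟩
  · refine X.plat_of (R := 1) (F := 1) (k := 60 * q2 q) h1 hq hβ hh le_rfl (le_trans ?_ hs) (dvd_mul_right _ _) hq2
      one_pos (by rw [Gs_one, Gs_one, div_one]) (dvd_of_sixty _) hh ?_ p3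
    · exact mul_le_mul_of_nonneg_left (pow_le_pow_left₀ zero_le_one hR 2) (by have := dl_nonneg' N β; positivity)
    · rw [mul_one]
      push_cast
      exact X.cc_le_one (by linarith) (Gs_one 60).ge p2
  have hc0 := cc_pos X.h23 X.lo_pos (show (0 : ℝ) < r.TA by linarith) hR
  by_cases h2 : 34611200 * 7436429 ≤ q2 q * max 1 (dl N β / (33 * r.TA))
  · obtain ⟨k, qt, a1, a2, a3, a4, a5⟩ := boxTrick (q2 q) _ hq2 (le_max_left _ _) h2
    refine X.plat_of h1 hq hβ hh hR hs a1 a2 (by norm_num) (a5 R) a4 a3 ?_ p2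
    push_cast
    exact mul_le_mul_of_nonneg_right hc (by norm_num)
  rw [not_le] at h2
  have h3 : ff (q2 q) ≤ 1.8379 := by
    have h4 : (q2 q : ℝ) < 34611200 * 7436429 :=
      lt_of_le_of_lt (le_mul_of_one_le_right (Nat.cast_nonneg _) (le_max_left _ _)) h2
    have h5 : q2 q < 34611200 * 7436429 := by exact_mod_cast h4
    have h6 := ff_thr (q2 q) 10 (by norm_num) (h5.trans (by decide))
    rw [show fv.getD 10 0 = 1.8379 from rfl] at h6
    push_cast at h6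
    exact h6
  rcases p3 with p3 | ⟨⟨p3, p4⟩, p5⟩
  · refine X.plat_of h1 hq hβ hh hR hs (dvd_mul_right _ _) hq2 (ff_pos _) (S.gh1 _ R hq2) (dvd_of_sixty _) hh ?_ p3
    push_cast
    exact mul_le_mul hc h3 (ff_pos _).le (by linarith)
  · have h4 := X.ccH_spec hT' p3 p4
    have h5 : 1 ≤ lev N (lMid r) := X.one_le_lev (qle p4)
    have h6 := cc_pos X.h23 X.lo_pos (show (0 : ℝ) < r.TA by linarith) h5
    refine X.plat_of h1 hq hβ hh h5 ?_ (dvd_mul_right _ _) hq2 (ff_pos _) (S.gh1 _ _ hq2) (dvd_of_sixty _) hh ?_ p5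
    · have h7 := X.mul_lev_sq (A := 2.0725 * r.TA * (34611200 * 7436429) / 0.0015) (lc := lMid r) (by positivity)
        (log_le_lgU (by positivity) (by push_cast; exact le_rfl))
      have h8 : r.TA + 0.0325 * dl N β ≤ 2.0725 * r.TA * max 1 (dl N β / (33 * r.TA)) := by
        have a1 := mul_le_mul_of_nonneg_left (le_max_left 1 (dl N β / (33 * r.TA))) (show (0 : ℝ) ≤ r.TA by linarith)
        have a2 := (div_le_iff₀ (show (0 : ℝ) < 33 * r.TA by linarith)).1 (le_max_right 1 (dl N β / (33 * r.TA)))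
        linarith
      have h9 : q2 q * (r.TA + 0.0325 * dl N β) ≤ 2.0725 * r.TA * (34611200 * 7436429) := by
        have a1 := mul_le_mul_of_nonneg_left h8 (Nat.cast_nonneg (α := ℝ) (q2 q))
        have a2 := mul_le_mul_of_nonneg_left h2.le (show (0 : ℝ) ≤ 2.0725 * r.TA by linarith)
        linarith
      have h10 := mul_le_mul_of_nonneg_right h9 (sq_nonneg (lev N (lMid r)))
      rw [div_mul_eq_mul_div, div_le_iff₀ (by norm_num)] at h7
      linarith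
    · push_cast
      exact mul_le_mul h4 h3 (ff_pos _).le (by linarith)

theorem plateau_off (hP : chkP r = true) {q : ℕ} {β : ℝ} (h1 : 1 ≤ q) (hq : q ≤ RR N)
    (h2 : 1 ≤ 2 * q * RR N * |β|) (hβ : q * RR N * |β| ≤ 1) : Dact N c1 lam r.η q β = 0 := by
  refine X.plateau hP h1 hq hβ ?_
  simp only [chkP, Bool.and_eq_true, decide_eq_true_eq] at hP
  have hT := X.TA_ge
  have h3 : 1237.5 * r.TA * 34611200 ≤ (RR N : ℝ) := by
    rw [← Real.log_le_log_iff (by positivity) X.R_pos]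
    exact (log_le_lgU (by positivity) (by push_cast; exact le_rfl)).trans ((qle hP.1.1).trans X.La_le)
  have h4 : 1.6 * RR N ≤ q * dl N β := by
    have a1 := RR_sq' N
    have a2 := X.R_pos
    have a3 := mul_le_mul_of_nonneg_left a1 (show 0 ≤ (q : ℝ) * |β| by positivity)
    have a4 := mul_le_mul_of_nonneg_right h2 a2.le
    unfold dl
    nlinarith
  have h5 : (q : ℝ) ≤ 60 * q2 q := by exact_mod_cast le_q2 q
  have h6 := mul_le_mul_of_nonneg_right h5 (dl_nonneg' N β)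
  refine le_trans ?_ (mul_le_mul_of_nonneg_left (le_max_right _ _) (Nat.cast_nonneg _))
  rw [← mul_div_assoc, le_div_iff₀ (by positivity)]
  linarith

theorem plateau_arc (hP : chkP r = true) {q n : ℕ} {β : ℝ} {T l8 : ℚ} (hF : Fam r N β T l8 n) (h1 : 1 ≤ q)
    (hq : q ≤ RR N) (hβ : q * RR N * |β| ≤ 1) (hh : 2 ^ n ≤ ht N q β ^ 4) : Dact N c1 lam r.η q β = 0 := by
  refine X.plateau hP h1 hq hβ ?_
  have hT := X.TA_ge
  unfold ht sg at hh
  rcases hF with ⟨h2, -, -, rfl⟩ | ⟨h2, -, -, rfl⟩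
  · rw [max_eq_left ((div_le_one (by norm_num)).2 h2), mul_one] at hh
    refine le_trans ?_ (le_mul_of_one_le_right (Nat.cast_nonneg _) (le_max_left _ _))
    exact (pow_le_pow_iff_left₀ (by norm_num) (Nat.cast_nonneg _) (by norm_num : 4 ≠ 0)).1 (le_trans (by norm_num) hh)
  · rw [max_eq_right ((one_le_div (by norm_num)).2 h2)] at hh
    have h3 := qle X.par.i3
    push_cast at h3
    have h4 := (pow_le_pow_iff_left₀ (by positivity) (by positivity) (by norm_num : 4 ≠ 0)).1 (h3.trans hh)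
    refine le_trans ?_ (mul_le_mul_of_nonneg_left (le_max_right _ _) (Nat.cast_nonneg _))
    rw [← mul_div_assoc, le_div_iff₀ (by positivity)]
    linarith

theorem fam_n {n : ℕ} {β : ℝ} {T l8 : ℚ} (hF : Fam r N β T l8 n) : n ≤ r.iP := by
  rcases hF with ⟨-, -, -, rfl⟩ | ⟨-, -, -, rfl⟩
  exacts [X.par.i1, le_rfl]

theorem lc_le {i : ℕ} (hi : i < r.iP) {l : ℚ} (h1 : 4.4 ≤ l) (h2 : l ≤ 8.91) :
    4.4 ≤ (i + 2) * l2 / 4 + l ∧ (i + 2) * l2 / 4 + l ≤ r.xa := by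
  have h3 := X.par.i4
  have h4 : ((i + 1 : ℕ) : ℚ) ≤ r.iP := by exact_mod_cast hi
  have h5 : (0 : ℚ) ≤ i := Nat.cast_nonneg _
  push_cast at h4
  unfold l2 at h3 ⊢
  constructor <;> linarith

omit X in
theorem ht_ge {q : ℕ} (h1 : 1 ≤ q) (β : ℝ) : (q2 q : ℝ) ≤ ht N q β ∧ 0 < ht N q β := by
  have h2 : (q2 q : ℝ) ≤ ht N q β := le_mul_of_one_le_right (Nat.cast_nonneg _) (le_max_left _ _)
  exact ⟨h2, lt_of_lt_of_le (by exact_mod_cast q2_pos h1) h2⟩

/-- the sieve condition at a level given by the height -/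
theorem ht_lev {q i : ℕ} {β a : ℝ} {l : ℚ} (h1 : 1 ≤ q) (hup : ht N q β ^ 4 < 2 ^ (i + 2)) (ha : 0 < a)
    (hl : Real.log a ≤ l) : a * ht N q β * lev N (((i + 2) * l2 / 4 + l : ℚ) : ℝ) ^ 2 ≤ BB N := by
  have h2 := (ht_ge (N := N) h1 β).2
  refine X.mul_lev_sq (by positivity) ?_
  have h3 := log_le_of_pow_le h2 (by norm_num) hup.le
  rw [Real.log_mul ha.ne' h2.ne']
  push_cast at h3 ⊢
  linarith

theorem ff_le_Fm {q i : ℕ} {β : ℝ} (h1 : 1 ≤ q) (hi : i < r.iP) (hup : ht N q β ^ 4 < 2 ^ (i + 2)) :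
    ff (q2 q) ≤ Fm (i + 2) := by
  refine Fm_spec boxFF (by have := X.par.i2; omega) ?_
  have h2 := lt_of_le_of_lt (pow_le_pow_left₀ (Nat.cast_nonneg _) (ht_ge (N := N) h1 β).1 4) hup
  exact_mod_cast h2

/-- the data for the noise and the direct bound -/
theorem fam_lev {q n i : ℕ} {β : ℝ} {T l8 : ℚ} (hF : Fam r N β T l8 n) (h1 : 1 ≤ q) (hi : i < n)
    (hlo' : 2 ^ i ≤ ht N q β ^ 4) (hup : ht N q β ^ 4 < 2 ^ (i + 2)) :
    ∃ R : ℝ, (0 : ℝ) < T ∧ 1 ≤ R ∧ q2 q * (T + 0.0325 * dl N β) * R ^ 2 ≤ 0.0015 * BB N ∧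
      (hlo i : ℝ) ≤ q2 q * max 1 (dl N β / (33 * T)) ∧ cc N r.lo T R * ff (q2 q) ≤ c8 r T l8 i := by
  have hi' := lt_of_lt_of_le hi (X.fam_n hF)
  obtain ⟨g1, g2⟩ := ht_ge (N := N) h1 β
  have h2 := hlo_le g2.le hlo'
  have h3 : 0 < T ∧ 4.4 ≤ l8 ∧ l8 ≤ 8.91 := by
    rcases hF with ⟨-, rfl, rfl, -⟩ | ⟨-, rfl, rfl, -⟩ <;> norm_num
  have hT : (0 : ℝ) < T := by exact_mod_cast h3.1
  obtain ⟨h4, h5⟩ := X.lc_le hi' h3.2.1 h3.2.2
  have h6 := X.one_le_lev (qle h5)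
  refine ⟨lev N (((i + 2) * l2 / 4 + l8 : ℚ) : ℝ), hT, h6, ?_, ?_, ?_⟩
  · rcases hF with ⟨h7, rfl, rfl, -⟩ | ⟨h7, rfl, rfl, -⟩
    · have h8 := X.ht_lev (l := 8.9076) h1 hup (by norm_num) (log_10_le.trans (by norm_num))
      have h9 : q2 q * (((10 : ℚ) : ℝ) + 0.0325 * dl N β) ≤ 11.08 * ht N q β := by
        have a1 := mul_le_mul_of_nonneg_left h7 (Nat.cast_nonneg (α := ℝ) (q2 q))
        push_cast
        linarith
      have h10 := mul_le_mul_of_nonneg_right h9 (sq_nonneg (lev N (((i + 2) * l2 / 4 + 8.9076 : ℚ) : ℝ)))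
      linarith
    · have h8 := X.ht_lev (l := 7.2312) h1 hup (by norm_num) (log_1_le.trans (by norm_num))
      have h9 : q2 q * (((1 : ℚ) : ℝ) + 0.0325 * dl N β) ≤ 2.0725 * ht N q β := by
        have a1 : q2 q * (dl N β / 33) ≤ ht N q β :=
          mul_le_mul_of_nonneg_left (le_max_right _ _) (Nat.cast_nonneg _)
        push_cast
        linarith
      have h10 := mul_le_mul_of_nonneg_right h9 (sq_nonneg (lev N (((i + 2) * l2 / 4 + 7.2312 : ℚ) : ℝ)))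
      linarith
  · refine h2.trans ?_
    unfold ht sg
    rcases hF with ⟨h7, rfl, rfl, -⟩ | ⟨h7, rfl, rfl, -⟩
    · rw [max_eq_left ((div_le_one (by norm_num)).2 h7)]
      exact mul_le_mul_of_nonneg_left (le_max_left _ _) (Nat.cast_nonneg _)
    · rw [Rat.cast_one, mul_one]
  · refine le_trans ?_ (le_up' _)
    have h7 := X.ccH_spec h3.1 h4 h5
    have h8 := cc_pos X.h23 X.lo_pos hT h6
    rw [Rat.cast_mul]
    exact mul_le_mul h7 (X.ff_le_Fm h1 hi' hup) (ff_pos _).le (by linarith)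

theorem ptA (hFor : BoxFor) {q n i : ℕ} {β : ℝ} {T l8 G F1 : ℚ} (hF : Fam r N β T l8 n) (h1 : 1 ≤ q)
    (hq : q ≤ RR N) (hβ : q * RR N * |β| ≤ 1) (hi : i < n) (hlo : 2 ^ i ≤ ht N q β ^ 4)
    (hup : ht N q β ^ 4 < 2 ^ (i + 2)) (hG : (ge q : ℝ) ≤ G) (hF1 : 0.54 * (ge q / 0.66 + 2.64 / ge q) ≤ (F1 : ℝ))
    {Mt cw : ℝ} (hM0 : 0 ≤ Mt) (hM : MatLe N c1 q β Mt) (hcw : (cF r i : ℝ) ≤ cw) (hinv : 0 ≤ invT N q β) :
    Dact N c1 lam r.η q β ≤ Mt + cw * (ff (q2 q) * invT N q β) + (nA r T l8 G F1 i : ℝ) / 10 ^ 9 := by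
  have hi' := lt_of_lt_of_le hi (X.fam_n hF)
  obtain ⟨R, hT, hR, hs, hh, hc⟩ := X.fam_lev hF h1 hi hlo hup
  obtain ⟨g1, g2⟩ := ht_ge (N := N) h1 β
  obtain ⟨h4, h5⟩ := X.lc_le hi' (l := 6.9135) (by norm_num) (by norm_num)
  have h6 := X.one_le_lev (qle h5)
  have h7 : cc N r.lo 10 (lev N (((i + 2) * l2 / 4 + 6.9135 : ℚ) : ℝ)) ≤ cF r i := by
    have := X.ccH_spec (T := 10) (by norm_num) h4 h5
    rwa [Rat.cast_ofNat] at this
  have h8 := X.ht_lev (l := 6.9135) h1 hup (by norm_num) (log_F_le.trans (by norm_num))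
  set R' := lev N (((i + 2) * l2 / 4 + 6.9135 : ℚ) : ℝ)
  have h9 := cc_pos X.h23 X.lo_pos (show (0 : ℝ) < 10 by norm_num) h6
  have h10 : q2 q * (12 + 0.144 * dl N β) * R' ^ 2 ≤ BB N / 60 := by
    have a1 : q2 q * (dl N β / 33) ≤ ht N q β := mul_le_mul_of_nonneg_left (le_max_right _ _) (Nat.cast_nonneg _)
    have a2 : q2 q * (12 + 0.144 * dl N β) ≤ 1005.6 / 60 * ht N q β := by linarith
    have a3 := mul_le_mul_of_nonneg_right a2 (sq_nonneg R')
    linarith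
  have hf := ff_pos (q2 q)
  have hfm := X.ff_le_Fm h1 hi' hup
  have hl := one_le_hlo i
  refine Dact_le (by have : 0 ≤ cw := by linarith
                     positivity) fun b hb hcop => ?_
  have a1 := boxSplit N c1 lam b q β h1
  have a2 := hFor N b q β r.lo R' X.h23 h1 (cop_int hcop) X.lo_pos X.hTh h6 h10
  have a3 := boxNoi N c1 lam b q β r.lo T R (Cfsg.Agent.Depth.N.hlo i) X.h23 X.hL h1 (cop_int hcop) X.lo_pos X.hTh hT hR hs
    (by linarith) hh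
  rw [Int.cast_natCast] at a1 a3
  have a4 : ‖matH N c1 b q β - nuH N c1 (b / q + β)‖ ≤ Th N * (Mt + 0.000001) := by
    have hTh := X.Th_pos
    rcases Nat.lt_or_ge q 2 with b1 | b1
    · obtain rfl : q = 1 := by omega
      obtain rfl : b = 0 := by omega
      have b2 := (boxNu N c1 X.h23 X.c1_lt).2.2 β (X.abs_le_of h1 hβ)
      rw [Nat.cast_zero, Nat.cast_zero, zero_div, zero_add]
      nlinarith
    · have b2 := hM (by omega) b hb hcop
      have b3 := X.nu_small b1 hq hb hcop hβ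
      have b4 := norm_sub_le (matH N c1 b q β) (nuH N c1 (b / q + β))
      linarith
  have a5 : min 0.03491 ((cc N r.lo T R * ff (q2 q) * (1.604e-12 / Cfsg.Agent.Depth.N.hlo i + 6.97e-20)) ^ (1 / 8 : ℝ)) ≤
      (nz r T l8 i : ℝ) := by
    unfold nz
    rw [Rat.cast_min]
    refine min_le_min (by norm_num) (rt8_spec ?_ ?_)
    · push_cast
      exact mul_le_mul_of_nonneg_right hc (by positivity)
    · have := cc_pos X.h23 X.lo_pos hT hR
      positivity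
  have a6 : (ge q : ℝ) ^ 2 ≤ G ^ 2 := pow_le_pow_left₀ (Nat.cast_nonneg _) hG 2
  have a7 : cc N r.lo 10 R' * ff (q2 q) * (0.54 * (ge q / 0.66 + 2.64 / ge q) * 202.6 / 2826240) ≤
      F1 * 202.6 / 2826240 * cF r i * Fm (i + 2) := by
    have b1 : cc N r.lo 10 R' * ff (q2 q) ≤ cF r i * Fm (i + 2) := mul_le_mul h7 hfm hf.le (by linarith)
    have b2 := mul_le_mul b1 hF1 (by positivity) (le_trans (by positivity) b1)
    linarith
  have a8 : cc N r.lo 10 R' * (ff (q2 q) * invT N q β) ≤ cw * (ff (q2 q) * invT N q β) :=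
    mul_le_mul_of_nonneg_right (h7.trans hcw) (by positivity)
  have a9 : 1e-8 + 6.5e-7 * (G : ℝ) ^ 2 + 0.001001 + F1 * 202.6 / 2826240 * cF r i * Fm (i + 2) + nz r T l8 i - r.η ≤
      (nA r T l8 G F1 i : ℝ) / 10 ^ 9 := by
    have b1 := qle (Nat.le_ceil ((1e-8 + 6.5e-7 * G ^ 2 + 0.001001 + F1 * 202.6 / 2826240 * cF r i * Fm (i + 2) +
      nz r T l8 i - r.η) * 10 ^ 9))
    rw [le_div_iff₀ (by positivity)]
    unfold nA
    push_cast at b1
    exact b1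
  have a10 := norm_sub_le_norm_sub_add_norm_sub (phiH N c1 lam (b / q + β)) (matH N c1 b q β) (nuH N c1 (b / q + β))
  have a11 : ‖phiH N c1 lam (b / q + β) - nuH N c1 (b / q + β)‖ ≤ Th N * (Mt + 0.000001 +
      (1e-8 + 6.5e-7 * (ge q : ℝ) ^ 2 + cc N r.lo 10 R' * ff (q2 q) *
        (0.54 * (ge q / 0.66 + 2.64 / ge q) * 202.6 / 2826240 + invT N q β)) +
      (0.001 + min 0.03491 ((cc N r.lo T R * ff (q2 q) *
        (1.604e-12 / Cfsg.Agent.Depth.N.hlo i + 6.97e-20)) ^ (1 / 8 : ℝ)))) := by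
    unfold invT
    linarith
  rw [← div_le_iff₀' X.Th_pos] at a11
  linarith

theorem ptB {q n i : ℕ} {β : ℝ} {T l8 : ℚ} (hF : Fam r N β T l8 n) (h1 : 1 ≤ q)
    (hq : q ≤ RR N) (hβ : q * RR N * |β| ≤ 1) (hi : i < n) (hlo : 2 ^ i ≤ ht N q β ^ 4)
    (hup : ht N q β ^ 4 < 2 ^ (i + 2)) :
    Dact N c1 lam r.η q β ≤ (nB r T l8 i : ℝ) / 10 ^ 9 + if q = 1 then ‖nuH N c1 β‖ / Th N else 0 := by
  obtain ⟨R, hT, hR, hs, hh, hc⟩ := X.fam_lev hF h1 hi hlo hup
  have hTh := X.Th_pos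
  have hl := one_le_hlo i
  have hq2 : 0 < q2 q := q2_pos h1
  refine Dact_le (by split_ifs <;> positivity) fun b hb hcop => ?_
  have a1 := (boxDir N c1 lam b q (60 * q2 q) (q2 q) β r.lo T R (Cfsg.Agent.Depth.N.hlo i) (ff (q2 q)) X.h23 X.hL h1
    (cop_int hcop) X.lo_pos X.hTh hT hR hs (dvd_mul_right _ _) hq2 (ff_pos _) (S.gh1 _ R hq2) (dvd_of_sixty _)
    (by linarith) hh).1
  rw [Int.cast_natCast, ← div_le_iff₀' hTh] at a1
  have a2 : √(cc N r.lo T R * ff (q2 q) * (51.8 / Cfsg.Agent.Depth.N.hlo i + 2.14e-6)) ≤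
      rt2 (c8 r T l8 i * (51.8 / Cfsg.Agent.Depth.N.hlo i + 2.14e-6)) := by
    refine rt2_spec ?_ ?_
    · push_cast
      exact mul_le_mul_of_nonneg_right hc (by positivity)
    · have := cc_pos X.h23 X.lo_pos hT hR
      have := ff_pos (q2 q)
      positivity
  have a3 : (rt2 (c8 r T l8 i * (51.8 / Cfsg.Agent.Depth.N.hlo i + 2.14e-6)) : ℝ) + 0.000001 - r.η ≤
      (nB r T l8 i : ℝ) / 10 ^ 9 := by
    have b1 := qle (Nat.le_ceil ((rt2 (c8 r T l8 i * (51.8 / Cfsg.Agent.Depth.N.hlo i + 2.14e-6)) + 0.000001 - r.η) *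
      10 ^ 9))
    rw [le_div_iff₀ (by positivity)]
    unfold nB
    push_cast at b1
    exact b1
  have a4 : ‖nuH N c1 (b / q + β)‖ / Th N ≤ 0.000001 + if q = 1 then ‖nuH N c1 β‖ / Th N else 0 := by
    split_ifs with b1
    · subst b1
      obtain rfl : b = 0 := by omega
      rw [Nat.cast_zero, zero_div, zero_add]
      linarith
    · have b2 := X.nu_small (by omega) hq hb hcop hβ
      rw [add_zero, div_le_iff₀ hTh]
      linarith
  have a5 := div_le_div_of_nonneg_right (norm_sub_le (phiH N c1 lam (b / q + β)) (nuH N c1 (b / q + β))) hTh.le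
  rw [add_div] at a5
  linarith

end Ctx

end Cfsg.Agent.Depth.N
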