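import Cfsg.Agent.Depth.N.Rgs

/-!
# Depth (S5768): runs of the checker
-/

set_option autoImplicit false

namespace Cfsg.Agent.Depth.N

theorem chk0_0 : chk0 rg0 = true := by decide +kernel

theorem chkP_0 : chkP rg0 = true := by decide +kernel

theorem chkC_0 : chkC rg0 = true := by decide +kernel

theorem chk1_0 : chk1 rg0 = true := by decide +kernel

theorem chk2_0 : chk2 rg0 = true := by decide +kernel

theorem chk3_0 : chk3 rg0 = true := by decide +kernel

theorem chk0_1 : chk0 rg1 = true := by decide +kernel

theorem chkP_1 : chkP rg1 = true := by decide +kernel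

theorem chkC_1 : chkC rg1 = true := by decide +kernel

theorem chk1_1 : chk1 rg1 = true := by decide +kernel

theorem chk2_1 : chk2 rg1 = true := by decide +kernel

theorem chk3_1 : chk3 rg1 = true := by decide +kernel

theorem chk0_2 : chk0 rg2 = true := by decide +kernel

theorem chkP_2 : chkP rg2 = true := by decide +kernel

theorem chkC_2 : chkC rg2 = true := by decide +kernel

theorem chk1_2 : chk1 rg2 = true := by decide +kernel

theorem chk2_2 : chk2 rg2 = true := by decide +kernel

theorem chk3_2 : chk3 rg2 = true := by decide +kernel

end Cfsg.Agent.Depth.N
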