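import Cfsg.Agent.Depth.N.Rgs

/-!
# Depth (S5768): runs of the checker
-/

set_option autoImplicit false

namespace Cfsg.Agent.Depth.N

theorem chk0_3 : chk0 rg3 = true := by decide +kernel

theorem chkP_3 : chkP rg3 = true := by decide +kernel

theorem chkC_3 : chkC rg3 = true := by decide +kernel

theorem chk1_3 : chk1 rg3 = true := by decide +kernel

theorem chk2_3 : chk2 rg3 = true := by decide +kernel

theorem chk3_3 : chk3 rg3 = true := by decide +kernel

theorem chk0_4 : chk0 rg4 = true := by decide +kernel

theorem chkP_4 : chkP rg4 = true := by decide +kernel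

theorem chkC_4 : chkC rg4 = true := by decide +kernel

theorem chk1_4 : chk1 rg4 = true := by decide +kernel

theorem chk2_4 : chk2 rg4 = true := by decide +kernel

theorem chk3_4 : chk3 rg4 = true := by decide +kernel

theorem chk0_5 : chk0 rg5 = true := by decide +kernel

theorem chkP_5 : chkP rg5 = true := by decide +kernel

theorem chkC_5 : chkC rg5 = true := by decide +kernel

theorem chk1_5 : chk1 rg5 = true := by decide +kernel

theorem chk2_5 : chk2 rg5 = true := by decide +kernel

theorem chk3_5 : chk3 rg5 = true := by decide +kernel

end Cfsg.Agent.Depth.N
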