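import Cfsg.Agent.Depth.N.Rgs

/-!
# Depth (S5768): runs of the checker
-/

set_option autoImplicit false

namespace Cfsg.Agent.Depth.N

theorem chk0_6 : chk0 rg6 = true := by decide +kernel

theorem chkP_6 : chkP rg6 = true := by decide +kernel

theorem chkC_6 : chkC rg6 = true := by decide +kernel

theorem chk1_6 : chk1 rg6 = true := by decide +kernel

theorem chk2_6 : chk2 rg6 = true := by decide +kernel

theorem chk3_6 : chk3 rg6 = true := by decide +kernel

theorem chk0_7 : chk0 rg7 = true := by decide +kernel

theorem chkP_7 : chkP rg7 = true := by decide +kernel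

theorem chkC_7 : chkC rg7 = true := by decide +kernel

theorem chk1_7 : chk1 rg7 = true := by decide +kernel

theorem chk2_7 : chk2 rg7 = true := by decide +kernel

theorem chk3_7 : chk3 rg7 = true := by decide +kernel

theorem chk0_8 : chk0 rg8 = true := by decide +kernel

theorem chkP_8 : chkP rg8 = true := by decide +kernel

theorem chkC_8 : chkC rg8 = true := by decide +kernel

theorem chk1_8 : chk1 rg8 = true := by decide +kernel

theorem chk2_8 : chk2 rg8 = true := by decide +kernel

theorem chk3_8 : chk3 rg8 = true := by decide +kernel

end Cfsg.Agent.Depth.N
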