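import Cfsg.Agent.Depth.N.Ctx

/-!
# Depth (S5768): heights, families and hypotheses of the numerical part
-/

set_option autoImplicit false

namespace Cfsg.Agent.Depth.N

open Finset
open scoped Classical

/-- scale factor of the drift -/
noncomputable def sg (N : ℕ) (β : ℝ) : ℝ := max 1 (dl N β / 33)

/-- height of the point `a'/q' + β` -/
noncomputable def ht (N q' : ℕ) (β : ℝ) : ℝ := q2 q' * sg N β

/-- the two families of cells -/
def Fam (r : Rg) (N : ℕ) (β : ℝ) (T l8 : ℚ) (n : ℕ) : Prop :=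
  (dl N β ≤ 33 ∧ T = 10 ∧ l8 = 8.9076 ∧ n = 101) ∨ (33 ≤ dl N β ∧ T = 1 ∧ l8 = 7.2312 ∧ n = r.iP)

/-- bound for the matching terms at all numerators -/
def MatLe (N c1 q' : ℕ) (β x : ℝ) : Prop :=
  q' ≠ 1 → ∀ b : ℕ, b < q' → b.Coprime q' → ‖matH N c1 b q' β‖ ≤ Th N * x

/-- primes in progressions for the range -/
def PIH (r : Rg) (N : ℕ) : Prop :=
  ∃ x0 : ℝ, x0 ≤ BB N ∧ PI 120 x0 r.p2.1 r.p2.2 ∧ ∀ p ∈ SP, PI (120 * p) x0 (ppv r p).1 (ppv r p).2

/-- the bound used for the multiplier `d` in an explicit cell -/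
noncomputable def mtE (r : Rg) (k g : ℕ) (e : ℚ × ℚ) (d : ℕ) : ℝ :=
  if d ∈ spd k then min (omg e.1 * trm r.ρ r.C (k * d)) (max 0 (bet r g e (k * d) : ℚ))
  else omg e.1 * trm r.ρ r.C (k * d)

end Cfsg.Agent.Depth.N
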